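import Cfsg.Agent.H308.CA.Fam

/-!
# S3852, type A: the elements with `x ^ r = m ^ r`, `r` dividing `q - ε` (task CA14)
-/

set_option autoImplicit false
set_option linter.unusedSectionVars false

namespace Cfsg.Agent.H957.CarLab

open Matrix Cfsg.Agent.H308.CA

/-! ### powers indexed by `ZMod r` -/

section pw

variable {M : Type*} [Monoid M] {r : ℕ} [NeZero r]

/-- `z ^ i` for `i` modulo `r` -/
def pw (z : M) (i : ZMod r) : M := z ^ i.val

theorem pw_zero (z : M) : pw z (0 : ZMod r) = 1 := by rw [pw, ZMod.val_zero, pow_zero]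

theorem pw_add {z : M} (hz : z ^ r = 1) (i j : ZMod r) : pw z (i + j) = pw z i * pw z j := by
  rw [pw, pw, pw, ← pow_add, ZMod.val_add, ← pow_eq_pow_mod _ hz]

theorem pw_nat {z : M} (hz : z ^ r = 1) (k : ℕ) : pw z (k : ZMod r) = z ^ k := by
  rw [pw, ZMod.val_natCast, ← pow_eq_pow_mod _ hz]

theorem pw_one {z : M} (hz : z ^ r = 1) : pw z (1 : ZMod r) = z := by
  have h := pw_nat hz 1
  rwa [Nat.cast_one, pow_one] at h

theorem pw_mul {z : M} (hz : z ^ r = 1) (i j : ZMod r) : pw z (i * j) = pw z i ^ j.val := by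
  rw [pw, pw, ← pow_mul, ZMod.val_mul, ← pow_eq_pow_mod _ hz]

theorem map_pw {N F : Type*} [Monoid N] [FunLike F M N] [MonoidHomClass F M N] (f : F) (z : M) (i : ZMod r) :
    f (pw z i) = pw (f z) i := map_pow f z _

end pw

/-- the elements of order dividing `r` in a cyclic group -/
theorem exists_pw {G : Type*} [Group G] [Finite G] [IsCyclic G] {r : ℕ} [NeZero r] {w z : G} (hw : orderOf w = r)
    (hz : z ^ r = 1) : ∃ s : ZMod r, z = pw w s := by
  classical
  have : Fintype G := Fintype.ofFinite G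
  have h1 := IsCyclic.card_pow_eq_one_le (α := G) (NeZero.pos r)
  have hwr : w ^ r = 1 := by rw [← hw]; exact pow_orderOf_eq_one w
  have hinj : Function.Injective fun s : ZMod r => pw w s := by
    intro a b hab
    have h2 : w ^ a.val = w ^ b.val := hab
    rw [pow_inj_mod, hw, Nat.mod_eq_of_lt (ZMod.val_lt a), Nat.mod_eq_of_lt (ZMod.val_lt b)] at h2
    exact ZMod.val_injective r h2
  have h2 : Finset.univ.image (fun s : ZMod r => pw w s) = Finset.univ.filter (fun a : G => a ^ r = 1) := by
    apply Finset.eq_of_subset_of_card_le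
    · intro a ha
      obtain ⟨s, -, rfl⟩ := Finset.mem_image.1 ha
      refine Finset.mem_filter.2 ⟨Finset.mem_univ _, ?_⟩
      rw [pw, ← pow_mul, mul_comm, pow_mul, hwr, one_pow]
    · rw [Finset.card_image_of_injective _ hinj, Finset.card_univ, ZMod.card]
      exact h1
  have h3 : z ∈ Finset.univ.image (fun s : ZMod r => pw w s) := by
    rw [h2]
    exact Finset.mem_filter.2 ⟨Finset.mem_univ _, hz⟩
  obtain ⟨s, -, hs⟩ := Finset.mem_image.1 h3
  exact ⟨s, hs.symm⟩

/-- `1 - z` is a unit for `z ≠ 1` of norm one -/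
theorem isUnit_one_sub {E : Type} [CommRing E] [StarRing E] (h : Gd E) {z : E} (hz : star z * z = 1) (h1 : z ≠ 1) :
    IsUnit (1 - z) := by
  cases h with
  | lin F i _ =>
    obtain ⟨a, b⟩ := z
    have hab : b * a = 1 := congrArg Prod.fst hz
    have ha : a ≠ 1 := by
      rintro rfl
      rw [mul_one] at hab
      subst hab
      exact h1 rfl
    have hb : b ≠ 1 := by
      rintro rfl
      rw [one_mul] at hab
      exact ha hab
    exact Prod.isUnit_iff.2 ⟨isUnit_iff_ne_zero.2 (sub_ne_zero.2 ha.symm), isUnit_iff_ne_zero.2 (sub_ne_zero.2 hb.symm)⟩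
  | uni F i s _ hs => exact isUnit_iff_ne_zero.2 (sub_ne_zero.2 h1.symm)

/-! ### eigenprojections -/

section ep

variable {E : Type} [CommRing E] {ι : Type} [Fintype ι] [DecidableEq ι] {r : ℕ} [Fact r.Prime]

/-- the projection on the eigenspace of `y` for the eigenvalue `w ^ i` -/
def ep (v w : E) (y : Matrix ι ι E) (i : ZMod r) : Matrix ι ι E := v • ∑ j : ZMod r, pw w (-(i * j)) • pw y j

/-- the data: `v = 1 / r`, `w` an element of order `r` -/
structure Dat (r : ℕ) [Fact r.Prime] (v w : E) (y : Matrix ι ι E) : Prop where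
  hv : v * r = 1
  hw : w ^ r = 1
  hwu : ∀ i : ZMod r, i ≠ 0 → IsUnit (1 - pw w i)
  hy : y ^ r = 1

variable {v w : E} {y : Matrix ι ι E}

theorem Dat.sum_pw (D : Dat r v w y) (i : ZMod r) : ∑ j : ZMod r, pw w (i * j) = if i = 0 then (r : E) else 0 := by
  split_ifs with hi
  · subst hi
    simp only [zero_mul, pw_zero, Finset.sum_const, Finset.card_univ, ZMod.card, nsmul_eq_mul, mul_one]
  · have h1 : ∑ j : ZMod r, pw w (i * (j + 1)) = ∑ j : ZMod r, pw w (i * j) :=
      Fintype.sum_equiv (Equiv.addRight (1 : ZMod r)) _ _ fun j => rfl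
    have h2 : pw w i * ∑ j : ZMod r, pw w (i * j) = ∑ j : ZMod r, pw w (i * j) := by
      rw [Finset.mul_sum, ← h1]
      refine Finset.sum_congr rfl fun j _ => ?_
      rw [mul_add, mul_one, pw_add D.hw _ i, mul_comm]
    have h3 : (1 - pw w i) * ∑ j : ZMod r, pw w (i * j) = 0 := by rw [sub_mul, one_mul, h2, sub_self]
    exact (D.hwu i hi).mul_right_eq_zero.1 h3

theorem Dat.pw_mul_ep (D : Dat r v w y) (k i : ZMod r) : pw y k * ep v w y i = pw w (i * k) • ep v w y i := by
  unfold ep
  rw [mul_smul_comm, smul_comm (pw w (i * k)) v]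
  congr 1
  rw [Finset.mul_sum, Finset.smul_sum]
  refine Fintype.sum_equiv (Equiv.addLeft k) (fun j => pw y k * pw w (-(i * j)) • pw y j)
    (fun j => pw w (i * k) • pw w (-(i * j)) • pw y j) fun j => ?_
  change pw y k * pw w (-(i * j)) • pw y j = pw w (i * k) • pw w (-(i * (k + j))) • pw y (k + j)
  rw [mul_smul_comm, pw_add D.hy, smul_smul, ← pw_add D.hw]
  congr 2
  ring

theorem Dat.ep_mul_ep (D : Dat r v w y) (i j : ZMod r) :
    ep v w y i * ep v w y j = if i = j then ep v w y j else 0 := by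
  have h1 : ep v w y i * ep v w y j = (v * ∑ k : ZMod r, pw w ((j - i) * k)) • ep v w y j := by
    conv_lhs => rw [ep]
    rw [smul_mul_assoc, Finset.sum_mul, mul_smul, Finset.sum_smul]
    congr 1
    refine Finset.sum_congr rfl fun k _ => ?_
    rw [smul_mul_assoc, D.pw_mul_ep, smul_smul, ← pw_add D.hw]
    congr 2
    ring
  rw [h1, D.sum_pw]
  by_cases h : j = i
  · rw [if_pos (sub_eq_zero.2 h), if_pos h.symm, D.hv, one_smul]
  · rw [if_neg fun hc => h (sub_eq_zero.1 hc), if_neg (Ne.symm h), mul_zero, zero_smul]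

theorem Dat.sum_ep (D : Dat r v w y) : ∑ i : ZMod r, ep v w y i = 1 := by
  unfold ep
  rw [← Finset.smul_sum, Finset.sum_comm]
  have h1 : ∀ j : ZMod r, ∑ i : ZMod r, pw w (-(i * j)) • pw y j = (if j = 0 then (r : E) else 0) • pw y j := by
    intro j
    rw [← Finset.sum_smul]
    have h2 := D.sum_pw (-j)
    simp only [neg_eq_zero] at h2
    rw [← h2]
    congr 1
    refine Finset.sum_congr rfl fun i _ => ?_
    congr 1
    ring
  rw [Finset.sum_congr rfl fun j _ => h1 j]
  rw [Finset.sum_eq_single (0 : ZMod r)]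
  · rw [if_pos rfl, pw_zero, smul_smul, D.hv, one_smul]
  · intro j _ hj
    rw [if_neg hj, zero_smul]
  · intro h
    exact absurd (Finset.mem_univ _) h

theorem Dat.pw_eq (D : Dat r v w y) (k : ZMod r) : pw y k = ∑ i : ZMod r, pw w (i * k) • ep v w y i := by
  rw [← Finset.sum_congr rfl fun i _ => D.pw_mul_ep k i, ← Finset.mul_sum, D.sum_ep, mul_one]

end ep

section star

variable {E : Type} [CommRing E] [StarRing E] {ι : Type} [Fintype ι] [DecidableEq ι] {r : ℕ} [Fact r.Prime]
variable {v w : E} {y : Matrix ι ι E}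

theorem star_pw {z : E} (hz : star z * z = 1) (hr : z ^ r = 1) (i : ZMod r) : star (pw z i) = pw z (-i) := by
  have h1 : star (pw z i) * pw z i = 1 := by
    rw [pw, star_pow, ← mul_pow, hz, one_pow]
  have h2 : pw z i * pw z (-i) = 1 := by rw [← pw_add hr, add_neg_cancel, pw_zero]
  calc star (pw z i) = star (pw z i) * (pw z i * pw z (-i)) := by rw [h2, mul_one]
    _ = pw z (-i) := by rw [← mul_assoc, h1, one_mul]

theorem star_pw' {z : Matrix ι ι E} (hz : star z * z = 1) (hr : z ^ r = 1) (i : ZMod r) :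
    star (pw z i) = pw z (-i) := by
  have hc : ∀ n : ℕ, star z ^ n * z ^ n = 1 := by
    intro n
    induction n with
    | zero => rw [pow_zero, pow_zero, one_mul]
    | succ n ih => rw [pow_succ, pow_succ', mul_assoc, ← mul_assoc (star z), hz, one_mul, ih]
  have h1 : star (pw z i) * pw z i = 1 := by
    rw [pw, star_pow, hc]
  have h2 : pw z i * pw z (-i) = 1 := by rw [← pw_add hr, add_neg_cancel, pw_zero]
  calc star (pw z i) = star (pw z i) * (pw z i * pw z (-i)) := by rw [h2, mul_one]
    _ = pw z (-i) := by rw [← mul_assoc, h1, one_mul]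

theorem Dat.isP (D : Dat r v w y) (hw : star w * w = 1) (hy : star y * y = 1) (i : ZMod r) : IsP (ep v w y i) := by
  have hv : star v = v := by
    have h1 := congrArg star D.hv
    rw [star_mul, star_natCast, star_one] at h1
    calc star v = (v * r) * star v := by rw [D.hv, one_mul]
      _ = v * (r * star v) := by ring
      _ = v := by rw [h1, mul_one]
  refine ⟨by rw [D.ep_mul_ep, if_pos rfl], ?_⟩
  unfold ep
  rw [star_smul, hv, star_sum]
  congr 1
  refine Fintype.sum_equiv (Equiv.neg (ZMod r)) _ _ fun j => ?_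
  rw [star_smul, star_pw hw D.hw, star_pw' hy D.hy, Equiv.neg_apply]
  congr 2
  ring

end star

/-! ### ranks -/

section rk

variable {E : Type} [CommRing E] {ι : Type} [Fintype ι] [DecidableEq ι]

/-- columns -/
def colEquiv (e : Matrix ι ι E) : {a : Matrix ι ι E // e * a = a} ≃ (ι → {v : ι → E // e *ᵥ v = v}) where
  toFun a j := ⟨fun i => a.1 i j, funext fun i => congrFun (congrFun a.2 i) j⟩
  invFun f := ⟨fun i j => (f j).1 i, by
    funext i j
    exact congrFun (f j).2 i⟩
  left_inv _ := rfl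
  right_inv _ := rfl

theorem card_eq (e : Matrix ι ι E) : Nat.card {a : Matrix ι ι E // e * a = a} =
    Nat.card {v : ι → E // e *ᵥ v = v} ^ Fintype.card ι := by
  rw [Nat.card_congr (colEquiv e), Nat.card_fun, Nat.card_eq_fintype_card (α := ι)]

theorem rk_map [Nonempty ι] (θ : RingAut (Matrix ι ι E)) (e : Matrix ι ι E) : rk (θ e) = rk e := by
  have h1 : Nat.card {a : Matrix ι ι E // θ e * a = a} = Nat.card {a : Matrix ι ι E // e * a = a} := by
    symm
    refine Nat.card_congr (θ.toEquiv.subtypeEquiv fun a => ?_)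
    change e * a = a ↔ θ e * θ a = θ a
    rw [← map_mul]
    exact (EmbeddingLike.apply_eq_iff_eq θ).symm
  rw [card_eq, card_eq] at h1
  have h2 := Nat.pow_left_injective (Fintype.card_ne_zero (α := ι)) h1
  rw [rk, rk, h2]

end rk

/-! ### the action of star automorphisms -/

section act

variable {E : Type} [CommRing E] [StarRing E] {ι : Type} [Fintype ι] [DecidableEq ι]

theorem smul_one_inj [Nonempty ι] {a b : E} (h : a • (1 : Matrix ι ι E) = b • (1 : Matrix ι ι E)) : a = b := by
  obtain ⟨i⟩ := ‹Nonempty ι›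
  have h2 := congrFun (congrFun h i) i
  rwa [Matrix.smul_apply, Matrix.smul_apply, Matrix.one_apply_eq, smul_eq_mul, smul_eq_mul, mul_one, mul_one] at h2

theorem map_scal [Nonempty ι] (θ : RingAut (Matrix ι ι E)) (hθ : ∀ a, θ (star a) = star (θ a)) {c : E}
    (hc : star c * c = 1) : ∃ d : E, star d * d = 1 ∧ θ (c • (1 : Matrix ι ι E)) = d • (1 : Matrix ι ι E) := by
  have h1 : ∀ a, θ (c • (1 : Matrix ι ι E)) * a = a * θ (c • (1 : Matrix ι ι E)) := by
    intro a
    obtain ⟨b, rfl⟩ := θ.surjective a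
    rw [← map_mul, ← map_mul, smul_mul_assoc, one_mul, mul_smul_comm, mul_one]
  obtain ⟨d, hd⟩ := exists_scalar h1
  refine ⟨d, ?_, hd⟩
  have h4 : star (θ (c • (1 : Matrix ι ι E))) * θ (c • (1 : Matrix ι ι E)) = 1 := by
    rw [← hθ, ← map_mul, star_smul, star_one, smul_mul_smul_comm, hc, one_mul, one_smul, map_one]
  rw [hd, star_smul, star_one, smul_mul_smul_comm, one_mul] at h4
  apply smul_one_inj (ι := ι)
  rw [h4, one_smul]

variable {r : ℕ} [Fact r.Prime] {v w : E} {y : Matrix ι ι E}

theorem norm_pw {z : E} (hz : star z * z = 1) (i : ZMod r) : star (pw z i) * pw z i = 1 := by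
  rw [pw, star_pow, ← mul_pow, hz, one_pow]

/-- a norm one scalar with `r`-th power `1` is a power of `w` -/
theorem exists_pw_norm (h : Gd E) (hw : star w * w = 1) (hwr : w ^ r = 1) (hw1 : w ≠ 1) {z : E}
    (hz : star z * z = 1) (hzr : z ^ r = 1) : ∃ s : ZMod r, z = pw w s := by
  have := h.finite
  have := h.cyclic
  let W : unitary E := ⟨w, Unitary.mem_iff.2 ⟨hw, by rw [mul_comm]; exact hw⟩⟩
  let Z : unitary E := ⟨z, Unitary.mem_iff.2 ⟨hz, by rw [mul_comm]; exact hz⟩⟩
  have hW : orderOf W = r := by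
    apply orderOf_eq_prime
    · exact Subtype.ext hwr
    · intro hc
      exact hw1 (congrArg Subtype.val hc)
  obtain ⟨s, hs⟩ := exists_pw hW (z := Z) (Subtype.ext hzr)
  exact ⟨s, congrArg Subtype.val hs⟩

/-- the action of a star automorphism fixing `y` up to scalars on the eigenprojections -/
theorem Dat.map_ep [Nonempty ι] (D : Dat r v w y) (h : Gd E) (hw : star w * w = 1) (hw1 : w ≠ 1)
    (θ : RingAut (Matrix ι ι E)) (hθ : ∀ a, θ (star a) = star (θ a)) (hy : Sc (θ y) y) :
    ∃ s b : ZMod r, s ≠ 0 ∧ ∀ i : ZMod r, θ (ep v w y i) = ep v w y (s * i - b) := by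
  obtain ⟨w', hw', hθw⟩ := map_scal θ hθ hw
  have hw'r : w' ^ r = 1 := by
    apply smul_one_inj (ι := ι)
    have h1 : (w' • (1 : Matrix ι ι E)) ^ r = 1 := by
      rw [← hθw, ← map_pow, smul_pow, one_pow, D.hw, one_smul, map_one]
    rwa [smul_pow, one_pow, ← one_smul E (1 : Matrix ι ι E), smul_smul, mul_one] at h1
  obtain ⟨s, hs⟩ := exists_pw_norm h hw D.hw hw1 hw' hw'r
  obtain ⟨b', hb', hθy⟩ := hy
  have hb'r : b' ^ r = 1 := by
    apply smul_one_inj (ι := ι)
    have h1 : (b' • y) ^ r = 1 := by rw [← hθy, ← map_pow, D.hy, map_one]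
    rw [smul_pow, D.hy] at h1
    rw [h1, one_smul]
  obtain ⟨b, hb⟩ := exists_pw_norm h hw D.hw hw1 hb' hb'r
  refine ⟨s, b, ?_, ?_⟩
  · rintro rfl
    rw [pw_zero] at hs
    subst hs
    have h1 : θ (w • (1 : Matrix ι ι E)) = θ 1 := by rw [hθw, one_smul, map_one]
    have h2 := θ.injective h1
    exact hw1 (smul_one_inj (ι := ι) (by rw [h2, one_smul]))
  · intro i
    -- scalars
    have hv : θ (v • (1 : Matrix ι ι E)) = v • (1 : Matrix ι ι E) := by
      have h1 : v • (1 : Matrix ι ι E) * (r : Matrix ι ι E) = 1 := by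
        rw [smul_mul_assoc, one_mul]
        have h2 : (r : Matrix ι ι E) = (r : E) • (1 : Matrix ι ι E) := by
          rw [← nsmul_one, ← Nat.cast_smul_eq_nsmul E]
        rw [h2, smul_smul, D.hv, one_smul]
      have h3 : θ (v • (1 : Matrix ι ι E)) * (r : Matrix ι ι E) = 1 := by
        rw [← map_natCast θ, ← map_mul, h1, map_one]
      have h4 : (r : Matrix ι ι E) * v • (1 : Matrix ι ι E) = 1 := by
        rw [(Nat.cast_commute r _).eq, h1]
      calc θ (v • (1 : Matrix ι ι E)) = θ (v • (1 : Matrix ι ι E)) * ((r : Matrix ι ι E) * v • (1 : Matrix ι ι E)) := by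
            rw [h4, mul_one]
        _ = v • (1 : Matrix ι ι E) := by rw [← mul_assoc, h3, one_mul]
    have hpw : ∀ j : ZMod r, θ (pw w j • (1 : Matrix ι ι E)) = pw w (s * j) • (1 : Matrix ι ι E) := by
      intro j
      have h1 : ∀ c : E, pw c j • (1 : Matrix ι ι E) = pw (c • (1 : Matrix ι ι E)) j := by
        intro c
        rw [pw, pw, smul_pow, one_pow]
      rw [h1, map_pw, hθw, hs, ← h1, pw_mul D.hw]
      rfl
    have hpy : ∀ j : ZMod r, θ (pw y j) = pw w (b * j) • pw y j := by
      intro j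
      rw [map_pw, hθy, hb, pw_mul D.hw, pw, pw, smul_pow]
      rfl
    unfold ep
    have h5 : ∀ (c : E) (a : Matrix ι ι E), θ (c • a) = θ (c • (1 : Matrix ι ι E)) * θ a := by
      intro c a
      rw [← map_mul, smul_mul_assoc, one_mul]
    rw [h5, hv, smul_mul_assoc, one_mul, map_sum]
    congr 1
    refine Finset.sum_congr rfl fun j _ => ?_
    rw [h5, hpw, hpy, smul_mul_assoc, one_mul, smul_smul, ← pw_add D.hw]
    congr 2
    ring

/-- the eigenprojections permuted by `j ↦ t j + i0` have the same ranks: `x` is conjugate to `x ^ t` -/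
theorem Dat.alt (D : Dat r v w y) (hfam : FamSt E) (hw : star w * w = 1) (hy : star y * y = 1) {t i0 : ZMod r}
    (ht0 : t ≠ 0) (hrk : ∀ j : ZMod r, rk (ep v w y (t * j + i0)) = rk (ep v w y (j + i0))) :
    ∃ g : SU ι E, ∃ c : E, star c * c = 1 ∧ mt g * y * star (mt g) = c • pw y t := by
  have hP := D.isP hw hy
  have horth : ∀ f : ZMod r → ZMod r, Function.Injective f → ∀ i j, i ≠ j →
      ep v w y (f i) * ep v w y (f j) = 0 := by
    intro f hf i j hij
    rw [D.ep_mul_ep, if_neg fun hc => hij (hf hc)]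
  have hinj1 : Function.Injective fun j : ZMod r => j + i0 := add_left_injective i0
  have hinj2 : Function.Injective fun j : ZMod r => t⁻¹ * j + i0 := by
    intro a b hab
    have h1 : t⁻¹ * a = t⁻¹ * b := add_right_cancel hab
    exact mul_left_cancel₀ (inv_ne_zero ht0) h1
  have hsum : ∀ f : ZMod r → ZMod r, Function.Injective f → ∑ i, ep v w y (f i) = 1 := by
    intro f hf
    rw [← D.sum_ep]
    exact Fintype.sum_bijective f (Finite.injective_iff_bijective.1 hf) _ _ fun _ => rfl
  obtain ⟨g, hg⟩ := hfam ι (ZMod r) (fun j => ep v w y (j + i0)) (fun j => ep v w y (t⁻¹ * j + i0))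
    (fun _ => hP _) (horth _ hinj1) (hsum _ hinj1) (fun _ => hP _) (horth _ hinj2) (hsum _ hinj2) (by
      intro j
      have h1 := hrk (t⁻¹ * j)
      rw [mul_inv_cancel_left₀ ht0] at h1
      exact h1)
  refine ⟨g, pw w (i0 - t * i0), norm_pw hw _, ?_⟩
  have h1 : y = ∑ j : ZMod r, pw w (j + i0) • ep v w y (j + i0) := by
    conv_lhs => rw [← pw_one D.hy, D.pw_eq 1]
    symm
    refine Fintype.sum_equiv (Equiv.addRight i0) _ _ fun j => ?_
    rw [mul_one]
    rfl
  have h2 : mt g * y * star (mt g) = ∑ j : ZMod r, pw w (j + i0) • ep v w y (t⁻¹ * j + i0) := by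
    conv_lhs => rw [h1]
    rw [Finset.mul_sum, Finset.sum_mul]
    refine Finset.sum_congr rfl fun j _ => ?_
    rw [mul_smul_comm, smul_mul_assoc, hg j]
  rw [h2, D.pw_eq t, Finset.smul_sum]
  refine Fintype.sum_bijective (fun j : ZMod r => t⁻¹ * j + i0) (Finite.injective_iff_bijective.1 hinj2) _ _ ?_
  intro j
  rw [smul_smul, ← pw_add D.hw]
  congr 2
  have h3 : t⁻¹ * t = 1 := inv_mul_cancel₀ ht0
  linear_combination (-j) * h3

end act

/-- **LAB** (CA14) -/
theorem lab_st {E : Type} [CommRing E] [StarRing E] (h : Gd E) (hfam : FamSt E) : EigSt E := by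
  intro ι _ _ r hr hr2 hrE hrd x m hm hx hns
  have : Fact r.Prime := ⟨hr⟩
  have hfin := h.finite
  have hnt := h.nontrivial
  have hne : Nonempty ι := by
    by_contra hc
    rw [not_nonempty_iff] at hc
    exact hns ⟨1, by rw [star_one, one_mul], Matrix.ext fun i => hc.elim i⟩
  -- `w`
  obtain ⟨W, hW⟩ := exists_prime_orderOf_dvd_card' (G := unitary E) r hrd
  set w : E := (W : E) with hwdef
  have hw : star w * w = 1 := (Unitary.mem_iff.1 W.2).1
  have hwr : w ^ r = 1 := by
    have h1 : W ^ r = 1 := by rw [← hW]; exact pow_orderOf_eq_one W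
    exact congrArg Subtype.val h1
  have hwu : ∀ i : ZMod r, i ≠ 0 → IsUnit (1 - pw w i) := by
    intro i hi
    refine isUnit_one_sub h (norm_pw hw i) ?_
    intro hc
    have h1 : W ^ i.val = 1 := Subtype.ext hc
    have h2 := orderOf_dvd_of_pow_eq_one h1
    rw [hW] at h2
    have h3 := Nat.eq_zero_of_dvd_of_lt h2 (ZMod.val_lt i)
    exact hi ((ZMod.val_eq_zero i).1 h3)
  have hw1 : w ≠ 1 := by
    intro hc
    have h1 : W = 1 := Subtype.ext hc
    rw [h1, orderOf_one] at hW
    exact hr.one_lt.ne hW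
  -- `v`
  obtain ⟨v, hv⟩ := hrE.exists_left_inv
  -- `y`
  set y : Matrix ι ι E := star m • mt x with hydef
  have hmm : m * star m = 1 := by rw [mul_comm]; exact hm
  have hyr : y ^ r = 1 := by
    rw [hydef, smul_pow, hx, smul_smul, ← mul_pow, hm, one_pow, one_smul]
  have hys : star y * y = 1 := by
    rw [hydef, star_smul, star_star, smul_mul_smul_comm, hmm, one_smul, star_mt_mul]
  have hxy : mt x = m • y := by rw [hydef, smul_smul, hmm, one_smul]
  have D : Dat r v w y := ⟨hv, hwr, hwu, hyr⟩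
  have key : ∀ t i0 : ZMod r, t ≠ 0 → t ≠ 1 →
      (∀ j : ZMod r, rk (ep v w y (t * j + i0)) = rk (ep v w y (j + i0))) →
      ∃ (g : SU ι E) (a : ℕ), ¬ a ≡ 1 [MOD r] ∧ Sc (mt (g * x * g⁻¹)) (mt x ^ a) := by
    intro t i0 ht0 ht1 hrk
    obtain ⟨g, c, hc, hg⟩ := D.alt hfam hw hys ht0 hrk
    refine ⟨g, t.val, ?_, ?_⟩
    · intro hmod
      have h1 : ((t.val : ℕ) : ZMod r) = ((1 : ℕ) : ZMod r) := (ZMod.natCast_eq_natCast_iff _ _ _).2 hmod
      rw [ZMod.natCast_zmod_val, Nat.cast_one] at h1
      exact ht1 h1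
    · have h1 : Sc (mt x) y := ⟨m, hm, hxy⟩
      have h2 : mt (g * x * g⁻¹) = m • (mt g * y * star (mt g)) := by
        rw [map_mul, map_mul, mt_inv, hxy, mul_smul_comm, smul_mul_assoc]
      rw [h2, hg, hydef]
      refine ⟨m * (c * star m ^ t.val), ?_, ?_⟩
      · have h3 : star (star m ^ t.val) * star m ^ t.val = 1 := by
          rw [star_pow, star_star, ← mul_pow, hmm, one_pow]
        rw [star_mul, star_mul]
        calc star (star m ^ t.val) * star c * star m * (m * (c * star m ^ t.val)) =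
            (star m * m) * (star c * c) * (star (star m ^ t.val) * star m ^ t.val) := by ring
          _ = 1 := by rw [hm, hc, h3, one_mul, one_mul]
      · rw [pw, smul_pow, smul_smul, smul_smul, mul_assoc]
  by_cases hall : ∀ θ : RingAut (Matrix ι ι E), (∀ a, θ (star a) = star (θ a)) → Sc (θ (mt x)) (mt x) →
      ∀ i : ZMod r, θ (ep v w y i) = ep v w y i
  · -- all projections are fixed
    right
    have hex : ∃ i : ZMod r, ep v w y i ≠ 0 ∧ ep v w y i ≠ 1 := by
      by_contra hcon
      push Not at hcon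
      have h1 : ∃ i : ZMod r, ep v w y i ≠ 0 := by
        by_contra hc
        push Not at hc
        have h2 := D.sum_ep
        rw [Finset.sum_eq_zero fun i _ => hc i] at h2
        exact zero_ne_one h2
      obtain ⟨i, hi⟩ := h1
      have h2 := hcon i hi
      have h3 := D.pw_mul_ep 1 i
      rw [h2, pw_one D.hy, mul_one, mul_one] at h3
      apply hns
      refine ⟨m * pw w i, ?_, ?_⟩
      · rw [star_mul]
        calc star (pw w i) * star m * (m * pw w i) = (star m * m) * (star (pw w i) * pw w i) := by ring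
          _ = 1 := by rw [hm, norm_pw hw, one_mul]
      · rw [hxy, h3, smul_smul]
    obtain ⟨i, hi0, hi1⟩ := hex
    exact ⟨ep v w y i, D.isP hw hys i, hi0, hi1, fun θ hθ hθx => hall θ hθ hθx i⟩
  · left
    push Not at hall
    obtain ⟨θ, hθ, hθx, i, hi⟩ := hall
    have hθy : Sc (θ y) y := by
      obtain ⟨c, hc, hθx⟩ := hθx
      have hsm : star (star m) * star m = 1 := by rw [star_star, hmm]
      obtain ⟨d, hd, hθm⟩ := map_scal θ hθ hsm
      refine ⟨d * c * m, ?_, ?_⟩
      · rw [star_mul, star_mul]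
        calc star m * (star c * star d) * (d * c * m) = (star m * m) * (star c * c) * (star d * d) := by ring
          _ = 1 := by rw [hm, hc, hd, one_mul, one_mul]
      · have h1 : y = (star m • (1 : Matrix ι ι E)) * mt x := by rw [hydef, smul_mul_assoc, one_mul]
        conv_lhs => rw [h1]
        rw [map_mul, hθm, hθx, hxy, smul_mul_assoc, one_mul, smul_smul, smul_smul]
    obtain ⟨s, b, hs0, hsb⟩ := D.map_ep h hw hw1 θ hθ hθy
    have hrk : ∀ i : ZMod r, rk (ep v w y (s * i - b)) = rk (ep v w y i) := by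
      intro i
      rw [← hsb, rk_map]
    by_cases hs1 : s = 1
    · subst hs1
      have hb : b ≠ 0 := by
        rintro rfl
        apply hi
        rw [hsb, one_mul, sub_zero]
      have hall : ∀ (n : ℕ) (i : ZMod r), rk (ep v w y (i - (n : ZMod r) * b)) = rk (ep v w y i) := by
        intro n
        induction n with
        | zero => intro i; rw [Nat.cast_zero, zero_mul, sub_zero]
        | succ n ih =>
          intro i
          have h1 := hrk (i - n * b)
          rw [one_mul, ih] at h1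
          rw [← h1]
          congr 2
          push_cast
          ring
      have hconst : ∀ i j : ZMod r, rk (ep v w y i) = rk (ep v w y j) := by
        intro i j
        have h1 := hall ((j - i) / b).val j
        rw [ZMod.natCast_zmod_val, div_mul_cancel₀ _ hb, sub_sub_cancel] at h1
        exact h1
      refine key 2 0 ?_ ?_ fun j => hconst _ _
      · intro h2
        have h3 : ((2 : ℕ) : ZMod r) = 0 := by exact_mod_cast h2
        rw [ZMod.natCast_eq_zero_iff] at h3
        exact hr2 ((Nat.prime_dvd_prime_iff_eq hr Nat.prime_two).1 h3)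
      · intro h2
        have h3 : (1 : ZMod r) = 0 := by linear_combination h2
        exact one_ne_zero h3
    · have hs1' : s - 1 ≠ 0 := sub_ne_zero.2 hs1
      refine key s (b / (s - 1)) hs0 hs1 fun j => ?_
      rw [← hrk (j + b / (s - 1))]
      congr 2
      have h1 : b / (s - 1) * (s - 1) = b := div_mul_cancel₀ _ hs1'
      linear_combination (-1) * h1

end Cfsg.Agent.H957.CarLab
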