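import Cfsg.Agent.Solvable.UniqueOrderP

/-!
# Normal four-subgroups of 2-groups

`exists_good` : `G` a finite 2-group, `N` a normal subgroup containing the central involution `z`; if `N` contains a
four-subgroup avoiding `z`, or an element of order four whose square is not `z`, then there is an involution `t ≠ z` of
`N` all of whose conjugates are `t` or `t z`.
-/

set_option autoImplicit false

namespace Cfsg.Agent.H957.FR

open Subgroup

variable {G : Type*} [Group G]

theorem exists_maxab [Finite G] (h2 : IsPGroup 2 G) (N : Subgroup G) [hN : N.Normal] :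
    ∃ A : Subgroup G, A.Normal ∧ IsMulCommutative A ∧ A ≤ N ∧
      ∀ x ∈ N, x ∈ centralizer (A : Set G) → x ∈ A := by
  have : Fact (Nat.Prime 2) := ⟨Nat.prime_two⟩
  have hnil : Group.IsNilpotent G := h2.isNilpotent
  obtain ⟨A, hA⟩ := (Set.toFinite {A : Subgroup G | A.Normal ∧ IsMulCommutative A ∧ A ≤ N}).exists_maximal
    ⟨⊥, inferInstance, inferInstance, bot_le⟩
  obtain ⟨hA1, hA2, hA3⟩ := hA.prop
  refine ⟨A, hA1, hA2, hA3, ?_⟩
  by_contra hcon
  push Not at hcon
  obtain ⟨y, hyN, hyC, hyA⟩ := hcon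
  have hC : (N ⊓ centralizer (A : Set G)).Normal := inferInstance
  obtain ⟨x, hx, hxA, hxg⟩ := Cfsg.Agent.Lib.NormalAbelian.exists_mem_not_mem_central_mod hA1 hC
    (fun h => hyA (h ⟨hyN, hyC⟩))
  obtain ⟨h3, h4⟩ := Cfsg.Agent.Lib.NormalAbelian.sup_zpowers_normal_abelian hA1 hA2 hx.2 hxg
  have h5 := hA.le_of_ge ⟨h3, h4, sup_le hA3 (zpowers_le.2 hx.1)⟩ le_sup_left
  exact hxA (h5 ((le_sup_right : zpowers x ≤ A ⊔ zpowers x) (mem_zpowers x)))

/-- A power of order four. -/
theorem exists_four [Finite G] (h2 : IsPGroup 2 G) {b : G} (hb : b * b ≠ 1) :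
    ∃ k : ℕ, (b ^ k) * (b ^ k) ≠ 1 ∧ ((b ^ k) * (b ^ k)) * ((b ^ k) * (b ^ k)) = 1 := by
  classical
  have hex : ∃ k, b ^ 2 ^ k = 1 := h2 b
  have hspec := Nat.find_spec hex
  have hmin := fun m => Nat.find_min hex (m := m)
  generalize Nat.find hex = k at hspec hmin
  match k, hspec, hmin with
  | 0, h, _ =>
    rw [pow_zero, pow_one] at h
    exact absurd (by rw [h, mul_one]) hb
  | 1, h, _ =>
    rw [pow_one, pow_two] at h
    exact absurd h hb
  | k + 2, h, hmin =>
    refine ⟨2 ^ k, ?_, ?_⟩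
    · rw [← pow_add, ← two_mul, ← pow_succ']
      exact hmin (k + 1) (by omega)
    · rw [← pow_add, ← pow_add, ← h]
      congr 1
      ring

/-- A power outside `A` with square in `A`. -/
theorem exists_sq [Finite G] (h2 : IsPGroup 2 G) (A : Subgroup G) {b : G} (hb : b ∉ A) :
    ∃ k : ℕ, b ^ k ∉ A ∧ (b ^ k) * (b ^ k) ∈ A := by
  classical
  have hex : ∃ k, b ^ 2 ^ k ∈ A := by
    obtain ⟨k, hk⟩ := h2 b
    exact ⟨k, by rw [hk]; exact A.one_mem⟩
  have hspec := Nat.find_spec hex
  have hmin := fun m => Nat.find_min hex (m := m)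
  generalize Nat.find hex = k at hspec hmin
  match k, hspec, hmin with
  | 0, h, _ =>
    rw [pow_zero, pow_one] at h
    exact absurd h hb
  | k + 1, h, hmin =>
    refine ⟨2 ^ k, hmin k (by omega), ?_⟩
    rw [← pow_add, ← two_mul, ← pow_succ']
    exact h

/-- The core step. -/
theorem core {N A : Subgroup G} (hN : N.Normal) (hA : A.Normal) {a z w : G} (haA : A = zpowers a)
    (hAN : A ≤ N) (hself : ∀ x ∈ N, x ∈ centralizer (A : Set G) → x ∈ A)
    (hz : ∀ g : G, g * z = z * g) (hz2 : z * z = 1) (hz1 : z ≠ 1) (hzA : z ∈ A)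
    (hinv : ∀ x ∈ A, x * x = 1 → x = 1 ∨ x = z) (hw : w ∈ A) (hwz : w * w = z)
    {b : G} (hbN : b ∈ N) (hbA : b ∉ A) (hbb : b * b ∈ A) (hbw : b * w = w * b)
    (hc4 : ∀ c ∈ A, c * c ≠ 1 → ∃ k : ℕ, (c ^ k) * (c ^ k) ≠ 1 ∧
      ((c ^ k) * (c ^ k)) * ((c ^ k) * (c ^ k)) = 1) :
    ∃ t ∈ N, t * t = 1 ∧ t ≠ 1 ∧ t ≠ z ∧ ∀ g : G, g * t * g⁻¹ = t ∨ g * t * g⁻¹ = t * z := by
  have hcomm : ∀ x ∈ A, ∀ y ∈ A, x * y = y * x := by
    intro x hx y hy
    rw [haA] at hx hy
    obtain ⟨i, rfl⟩ := hx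
    obtain ⟨j, rfl⟩ := hy
    exact ((Commute.refl a).zpow_zpow i j)
  have haA' : a ∈ A := by rw [haA]; exact mem_zpowers a
  -- square roots of `z` in `A`
  have hroot : ∀ x ∈ A, x * x = z → x = w ∨ x = w * z := by
    intro x hx hxz
    have h1 : (x * w⁻¹) * (x * w⁻¹) = 1 := by
      have h2 : x * w⁻¹ * (x * w⁻¹) = (x * x) * (w * w)⁻¹ := by
        have h3 : w⁻¹ * x = x * w⁻¹ := hcomm _ (A.inv_mem hw) _ hx
        calc x * w⁻¹ * (x * w⁻¹) = x * (w⁻¹ * x) * w⁻¹ := by group
          _ = (x * x) * (w * w)⁻¹ := by rw [h3]; group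
      rw [h2, hxz, hwz, mul_inv_cancel]
    rcases hinv _ (A.mul_mem hx (A.inv_mem hw)) h1 with h | h
    · left
      exact mul_inv_eq_one.1 h
    · right
      rw [mul_inv_eq_iff_eq_mul] at h
      rw [h, hz]
  have hww : w ≠ w⁻¹ := by
    intro h
    apply hz1
    rw [← hwz]
    nth_rewrite 1 [h]
    exact inv_mul_cancel w
  -- `c = [b, a] = z`
  have hba : b * a * b⁻¹ = z * a := by
    obtain ⟨c, hc⟩ : ∃ c, c = b * a * b⁻¹ * a⁻¹ := ⟨_, rfl⟩
    have hcA : c ∈ A := by
      rw [hc]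
      exact A.mul_mem (hA.conj_mem a haA' b) (A.inv_mem haA')
    have hbc : b * c * b⁻¹ = c⁻¹ := by
      have h1 : b * b * a = a * (b * b) := hcomm _ hbb _ haA'
      have h2 : b * c * b⁻¹ = (b * b * a) * (b * b)⁻¹ * (b * a⁻¹ * b⁻¹) := by
        rw [hc]; group
      rw [h2, h1, hc]
      group
    have hcc : c * c = 1 := by
      by_contra hne
      obtain ⟨k, hk1, hk2⟩ := hc4 c hcA hne
      have hck : c ^ k ∈ A := A.pow_mem hcA k
      have h3 : c ^ k * c ^ k = z := by
        rcases hinv _ (A.mul_mem hck hck) hk2 with h | h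
        · exact absurd h hk1
        · exact h
      have h4 : b * c ^ k * b⁻¹ = (c ^ k)⁻¹ := by rw [← conj_pow, hbc, inv_pow]
      have h5 : b * w * b⁻¹ = w := by rw [hbw]; group
      rcases hroot _ hck h3 with h | h
      · rw [h, h5] at h4
        exact hww h4
      · rw [h] at h4
        have h6 : b * (w * z) * b⁻¹ = w * z := by
          calc b * (w * z) * b⁻¹ = (b * w) * (z * b⁻¹) := by group
            _ = (w * b) * (b⁻¹ * z) := by rw [hbw, hz b⁻¹]
            _ = w * z := by group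
        rw [h6, mul_inv_rev] at h4
        apply hww
        have h7 : z⁻¹ = z := inv_eq_of_mul_eq_one_left hz2
        rw [h7, ← hz w⁻¹] at h4
        exact mul_right_cancel h4
    rcases hinv c hcA hcc with h | h
    · exfalso
      apply hbA
      apply hself b hbN
      rw [haA, mem_centralizer_iff]
      rintro _ ⟨i, rfl⟩
      have h1 : Commute b a := by
        rw [h] at hc
        have := mul_inv_eq_one.1 hc.symm
        exact mul_inv_eq_iff_eq_mul.1 this
      exact (h1.zpow_right i).symm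
    · rw [h] at hc
      exact (mul_inv_eq_iff_eq_mul.1 hc.symm)
  have hzz : ∀ i : ℤ, z ^ i = 1 ∨ z ^ i = z := by
    intro i
    have h1 : z ^ (2 : ℤ) = 1 := by rw [zpow_two, hz2]
    rcases Int.even_or_odd' i with ⟨j, rfl | rfl⟩
    · left
      rw [zpow_mul, h1, one_zpow]
    · right
      rw [zpow_add, zpow_mul, h1, one_zpow, one_mul, zpow_one]
  have hzinv : z⁻¹ = z := inv_eq_of_mul_eq_one_left hz2
  have hcza : Commute z a := (hz a).symm
  have hbai : ∀ i : ℤ, b * a ^ i * b⁻¹ = z ^ i * a ^ i := by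
    intro i
    rw [← conj_zpow, hba, hcza.mul_zpow]
  -- `b² = a ^ (2 i)`
  obtain ⟨i, hi⟩ : ∃ i : ℤ, b * b = a ^ (2 * i) := by
    rw [haA] at hbb
    obtain ⟨j, hj⟩ := hbb
    have hj' : a ^ j = b * b := hj
    have h1 : z ^ j = 1 := by
      have h2 := hbai j
      rw [hj'] at h2
      have h3 : b * (b * b) * b⁻¹ = b * b := by group
      rw [h3] at h2
      exact (mul_eq_right.1 h2.symm)
    rcases Int.even_or_odd' j with ⟨i, rfl | rfl⟩
    · exact ⟨i, hj'.symm⟩
    · exfalso
      rw [zpow_add, zpow_mul, zpow_two, hz2, one_zpow, one_mul, zpow_one] at h1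
      exact hz1 h1
  have hiA : a ^ (-i) ∈ A := A.zpow_mem haA' _
  have hsq : (b * a ^ (-i)) * (b * a ^ (-i)) = z ^ i := by
    have h1 := hbai (-i)
    have h2 : b * a ^ (-i) = z ^ (-i) * a ^ (-i) * b := by
      rw [← h1]; group
    have h3 : Commute (z ^ (-i)) b := ((show Commute z b from (hz b).symm)).zpow_left _
    calc (b * a ^ (-i)) * (b * a ^ (-i)) = (z ^ (-i) * a ^ (-i) * b) * (b * a ^ (-i)) := by
          conv_lhs => rw [h2]
          rw [← h2]
      _ = z ^ (-i) * (a ^ (-i) * (b * b) * a ^ (-i)) := by group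
      _ = z ^ (-i) := by
          rw [hi, ← zpow_add, ← zpow_add]
          have : -i + 2 * i + -i = 0 := by ring
          rw [this, zpow_zero, mul_one]
      _ = z ^ i := by
          rw [zpow_neg, ← inv_zpow, hzinv]
  -- the involution `t`
  obtain ⟨y, hyA, hyt⟩ : ∃ y ∈ A, (b * y) * (b * y) = 1 := by
    rcases hzz i with h | h
    · exact ⟨_, hiA, by rw [hsq, h]⟩
    · refine ⟨a ^ (-i) * w, A.mul_mem hiA hw, ?_⟩
      have h1 : Commute w (b * a ^ (-i)) := by
        have h2 : Commute w b := hbw.symm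
        have h3 : Commute w (a ^ (-i)) := hcomm _ hw _ hiA
        exact h2.mul_right h3
      calc b * (a ^ (-i) * w) * (b * (a ^ (-i) * w))
          = (b * a ^ (-i)) * (w * (b * a ^ (-i))) * w := by group
        _ = ((b * a ^ (-i)) * (b * a ^ (-i))) * (w * w) := by rw [h1.eq]; group
        _ = 1 := by rw [hsq, h, hwz, hz2]
  obtain ⟨t, ht⟩ : ∃ t, t = b * y := ⟨_, rfl⟩
  rw [← ht] at hyt
  have htN : t ∈ N := by rw [ht]; exact N.mul_mem hbN (hAN hyA)
  have htA : t ∉ A := by
    intro h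
    apply hbA
    have : b = t * y⁻¹ := by rw [ht]; group
    rw [this]
    exact A.mul_mem h (A.inv_mem hyA)
  have hta : t * a * t⁻¹ = z * a := by
    have h1 : y * a = a * y := hcomm _ hyA _ haA'
    calc t * a * t⁻¹ = b * (y * a) * y⁻¹ * b⁻¹ := by rw [ht]; group
      _ = z * a := by rw [h1, ← hba]; group
  have htai : ∀ i : ℤ, t * a ^ i * t⁻¹ = z ^ i * a ^ i := by
    intro i
    rw [← conj_zpow, hta, hcza.mul_zpow]
  have htw : t * w * t⁻¹ = w := by
    have h1 : y * w = w * y := hcomm _ hyA _ hw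
    calc t * w * t⁻¹ = b * (y * w) * y⁻¹ * b⁻¹ := by rw [ht]; group
      _ = b * w * b⁻¹ := by rw [h1]; group
      _ = w := by rw [hbw]; group
  have htinv : t⁻¹ = t := inv_eq_of_mul_eq_one_left hyt
  refine ⟨t, htN, hyt, ?_, ?_, fun g => ?_⟩
  · intro h
    exact htA (h ▸ A.one_mem)
  · intro h
    exact htA (h ▸ hzA)
  · -- conjugates
    obtain ⟨t', ht'⟩ : ∃ t', t' = g * t * g⁻¹ := ⟨_, rfl⟩
    obtain ⟨a', ha'⟩ : ∃ a', a' = g * a * g⁻¹ := ⟨_, rfl⟩
    rw [← ht']
    have ha'A : a' ∈ A := by rw [ha']; exact hA.conj_mem a haA' g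
    have hgen : ∀ x ∈ A, ∃ k : ℤ, x = a' ^ k := by
      intro x hx
      have h1 : g⁻¹ * x * g ∈ A := by
        have := hA.conj_mem x hx g⁻¹
        rwa [inv_inv] at this
      rw [haA] at h1
      obtain ⟨k, hk⟩ := h1
      refine ⟨k, ?_⟩
      have hk' : a ^ k = g⁻¹ * x * g := hk
      rw [ha', conj_zpow, hk']
      group
    have h1 : t' * a' * t'⁻¹ = z * a' := by
      calc t' * a' * t'⁻¹ = g * (t * a * t⁻¹) * g⁻¹ := by rw [ht', ha']; group
        _ = (g * z) * a * g⁻¹ := by rw [hta]; group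
        _ = z * a' := by rw [hz, ha']; group
    have h2 : t * a' * t⁻¹ = z * a' := by
      have h3 := ha'A
      rw [haA] at h3
      obtain ⟨m, hm⟩ := h3
      have hm' : a ^ m = a' := hm
      have h4 := htai m
      rw [hm'] at h4
      rcases hzz m with h5 | h5
      · exfalso
        rw [h5, one_mul] at h4
        apply htA
        apply hself t htN
        rw [mem_centralizer_iff]
        intro x hx
        obtain ⟨k, rfl⟩ := hgen x hx
        have h6 : Commute t a' := mul_inv_eq_iff_eq_mul.1 h4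
        exact (h6.zpow_right k).symm
      · rw [h4, h5]
    have h2' : t⁻¹ * a' * t = z * a' := by
      rw [htinv]
      rwa [htinv] at h2
    have hyA' : t' * t⁻¹ ∈ A := by
      apply hself
      · refine N.mul_mem ?_ (N.inv_mem htN)
        rw [ht']
        exact hN.conj_mem t htN g
      · rw [mem_centralizer_iff]
        intro x hx
        obtain ⟨k, rfl⟩ := hgen x hx
        have h6 : Commute (t' * t⁻¹) a' := by
          have h7 : (t' * t⁻¹) * a' * (t' * t⁻¹)⁻¹ = a' := by
            calc (t' * t⁻¹) * a' * (t' * t⁻¹)⁻¹ = t' * (t⁻¹ * a' * t) * t'⁻¹ := by group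
              _ = (t' * z) * a' * t'⁻¹ := by rw [h2']; group
              _ = z * (t' * a' * t'⁻¹) := by rw [hz]; group
              _ = z * z * a' := by rw [h1]; group
              _ = a' := by rw [hz2, one_mul]
          exact mul_inv_eq_iff_eq_mul.1 h7
        exact (h6.zpow_right k).symm
    obtain ⟨x, hx⟩ : ∃ x, x = t' * t⁻¹ := ⟨_, rfl⟩
    rw [← hx] at hyA'
    have hxt : t' = x * t := by rw [hx]; group
    have ht'2 : t' * t' = 1 := by
      calc t' * t' = g * (t * t) * g⁻¹ := by rw [ht']; group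
        _ = 1 := by rw [hyt]; group
    have hxA := hyA'
    rw [haA] at hxA
    obtain ⟨l, hl⟩ := hxA
    have hl' : a ^ l = x := hl
    have h8 := htai l
    rw [hl'] at h8
    have h9 : x * (z ^ l * x) = 1 := by
      rw [← h8, ← ht'2, hxt]
      calc x * (t * x * t⁻¹) = x * t * x * t * (t⁻¹ * t⁻¹) := by group
        _ = x * t * (x * t) := by rw [htinv, hyt]; group
    rcases hzz l with h10 | h10
    · rw [h10, one_mul] at h9
      rcases hinv x hyA' h9 with h11 | h11
      · left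
        rw [hxt, h11, one_mul]
      · right
        rw [hxt, h11, hz]
    · exfalso
      rw [h10] at h8 h9
      have h11 : x * x = z := by
        have h12 : z * (x * x) = 1 := by
          rw [← h9, ← mul_assoc, ← mul_assoc, hz x]
        rw [← hzinv]
        exact eq_inv_of_mul_eq_one_right h12
      have h13 : t * x * t⁻¹ = x := by
        rcases hroot x hyA' h11 with h14 | h14
        · rw [h14]; exact htw
        · rw [h14]
          calc t * (w * z) * t⁻¹ = (t * w) * (z * t⁻¹) := by group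
            _ = (t * w) * (t⁻¹ * z) := by rw [hz t⁻¹]
            _ = (t * w * t⁻¹) * z := by group
            _ = w * z := by rw [htw]
      rw [h13] at h8
      exact hz1 (mul_eq_right.1 h8.symm)

/-- **The theorem.** -/
theorem exists_good [Finite G] (h2 : IsPGroup 2 G) {N : Subgroup G} (hN : N.Normal) {z : G}
    (hz : ∀ g : G, g * z = z * g) (hzN : z ∈ N) (hz2 : z * z = 1) (hz1 : z ≠ 1)
    (h : (∃ s ∈ N, ∃ s' ∈ N, s * s = 1 ∧ s' * s' = 1 ∧ s * s' = s' * s ∧ s ≠ 1 ∧ s ≠ z ∧ s' ≠ 1 ∧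
      s' ≠ z ∧ s * s' ≠ 1 ∧ s * s' ≠ z) ∨
      ∃ u ∈ N, u * u ≠ 1 ∧ u * u ≠ z ∧ (u * u) * (u * u) = 1) :
    ∃ t ∈ N, t * t = 1 ∧ t ≠ 1 ∧ t ≠ z ∧ ∀ g : G, g * t * g⁻¹ = t ∨ g * t * g⁻¹ = t * z := by
  by_contra hno
  have : Fact (Nat.Prime 2) := ⟨Nat.prime_two⟩
  have hnil : Group.IsNilpotent G := h2.isNilpotent
  obtain ⟨A, hA, hAc, hAN, hself⟩ := exists_maxab h2 N
  have hcomm : ∀ x ∈ A, ∀ y ∈ A, x * y = y * x := by
    intro x hx y hy
    exact congrArg Subtype.val ((isMulCommutative_iff.mp hAc) ⟨x, hx⟩ ⟨y, hy⟩)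
  have hzA : z ∈ A := by
    apply hself z hzN
    rw [mem_centralizer_iff]
    intro x _
    exact hz x
  have hzz : ∀ x ∈ zpowers z, x = 1 ∨ x = z := by
    rintro _ ⟨i, rfl⟩
    have h1 : z ^ (2 : ℤ) = 1 := by rw [zpow_two, hz2]
    rcases Int.even_or_odd' i with ⟨j, rfl | rfl⟩
    · left
      change z ^ (2 * j) = 1
      rw [zpow_mul, h1, one_zpow]
    · right
      change z ^ (2 * j + 1) = z
      rw [zpow_add, zpow_mul, h1, one_zpow, one_mul, zpow_one]
  have hzinv : z⁻¹ = z := inv_eq_of_mul_eq_one_left hz2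
  -- the involutions of `A`
  have hinv : ∀ x ∈ A, x * x = 1 → x = 1 ∨ x = z := by
    by_contra hcon
    push Not at hcon
    obtain ⟨x, hxA, hxx, hx1, hxz⟩ := hcon
    apply hno
    let Om : Subgroup G :=
      { carrier := {x | x ∈ A ∧ x * x = 1}
        mul_mem' := by
          rintro x y ⟨hx, hx2⟩ ⟨hy, hy2⟩
          refine ⟨A.mul_mem hx hy, ?_⟩
          have h1 := hcomm y hy x hx
          calc x * y * (x * y) = x * (y * x) * y := by group
            _ = (x * x) * (y * y) := by rw [h1]; group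
            _ = 1 := by rw [hx2, hy2, one_mul]
        one_mem' := ⟨A.one_mem, mul_one 1⟩
        inv_mem' := by
          rintro x ⟨hx, hx2⟩
          refine ⟨A.inv_mem hx, ?_⟩
          rw [← mul_inv_rev, hx2, inv_one] }
    have hOm : Om.Normal := ⟨by
      rintro x ⟨hx, hx2⟩ g
      refine ⟨hA.conj_mem x hx g, ?_⟩
      calc g * x * g⁻¹ * (g * x * g⁻¹) = g * (x * x) * g⁻¹ := by group
        _ = 1 := by rw [hx2]; group⟩
    have hZ : (zpowers z).Normal := ⟨by
      intro x hx g
      rcases hzz x hx with h1 | h1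
      · rw [h1]
        simp
      · rw [h1, hz]
        simp⟩
    obtain ⟨t, ht, htz, htg⟩ := Cfsg.Agent.Lib.NormalAbelian.exists_mem_not_mem_central_mod hZ hOm
      (fun h1 => by
        rcases hzz x (h1 ⟨hxA, hxx⟩) with h2 | h2
        · exact hx1 h2
        · exact hxz h2)
    refine ⟨t, hAN ht.1, ht.2, ?_, ?_, fun g => ?_⟩
    · intro h1
      exact htz (h1 ▸ (zpowers z).one_mem)
    · intro h1
      exact htz (h1 ▸ mem_zpowers z)
    · have htinv : t⁻¹ = t := inv_eq_of_mul_eq_one_left ht.2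
      have h0 : t * (g * t * g⁻¹) = t * g * t⁻¹ * g⁻¹ := by
        rw [htinv]; group
      rcases hzz _ (htg g) with h1 | h1
      · left
        rw [h1] at h0
        have h3 := eq_inv_of_mul_eq_one_right h0
        rwa [htinv] at h3
      · right
        rw [h1] at h0
        rw [← h0, ← mul_assoc, ht.2, one_mul]
  -- `A` is cyclic
  obtain ⟨a, haA⟩ : ∃ a : G, A = zpowers a := by
    have hU : Cfsg.Agent.Solvable.UniqueOrderP.UniqueP 2 ↥A := by
      intro x y hx1 hx hy
      have hx' : (x : G) * x = 1 := by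
        have := congrArg Subtype.val hx
        rwa [pow_two] at this
      have hy' : (y : G) * y = 1 := by
        have := congrArg Subtype.val hy
        rwa [pow_two] at this
      have hxz : (x : G) = z := (hinv x x.2 hx').resolve_left (fun h1 => hx1 (Subtype.ext h1))
      rcases hinv y y.2 hy' with h1 | h1
      · have : y = 1 := Subtype.ext h1
        rw [this]
        exact one_mem _
      · have : y = x := Subtype.ext (h1.trans hxz.symm)
        rw [this]
        exact mem_zpowers x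
    obtain ⟨a, ha⟩ := Cfsg.Agent.Solvable.UniqueOrderP.exists_eq_zpowers_of_comm 2
      (h2.to_subgroup A) hU ⊤ (by
        rw [isMulCommutative_iff]
        rintro ⟨x, -⟩ ⟨y, -⟩
        exact Subtype.ext (Subtype.ext (hcomm x x.2 y y.2)))
    refine ⟨a, le_antisymm (fun x hx => ?_) (zpowers_le.2 a.2)⟩
    have h1 : (⟨x, hx⟩ : A) ∈ zpowers a := by rw [← ha]; exact mem_top _
    obtain ⟨k, hk⟩ := h1
    exact ⟨k, by
      have := congrArg Subtype.val hk
      simpa using this⟩
  -- an element of order four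
  obtain ⟨w, hw, hwz⟩ : ∃ w ∈ A, w * w = z := by
    by_contra hcon
    push Not at hcon
    have h1 : ∀ x ∈ A, x = 1 ∨ x = z := by
      intro x hx
      by_cases hxx : x * x = 1
      · exact hinv x hx hxx
      · exfalso
        obtain ⟨k, hk1, hk2⟩ := exists_four h2 hxx
        have hxk : x ^ k ∈ A := A.pow_mem hx k
        rcases hinv _ (A.mul_mem hxk hxk) hk2 with h3 | h3
        · exact hk1 h3
        · exact hcon _ hxk h3
    have h3 : ∀ x ∈ N, x = 1 ∨ x = z := by
      intro x hx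
      apply h1
      apply hself x hx
      rw [mem_centralizer_iff]
      intro y hy
      rcases h1 y hy with h4 | h4
      · rw [h4, one_mul, mul_one]
      · rw [h4, hz]
    rcases h with ⟨s, hs, -, -, -, -, -, hs1, hsz, -⟩ | ⟨u, hu, hu1, hu2, -⟩
    · rcases h3 s hs with h4 | h4
      · exact hs1 h4
      · exact hsz h4
    · rcases h3 _ (N.mul_mem hu hu) with h4 | h4
      · exact hu1 h4
      · exact hu2 h4
  have hwinv : w⁻¹ = w * z := by
    rw [inv_eq_iff_mul_eq_one, ← mul_assoc, hwz, hz2]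
  -- the centraliser of `w` in `N`
  have hcw : ∀ b ∈ N, b * w = w * b → b ∈ A := by
    intro b hb hbw
    by_contra hbA
    obtain ⟨k, hk1, hk2⟩ := exists_sq h2 A hbA
    exact hno (core hN hA haA hAN hself hz hz2 hz1 hzA hinv hw hwz (N.pow_mem hb k) hk1 hk2
      ((show Commute b w from hbw).pow_left k) (fun c _ hc => exists_four h2 hc))
  have hconj : ∀ b : G, b * w * b⁻¹ = w ∨ b * w * b⁻¹ = w * z := by
    intro b
    have h1 : b * w * b⁻¹ ∈ A := hA.conj_mem w hw b
    have h3 : (b * w * b⁻¹) * (b * w * b⁻¹) = z := by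
      calc (b * w * b⁻¹) * (b * w * b⁻¹) = b * (w * w) * b⁻¹ := by group
        _ = z := by rw [hwz, hz]; group
    obtain ⟨x, hx⟩ : ∃ x, x = b * w * b⁻¹ := ⟨_, rfl⟩
    rw [← hx] at h1 h3 ⊢
    have h4 : (x * w⁻¹) * (x * w⁻¹) = 1 := by
      have h5 : w⁻¹ * x = x * w⁻¹ := hcomm _ (A.inv_mem hw) _ h1
      calc x * w⁻¹ * (x * w⁻¹) = x * (w⁻¹ * x) * w⁻¹ := by group
        _ = (x * x) * (w * w)⁻¹ := by rw [h5]; group
        _ = 1 := by rw [h3, hwz, mul_inv_cancel]
    rcases hinv _ (A.mul_mem h1 (A.inv_mem hw)) h4 with h5 | h5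
    · left
      exact mul_inv_eq_one.1 h5
    · right
      rw [mul_inv_eq_iff_eq_mul] at h5
      rw [h5, hz]
  have hprod : ∀ b b' : G, b * w * b⁻¹ = w * z → b' * w * b'⁻¹ = w * z →
      (b * b') * w = w * (b * b') := by
    intro b b' h1 h3
    have h4 : (b * b') * w * (b * b')⁻¹ = w := by
      calc (b * b') * w * (b * b')⁻¹ = b * (b' * w * b'⁻¹) * b⁻¹ := by group
        _ = b * w * (z * b⁻¹) := by rw [h3]; group
        _ = (b * w * b⁻¹) * z := by rw [← hz]; group
        _ = w * (z * z) := by rw [h1, mul_assoc]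
        _ = w := by rw [hz2, mul_one]
    exact mul_inv_eq_iff_eq_mul.1 h4
  rcases h with ⟨s, hs, s', hs', hss, hss', hc, hs1, hsz, hs1', hsz', hp1, hpz⟩ | ⟨u, hu, hu1, hu2, hu4⟩
  · rcases hconj s with h1 | h1
    · rcases hinv s (hcw s hs (mul_inv_eq_iff_eq_mul.1 h1)) hss with h3 | h3
      · exact hs1 h3
      · exact hsz h3
    · rcases hconj s' with h3 | h3
      · rcases hinv s' (hcw s' hs' (mul_inv_eq_iff_eq_mul.1 h3)) hss' with h4 | h4
        · exact hs1' h4
        · exact hsz' h4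
      · have h4 : s * s' * (s * s') = 1 := by
          calc s * s' * (s * s') = s * (s' * s) * s' := by group
            _ = (s * s) * (s' * s') := by rw [← hc]; group
            _ = 1 := by rw [hss, hss', one_mul]
        rcases hinv _ (hcw _ (N.mul_mem hs hs') (hprod s s' h1 h3)) h4 with h5 | h5
        · exact hp1 h5
        · exact hpz h5
  · have h1 : (u * u) * w = w * (u * u) := by
      rcases hconj u with h3 | h3
      · have h4 : Commute u w := mul_inv_eq_iff_eq_mul.1 h3
        exact (h4.mul_left h4)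
      · exact hprod u u h3 h3
    rcases hinv _ (hcw _ (N.mul_mem hu hu) h1) hu4 with h3 | h3
    · exact hu1 h3
    · exact hu2 h3

end Cfsg.Agent.H957.FR
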