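import Cfsg.Agent.H721.FR.Base
import Cfsg.Agent.H957.FRKlein

/-!
# TEAM SR part 2 (S4970): `[FR-ONE]`

* `red_one` : a maximal 2-subgroup of `Isom B`, `dim ≥ 3`, preserves a proper nondegenerate subspace or an orthogonal
  decomposition into two subspaces;
* `red_pm` : the same for the maximal 2-subgroups of the group of isometries and anti-isometries of an alternating form.
-/

set_option autoImplicit false

universe u

namespace Cfsg.Agent.H957.FR

open Cfsg.Agent.H721.FR Cfsg.Agent.H721.SR Module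

variable {F V : Type u} [Field F] [AddCommGroup V] [Module F V] {B : V →ₗ[F] V →ₗ[F] F} {ε : F}

/-! ### Involutions -/

theorem ndOn_fix (h2 : (2 : F) ≠ 0) (hnd : ∀ x, (∀ y, B x y = 0) → x = 0) {t : V ≃ₗ[F] V}
    (ht : t ∈ Isom B) (htt : t * t = 1) {U : Submodule F V} (hU : ∀ x, x ∈ U ↔ t x = x) :
    NdOn B U := by
  intro x hx h
  have htt' : ∀ v, t (t v) = v := fun v => LinearEquiv.congr_fun htt v
  apply hnd
  intro v
  have h3 : v + t v ∈ U := by
    rw [hU, map_add, htt', add_comm]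
  have h4 := h _ h3
  have h5 : B x (t v) = B x v := by
    have h6 := ht x v
    rwa [(hU x).1 hx] at h6
  rw [map_add, h5] at h4
  have h7 : (2 : F) * B x v = 0 := by rw [two_mul]; exact h4
  exact (mul_eq_zero.1 h7).resolve_left h2

theorem perp_fix (h2 : (2 : F) ≠ 0) (hsymm : ∀ x y, B x y = ε * B y x)
    (hnd : ∀ x, (∀ y, B x y = 0) → x = 0) {t : V ≃ₗ[F] V}
    (ht : t ∈ Isom B) (htt : t * t = 1) {U : Submodule F V} (hU : ∀ x, x ∈ U ↔ t x = x) (x : V) :
    x ∈ perp B U ↔ t x = -x := by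
  have htt' : ∀ v, t (t v) = v := fun v => LinearEquiv.congr_fun htt v
  rw [mem_perp]
  constructor
  · intro h
    have h3 : x + t x ∈ U := by
      rw [hU, map_add, htt', add_comm]
    have h4 : x + t x = 0 := by
      refine ndOn_fix h2 hnd ht htt hU _ h3 fun y hy => ?_
      rw [hsymm, map_add, h y hy, zero_add]
      have h5 := ht y x
      rw [(hU y).1 hy, h y hy] at h5
      rw [h5, mul_zero]
    rw [eq_neg_iff_add_eq_zero, add_comm]
    exact h4
  · intro h y hy
    have h5 := ht y x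
    rw [(hU y).1 hy, h, map_neg] at h5
    have h7 : (2 : F) * B y x = 0 := by
      rw [two_mul]
      nth_rewrite 1 [← h5]
      exact neg_add_cancel _
    exact (mul_eq_zero.1 h7).resolve_left h2

/-- `-1` -/
theorem neg_apply' (x : V) : (LinearEquiv.neg F : V ≃ₗ[F] V) x = -x := rfl

theorem neg_comm (g : V ≃ₗ[F] V) :
    g * (LinearEquiv.neg F : V ≃ₗ[F] V) = (LinearEquiv.neg F : V ≃ₗ[F] V) * g := by
  ext x
  exact map_neg g x

theorem neg_neg' : (LinearEquiv.neg F : V ≃ₗ[F] V) * (LinearEquiv.neg F : V ≃ₗ[F] V) = 1 := by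
  ext x
  exact neg_neg x

theorem neg_mem_isom : (LinearEquiv.neg F : V ≃ₗ[F] V) ∈ Isom B := by
  intro x y
  change B (-x) (-y) = B x y
  simp

/-- The decomposition from an isometric involution. -/
theorem red_of_invol (h2 : (2 : F) ≠ 0) (hsymm : ∀ x y, B x y = ε * B y x)
    (hnd : ∀ x, (∀ y, B x y = 0) → x = 0) {t : V ≃ₗ[F] V}
    (ht : t ∈ Isom B) (htt : t * t = 1) (ht1 : t ≠ 1) (htn : t ≠ LinearEquiv.neg F)
    {P : Subgroup (V ≃ₗ[F] V)}
    (hP : ∀ g ∈ P, g * t * g⁻¹ = t ∨ g * t * g⁻¹ = t * LinearEquiv.neg F) : Red B P := by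
  have htt' : ∀ v, t (t v) = v := fun v => LinearEquiv.congr_fun htt v
  obtain ⟨U, hU⟩ : ∃ U : Submodule F V, ∀ x, x ∈ U ↔ t x = x :=
    ⟨{ carrier := {x | t x = x}
       add_mem' := by
        intro a b ha hb
        change t (a + b) = a + b
        rw [map_add, show t a = a from ha, show t b = b from hb]
       zero_mem' := map_zero t
       smul_mem' := by
        intro c x hx
        change t (c • x) = c • x
        rw [map_smul, show t x = x from hx] }, fun x => Iff.rfl⟩
  refine ⟨U, ?_, ?_, ndOn_fix h2 hnd ht htt hU, fun g hg => ?_⟩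
  · rintro rfl
    apply htn
    ext x
    have h3 : x + t x ∈ (⊥ : Submodule F V) := by
      rw [hU, map_add, htt', add_comm]
    rw [Submodule.mem_bot, add_comm] at h3
    exact eq_neg_of_add_eq_zero_left h3
  · rintro rfl
    apply ht1
    ext x
    exact (hU x).1 trivial
  · have hgt : ∀ {c : V ≃ₗ[F] V}, g * t * g⁻¹ = c → ∀ x, g (t x) = c (g x) := by
      intro c hc x
      have h3 : g * t = c * g := mul_inv_eq_iff_eq_mul.1 hc
      exact LinearEquiv.congr_fun h3 x
    have hmap : ∀ x, x ∈ U.map (g : V →ₗ[F] V) ↔ ∃ y ∈ U, g y = x := fun x => Submodule.mem_map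
    rcases hP g hg with h | h
    · left
      ext x
      rw [hmap]
      constructor
      · rintro ⟨y, hy, rfl⟩
        rw [hU, ← hgt h, (hU y).1 hy]
      · intro hx
        refine ⟨g.symm x, ?_, g.apply_symm_apply x⟩
        rw [hU]
        apply g.injective
        rw [hgt h, g.apply_symm_apply]
        exact (hU x).1 hx
    · right
      ext x
      rw [hmap, perp_fix h2 hsymm hnd ht htt hU]
      have h3 : ∀ y, g (t y) = t (-(g y)) := hgt h
      constructor
      · rintro ⟨y, hy, rfl⟩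
        have h4 := h3 y
        rw [(hU y).1 hy, map_neg] at h4
        rw [h4, neg_neg, ← h4]
      · intro hx
        refine ⟨g.symm x, ?_, g.apply_symm_apply x⟩
        rw [hU]
        apply g.injective
        rw [h3, g.apply_symm_apply, map_neg, hx, neg_neg]

/-! ### Elements of `Isom B` -/

theorem finrank_le_two {v v' : V} (h : Submodule.span F ({v, v'} : Set V) = ⊤) :
    finrank F V ≤ 2 := by
  classical
  have h4 := finrank_span_finset_le_card (R := F) ({v, v'} : Finset V)
  rw [Finset.coe_pair, Set.finrank, h, finrank_top] at h4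
  exact h4.trans Finset.card_le_two

/-- reflections -/
theorem exists_refl (hsymm : ∀ x y, B x y = B y x) {v : V} (hv : B v v ≠ 0) :
    ∃ s : V ≃ₗ[F] V, s ∈ Isom B ∧ s * s = 1 ∧ ∀ x, s x = x - (2 * (B v v)⁻¹ * B v x) • v := by
  have h : ((2 * (B v v)⁻¹) • B v) v = 2 := by
    rw [LinearMap.smul_apply, smul_eq_mul, mul_assoc, inv_mul_cancel₀ hv, mul_one]
  have happ : ∀ x, Module.reflection h x = x - (2 * (B v v)⁻¹ * B v x) • v := fun x => by
    rw [Module.reflection_apply]
    rfl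
  refine ⟨Module.reflection h, ?_, ?_, happ⟩
  · intro x y
    rw [happ, happ]
    simp only [map_sub, LinearMap.sub_apply, map_smul, LinearMap.smul_apply, smul_eq_mul]
    rw [hsymm x v]
    field_simp
    ring
  · ext x
    exact Module.involutive_reflection h x

/-- two orthogonal nonsingular vectors -/
theorem exists_pair (h2 : (2 : F) ≠ 0) (hsymm : ∀ x y, B x y = B y x)
    (hnd : ∀ x, (∀ y, B x y = 0) → x = 0) (hn : 2 ≤ finrank F V) :
    ∃ v v' : V, B v v ≠ 0 ∧ B v' v' ≠ 0 ∧ B v v' = 0 := by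
  have hfin : FiniteDimensional F V := FiniteDimensional.of_finrank_pos (by omega)
  have hnt : Nontrivial V := (Module.finrank_pos_iff (R := F)).1 (by omega)
  -- polarisation
  have hpol : ∀ x y, B x x = 0 → B y y = 0 → B (x + y) (x + y) = 0 → B x y = 0 := by
    intro x y hx hy hxy
    simp only [map_add, LinearMap.add_apply] at hxy
    rw [hx, hy, hsymm y x] at hxy
    have h : (2 : F) * B x y = 0 := by
      rw [← hxy]
      ring
    exact (mul_eq_zero.1 h).resolve_left h2
  obtain ⟨v, hv⟩ : ∃ v, B v v ≠ 0 := by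
    by_contra hcon
    push Not at hcon
    obtain ⟨x, hx⟩ := exists_ne (0 : V)
    exact hx (hnd x fun y => hpol x y (hcon _) (hcon _) (hcon _))
  obtain ⟨v', hv', hvv'⟩ : ∃ v', B v' v' ≠ 0 ∧ B v v' = 0 := by
    by_contra hcon
    push Not at hcon
    have h0 : ∀ x, B v x = 0 → B x x = 0 := fun x hx => by
      by_contra h
      exact hcon x h hx
    have h1 : ∀ x, B v x = 0 → x = 0 := by
      intro x hx
      apply hnd
      intro y
      -- `y = y' + c v`
      have hy : B v (y - (B v y * (B v v)⁻¹) • v) = 0 := by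
        rw [map_sub, map_smul, smul_eq_mul, mul_assoc, inv_mul_cancel₀ hv, mul_one, sub_self]
      have h3 : B x (y - (B v y * (B v v)⁻¹) • v) = 0 :=
        hpol x _ (h0 x hx) (h0 _ hy) (h0 _ (by rw [map_add, hx, hy, add_zero]))
      rw [map_sub, map_smul, hsymm x v, hx, smul_zero, sub_zero] at h3
      exact h3
    have h3 : Function.Injective (B v) := by
      rw [injective_iff_map_eq_zero]
      exact h1
    have h4 := LinearMap.finrank_le_finrank_of_injective h3
    rw [finrank_self] at h4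
    omega
  exact ⟨v, v', hv, hv', hvv'⟩

/-- The four-group of reflections. -/
theorem exists_four_orth (h2 : (2 : F) ≠ 0) (hsymm : ∀ x y, B x y = B y x)
    (hnd : ∀ x, (∀ y, B x y = 0) → x = 0) (hn : 3 ≤ finrank F V) :
    ∃ s ∈ Isom B, ∃ s' ∈ Isom B, s * s = 1 ∧ s' * s' = 1 ∧ s * s' = s' * s ∧ s ≠ 1 ∧
      s ≠ LinearEquiv.neg F ∧ s' ≠ 1 ∧ s' ≠ LinearEquiv.neg F ∧ s * s' ≠ 1 ∧
      s * s' ≠ LinearEquiv.neg F := by
  obtain ⟨v, v', hv, hv', hvv'⟩ := exists_pair h2 hsymm hnd (by omega)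
  obtain ⟨s, hs, hss, hsx⟩ := exists_refl hsymm hv
  obtain ⟨s', hs', hss', hsx'⟩ := exists_refl hsymm hv'
  have hv'v : B v' v = 0 := by rw [hsymm, hvv']
  have hv0 : v ≠ 0 := by
    rintro rfl
    rw [map_zero] at hv
    exact hv rfl
  have hv0' : v' ≠ 0 := by
    rintro rfl
    rw [map_zero] at hv'
    exact hv' rfl
  have e1 : s v = -v := by
    rw [hsx, mul_assoc, inv_mul_cancel₀ hv, mul_one, two_smul]
    abel
  have e2 : s v' = v' := by rw [hsx, hvv', mul_zero, zero_smul, sub_zero]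
  have e3 : s' v' = -v' := by
    rw [hsx', mul_assoc, inv_mul_cancel₀ hv', mul_one, two_smul]
    abel
  have e4 : s' v = v := by rw [hsx', hv'v, mul_zero, zero_smul, sub_zero]
  have hneg : ∀ {x : V}, x ≠ 0 → -x ≠ x := by
    intro x hx h
    apply hx
    have h3 : (2 : F) • x = 0 := by
      rw [two_smul]
      nth_rewrite 1 [← h]
      exact neg_add_cancel x
    exact (smul_eq_zero.1 h3).resolve_left h2
  refine ⟨s, hs, s', hs', hss, hss', ?_, ?_, ?_, ?_, ?_, ?_, ?_⟩
  · ext x
    change s (s' x) = s' (s x)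
    rw [hsx' x, hsx x, map_sub, map_smul, e2, map_sub, map_smul, e4, hsx, hsx']
    abel
  · rintro rfl
    exact hneg hv0 e1.symm
  · rintro rfl
    exact hneg hv0' e2
  · rintro rfl
    exact hneg hv0' e3.symm
  · rintro rfl
    exact hneg hv0 e4
  · intro h
    have h3 : s (s' v) = v := LinearEquiv.congr_fun h v
    rw [e4, e1] at h3
    exact hneg hv0 h3
  · intro h
    have hspan : ∀ x : V, x ∈ Submodule.span F ({v, v'} : Set V) := by
      intro x
      have h3 : s (s' x) = -x := LinearEquiv.congr_fun h x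
      rw [hsx', map_sub, map_smul, e2, hsx] at h3
      rw [Submodule.mem_span_pair]
      refine ⟨(2 : F)⁻¹ * (2 * (B v v)⁻¹ * B v x), (2 : F)⁻¹ * (2 * (B v' v')⁻¹ * B v' x), ?_⟩
      have h4 : (2 : F) • x = (2 * (B v v)⁻¹ * B v x) • v + (2 * (B v' v')⁻¹ * B v' x) • v' := by
        rw [two_smul]
        have h5 : x = -(x - (2 * (B v v)⁻¹ * B v x) • v - (2 * (B v' v')⁻¹ * B v' x) • v') := by
          rw [h3, neg_neg]
        nth_rewrite 2 [h5]
        abel
      rw [mul_smul (2 : F)⁻¹, mul_smul (2 : F)⁻¹, ← smul_add, ← h4, smul_smul, inv_mul_cancel₀ h2,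
        one_smul]
    have h3 : Submodule.span F ({v, v'} : Set V) = ⊤ := by
      rw [eq_top_iff]
      intro x _
      exact hspan x
    exact absurd (finrank_le_two h3) (by omega)

/-- An isometry of order four with square `-1` on a hyperbolic plane. -/
theorem exists_quarter (h2 : (2 : F) ≠ 0) (hsymm : ∀ x y, B x y = -B y x)
    (hnd : ∀ x, (∀ y, B x y = 0) → x = 0) (hn : 3 ≤ finrank F V) :
    ∃ u ∈ Isom B, u * u ≠ 1 ∧ u * u ≠ LinearEquiv.neg F ∧ (u * u) * (u * u) = 1 := by
  have hfin : FiniteDimensional F V := FiniteDimensional.of_finrank_pos (by omega)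
  have hnt : Nontrivial V := (Module.finrank_pos_iff (R := F)).1 (by omega)
  have halt : ∀ x, B x x = 0 := by
    intro x
    have h := hsymm x x
    have h3 : (2 : F) * B x x = 0 := by
      rw [two_mul]
      nth_rewrite 1 [h]
      exact neg_add_cancel _
    exact (mul_eq_zero.1 h3).resolve_left h2
  obtain ⟨e, he⟩ := exists_ne (0 : V)
  obtain ⟨f', hf'⟩ : ∃ f', B e f' ≠ 0 := by
    by_contra hcon
    push Not at hcon
    exact he (hnd e hcon)
  obtain ⟨f, hf⟩ : ∃ f, B e f = 1 :=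
    ⟨(B e f')⁻¹ • f', by rw [map_smul, smul_eq_mul, inv_mul_cancel₀ hf']⟩
  have hfe : B f e = -1 := by rw [hsymm, hf]
  have hBxe : ∀ x, B x e = -B e x := fun x => hsymm x e
  have hBxf : ∀ x, B x f = -B f x := fun x => hsymm x f
  -- the map
  let u1 : V →ₗ[F] V := LinearMap.id - (B f).smulRight (f - e) - (B e).smulRight (e + f)
  let u2 : V →ₗ[F] V := LinearMap.id + (B f).smulRight (e + f) + (B e).smulRight (e - f)
  have h1 : ∀ x, u1 x = x - B f x • (f - e) - B e x • (e + f) := fun x => rfl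
  have h3 : ∀ x, u2 x = x + B f x • (e + f) + B e x • (e - f) := fun x => rfl
  have h12 : ∀ x, u1 (u2 x) = x := by
    intro x
    rw [h1, h3]
    simp only [map_add, map_smul, map_sub, smul_eq_mul, halt, hf, hfe]
    module
  have h21 : ∀ x, u2 (u1 x) = x := by
    intro x
    rw [h3, h1]
    simp only [map_add, map_smul, map_sub, smul_eq_mul, halt, hf, hfe]
    module
  let u : V ≃ₗ[F] V := LinearEquiv.ofLinearMap u1 u2 (LinearMap.ext h12) (LinearMap.ext h21)
  have hu : ∀ x, u x = x - B f x • (f - e) - B e x • (e + f) := h1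
  have huu : ∀ x, u (u x) = x + (2 * B f x) • e - (2 * B e x) • f := by
    intro x
    rw [hu, hu]
    simp only [map_add, map_smul, map_sub, smul_eq_mul, halt, hf, hfe]
    module
  refine ⟨u, ?_, ?_, ?_, ?_⟩
  · intro x y
    rw [hu, hu]
    simp only [map_add, map_smul, map_sub, smul_eq_mul, LinearMap.sub_apply, LinearMap.smul_apply,
      LinearMap.add_apply, halt, hf, hfe, hBxe x, hBxf x]
    ring
  · intro h
    have h4 : u (u e) = e := LinearEquiv.congr_fun h e
    rw [huu, hfe, halt] at h4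
    have h5 : (2 : F) • e = 0 := by
      have h6 : e + (2 * -1 : F) • e - (2 * 0 : F) • f = e - (2 : F) • e := by module
      rw [h6] at h4
      exact sub_eq_self.1 h4
    exact he ((smul_eq_zero.1 h5).resolve_left h2)
  · intro h
    have h3 : Submodule.span F ({e, f} : Set V) = ⊤ := by
      rw [eq_top_iff]
      intro x _
      have h4 : u (u x) = -x := LinearEquiv.congr_fun h x
      rw [huu] at h4
      rw [Submodule.mem_span_pair]
      refine ⟨-B f x, B e x, ?_⟩
      have h5 : (2 : F) • x = (2 : F) • (-B f x • e + B e x • f) := by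
        have h6 : (2 : F) • x = x - (-x) := by module
        rw [h6, ← h4]
        module
      exact (smul_right_injective V h2 h5).symm
    exact absurd (finrank_le_two h3) (by omega)
  · ext x
    change u (u (u (u x))) = x
    rw [huu (u (u x)), huu]
    simp only [map_add, map_smul, map_sub, smul_eq_mul, halt, hf, hfe]
    module

/-! ### Maximal 2-subgroups -/

/-- 2-subgroups are conjugate into maximal 2-subgroups. -/
theorem exists_conj_le {Γ : Type*} [Group Γ] [Finite Γ] {H P X : Subgroup Γ} (hPH : P ≤ H)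
    (hP : IsPGroup 2 P) (hmax : ∀ P' : Subgroup Γ, P ≤ P' → P' ≤ H → IsPGroup 2 P' → P' = P)
    (hXH : X ≤ H) (hX : IsPGroup 2 X) : ∃ g ∈ H, ∀ x ∈ X, g * x * g⁻¹ ∈ P := by
  have : Fact (Nat.Prime 2) := ⟨Nat.prime_two⟩
  let S : Sylow 2 H :=
    { toSubgroup := P.subgroupOf H
      isPGroup' := hP.comap_of_injective H.subtype H.subtype_injective
      is_maximal' := by
        intro Q hQ hle
        have h1 : P ≤ Q.map H.subtype := by
          intro x hx
          exact ⟨⟨x, hPH hx⟩, hle (Subgroup.mem_subgroupOf.2 hx), rfl⟩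
        have h2 := hmax _ h1 (Subgroup.map_subtype_le Q) (hQ.map H.subtype)
        rw [← h2]
        ext x
        rw [Subgroup.mem_subgroupOf]
        constructor
        · intro hx
          exact ⟨x, hx, rfl⟩
        · rintro ⟨y, hy, hxy⟩
          rwa [← H.subtype_injective hxy] }
  obtain ⟨Q, hQ⟩ := (hX.comap_of_injective H.subtype H.subtype_injective :
    IsPGroup 2 (X.subgroupOf H)).exists_le_sylow
  obtain ⟨g, hg⟩ := MulAction.exists_smul_eq H Q S
  refine ⟨g, g.2, fun x hx => ?_⟩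
  have h1 : (⟨x, hXH hx⟩ : H) ∈ (Q : Subgroup H) := hQ (Subgroup.mem_subgroupOf.2 hx)
  have h2 : g * ⟨x, hXH hx⟩ * g⁻¹ ∈ (S : Subgroup H) := by
    rw [← hg]
    exact Subgroup.smul_mem_pointwise_smul _ (MulAut.conj g) _ h1
  exact Subgroup.mem_subgroupOf.1 h2

theorem isPGroup_zpowers_of_sq {Γ : Type*} [Group Γ] {z : Γ} (hz : z * z = 1) :
    IsPGroup 2 (Subgroup.zpowers z) := by
  rintro ⟨_, i, rfl⟩
  refine ⟨1, Subtype.ext ?_⟩
  change (z ^ i) ^ 2 ^ 1 = 1
  rw [pow_one, pow_two, ← zpow_add, ← two_mul, zpow_mul, zpow_two, hz, one_zpow]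

theorem isPGroup_zpowers_of_four {Γ : Type*} [Group Γ] {u : Γ} (hu : (u * u) * (u * u) = 1) :
    IsPGroup 2 (Subgroup.zpowers u) := by
  rintro ⟨_, i, rfl⟩
  refine ⟨2, Subtype.ext ?_⟩
  change (u ^ i) ^ 2 ^ 2 = 1
  have h : u ^ (4 : ℤ) = 1 := by
    rw [show (4 : ℤ) = 2 + 2 by norm_num, zpow_add, zpow_two, hu]
  rw [← zpow_natCast, ← zpow_mul]
  push_cast
  rw [mul_comm i, zpow_mul, h, one_zpow]

theorem finite_equiv [Finite V] : Finite (V ≃ₗ[F] V) :=
  Finite.of_injective (fun g : V ≃ₗ[F] V => (g : V → V)) (fun _ _ h => LinearEquiv.ext (congrFun h))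

/-- The general statement. -/
theorem red_of_two [Finite V] (h2 : (2 : F) ≠ 0) (hsymm : ∀ x y, B x y = ε * B y x)
    (hnd : ∀ x, (∀ y, B x y = 0) → x = 0) (hV : Nontrivial V) {P : Subgroup (V ≃ₗ[F] V)}
    (hP : IsPGroup 2 P)
    (hnorm : ∀ g ∈ P, ∀ t ∈ Isom B, g * t * g⁻¹ ∈ Isom B)
    (hneg : LinearEquiv.neg F ∈ P)
    (h : (∃ s ∈ Isom B, s ∈ P ∧ ∃ s' ∈ Isom B, s' ∈ P ∧ s * s = 1 ∧ s' * s' = 1 ∧
        s * s' = s' * s ∧ s ≠ 1 ∧ s ≠ LinearEquiv.neg F ∧ s' ≠ 1 ∧ s' ≠ LinearEquiv.neg F ∧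
        s * s' ≠ 1 ∧ s * s' ≠ LinearEquiv.neg F) ∨
      ∃ u ∈ Isom B, u ∈ P ∧ u * u ≠ 1 ∧ u * u ≠ LinearEquiv.neg F ∧ (u * u) * (u * u) = 1) :
    Red B P := by
  have hfinG : Finite (V ≃ₗ[F] V) := finite_equiv
  have hN : ((Isom B).subgroupOf P).Normal := ⟨by
    intro t ht g
    rw [Subgroup.mem_subgroupOf] at ht ⊢
    exact hnorm g g.2 t ht⟩
  have hz1 : (⟨LinearEquiv.neg F, hneg⟩ : P) ≠ 1 := by
    intro h1
    obtain ⟨x, hx⟩ := exists_ne (0 : V)
    have h3 : -x = x := LinearEquiv.congr_fun (congrArg Subtype.val h1) x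
    apply hx
    have h4 : (2 : F) • x = 0 := by
      rw [two_smul]
      nth_rewrite 1 [← h3]
      exact neg_add_cancel x
    exact (smul_eq_zero.1 h4).resolve_left h2
  have hval : ∀ {a b : P}, (a : V ≃ₗ[F] V) ≠ b → a ≠ b := fun hab h1 => hab (congrArg _ h1)
  obtain ⟨t, htN, htt, ht1, htz, hg⟩ := exists_good (G := P) hP hN
    (z := ⟨LinearEquiv.neg F, hneg⟩) (fun g => Subtype.ext (neg_comm _))
    (Subgroup.mem_subgroupOf.2 neg_mem_isom) (Subtype.ext neg_neg') hz1 (by
      rcases h with ⟨s, hs, hsP, s', hs', hsP', a1, a2, a3, a4, a5, a6, a7, a8, a9⟩ |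
        ⟨u, hu, huP, a1, a2, a3⟩
      · left
        exact ⟨⟨s, hsP⟩, Subgroup.mem_subgroupOf.2 hs, ⟨s', hsP'⟩, Subgroup.mem_subgroupOf.2 hs',
          Subtype.ext a1, Subtype.ext a2, Subtype.ext a3, hval a4, hval a5, hval a6, hval a7,
          hval a8, hval a9⟩
      · right
        exact ⟨⟨u, huP⟩, Subgroup.mem_subgroupOf.2 hu, hval a1, hval a2, Subtype.ext a3⟩)
  refine red_of_invol h2 hsymm hnd (t := (t : V ≃ₗ[F] V)) (Subgroup.mem_subgroupOf.1 htN)
    (congrArg Subtype.val htt) (fun h1 => ht1 (Subtype.ext h1)) (fun h1 => htz (Subtype.ext h1))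
    fun g hgP => ?_
  rcases hg ⟨g, hgP⟩ with h1 | h1
  · exact Or.inl (congrArg Subtype.val h1)
  · exact Or.inr (congrArg Subtype.val h1)

theorem finite_of [Finite F] (hn : 3 ≤ finrank F V) : Finite V ∧ Nontrivial V := by
  have hfin : FiniteDimensional F V := FiniteDimensional.of_finrank_pos (by omega)
  exact ⟨Module.finite_of_finite F, (Module.finrank_pos_iff (R := F)).1 (by omega)⟩

/-- **[FR-ONE]** -/
theorem red_one [Finite F] (hF : Fm B ε) (hn : 3 ≤ finrank F V) {P : Subgroup (V ≃ₗ[F] V)}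
    (hP : Mx B 1 P) : Red B P := by
  obtain ⟨hV, hnt⟩ := finite_of hn
  have hfinG : Finite (V ≃ₗ[F] V) := finite_equiv
  have hone : ∀ g : V ≃ₗ[F] V, g * 1 * g⁻¹ = 1 := fun g => by rw [mul_one, mul_inv_cancel]
  have hmax : ∀ P' : Subgroup (V ≃ₗ[F] V), P ≤ P' → P' ≤ Isom B → IsPGroup 2 P' → P' = P :=
    fun P' h1 h3 h4 => hP.max P' h1 h3 h4 fun g _ => Or.inl (hone g)
  have hneg : LinearEquiv.neg F ∈ P := by
    obtain ⟨g, hg, h1⟩ := exists_conj_le hP.le hP.two hmax
      (Subgroup.zpowers_le.2 (neg_mem_isom (F := F) (B := B))) (isPGroup_zpowers_of_sq neg_neg')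
    have h3 := h1 _ (Subgroup.mem_zpowers _)
    rwa [neg_comm, mul_inv_cancel_right] at h3
  have hcj : ∀ (g a b : V ≃ₗ[F] V), g * a * g⁻¹ * (g * b * g⁻¹) = g * (a * b) * g⁻¹ := by
    intro g a b; group
  have hc1 : ∀ {g a : V ≃ₗ[F] V}, a ≠ 1 → g * a * g⁻¹ ≠ 1 := by
    intro g a ha h1
    apply ha
    rw [mul_inv_eq_one] at h1
    exact mul_eq_left.1 h1
  have hcn : ∀ {g a : V ≃ₗ[F] V}, a ≠ LinearEquiv.neg F → g * a * g⁻¹ ≠ LinearEquiv.neg F := by
    intro g a ha h1
    apply ha
    rw [mul_inv_eq_iff_eq_mul, ← neg_comm] at h1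
    exact mul_left_cancel h1
  refine red_of_two hF.two hF.symm hF.nondeg hnt hP.two
    (fun g hg t ht => (Isom B).mul_mem ((Isom B).mul_mem (hP.le hg) ht)
      ((Isom B).inv_mem (hP.le hg))) hneg ?_
  rcases hF.eps with rfl | ⟨rfl, -⟩
  · left
    obtain ⟨s, hs, s', hs', a1, a2, a3, a4, a5, a6, a7, a8, a9⟩ := exists_four_orth hF.two
      (fun x y => by rw [hF.symm x y, one_mul]) hF.nondeg hn
    -- the group generated
    have hXle : Subgroup.closure {s, s'} ≤ Isom B := by
      rw [Subgroup.closure_le]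
      rintro x (rfl | hx)
      · exact hs
      · rw [Set.mem_singleton_iff] at hx
        rw [hx]; exact hs'
    have hX2 : IsPGroup 2 (Subgroup.closure {s, s'}) := by
      have h1 : ∀ x ∈ Subgroup.closure {s, s'}, x * x = 1 ∧ x * s = s * x ∧ x * s' = s' * x := by
        intro x hx
        induction hx using Subgroup.closure_induction with
        | mem x hx =>
          rcases hx with rfl | hx
          · exact ⟨a1, rfl, a3⟩
          · rw [Set.mem_singleton_iff] at hx
            rw [hx]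
            exact ⟨a2, a3.symm, rfl⟩
        | one => simp
        | mul x y hx hy h3 h4 =>
          have hxy : x * y = y * x := by
            clear h4
            induction hy using Subgroup.closure_induction with
            | mem y hy =>
              rcases hy with rfl | hy
              · exact h3.2.1
              · rw [Set.mem_singleton_iff] at hy
                rw [hy]
                exact h3.2.2
            | one => simp
            | mul y y' _ _ h5 h6 => exact (Commute.mul_right h5 h6)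
            | inv y _ h5 => exact Commute.inv_right h5
          refine ⟨?_, ?_, ?_⟩
          · calc x * y * (x * y) = x * (y * x) * y := by group
              _ = (x * x) * (y * y) := by rw [← hxy]; group
              _ = 1 := by rw [h3.1, h4.1, one_mul]
          · exact (Commute.mul_left h3.2.1 h4.2.1)
          · exact (Commute.mul_left h3.2.2 h4.2.2)
        | inv x _ h3 =>
          refine ⟨?_, ?_, ?_⟩
          · rw [← mul_inv_rev, h3.1, inv_one]
          · exact Commute.inv_left h3.2.1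
          · exact Commute.inv_left h3.2.2
      rintro ⟨x, hx⟩
      refine ⟨1, Subtype.ext ?_⟩
      change x ^ 2 ^ 1 = 1
      rw [pow_one, pow_two]
      exact (h1 x hx).1
    obtain ⟨g, hg, hgP⟩ := exists_conj_le hP.le hP.two hmax hXle hX2
    have hgI : ∀ {x}, x ∈ Isom B → g * x * g⁻¹ ∈ Isom B := fun hx =>
      (Isom B).mul_mem ((Isom B).mul_mem hg hx) ((Isom B).inv_mem hg)
    refine ⟨g * s * g⁻¹, hgI hs, hgP s (Subgroup.subset_closure (by simp)), g * s' * g⁻¹, hgI hs',
      hgP s' (Subgroup.subset_closure (by simp)), ?_, ?_, ?_, hc1 a4, hcn a5, hc1 a6, hcn a7,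
      ?_, ?_⟩
    · rw [hcj, a1, hone]
    · rw [hcj, a2, hone]
    · rw [hcj, hcj, a3]
    · rw [hcj]; exact hc1 a8
    · rw [hcj]; exact hcn a9
  · right
    obtain ⟨u, hu, a1, a2, a3⟩ := exists_quarter hF.two
      (fun x y => by rw [hF.symm x y, neg_one_mul]) hF.nondeg hn
    obtain ⟨g, hg, hgP⟩ := exists_conj_le hP.le hP.two hmax (Subgroup.zpowers_le.2 hu)
      (isPGroup_zpowers_of_four a3)
    refine ⟨g * u * g⁻¹, (Isom B).mul_mem ((Isom B).mul_mem hg hu) ((Isom B).inv_mem hg),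
      hgP u (Subgroup.mem_zpowers u), ?_, ?_, ?_⟩
    · rw [hcj]; exact hc1 a1
    · rw [hcj]; exact hcn a2
    · rw [hcj, hcj, a3, hone]

/-- The isometries and anti-isometries. -/
def IsomPM (B : V →ₗ[F] V →ₗ[F] F) : Subgroup (V ≃ₗ[F] V) where
  carrier := {g | (∀ x y, B (g x) (g y) = B x y) ∨ ∀ x y, B (g x) (g y) = -B x y}
  one_mem' := Or.inl fun _ _ => rfl
  mul_mem' := by
    rintro a b (ha | ha) (hb | hb)
    · exact Or.inl fun x y => by change B (a (b x)) (a (b y)) = _; rw [ha, hb]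
    · exact Or.inr fun x y => by change B (a (b x)) (a (b y)) = _; rw [ha, hb]
    · exact Or.inr fun x y => by change B (a (b x)) (a (b y)) = _; rw [ha, hb]
    · exact Or.inl fun x y => by change B (a (b x)) (a (b y)) = _; rw [ha, hb, neg_neg]
  inv_mem' := by
    rintro a (ha | ha)
    · refine Or.inl fun x y => ?_
      change B (a.symm x) (a.symm y) = _
      rw [← ha, LinearEquiv.apply_symm_apply, LinearEquiv.apply_symm_apply]
    · refine Or.inr fun x y => ?_
      change B (a.symm x) (a.symm y) = _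
      rw [← neg_neg (B (a.symm x) (a.symm y)), ← ha, LinearEquiv.apply_symm_apply,
        LinearEquiv.apply_symm_apply]

theorem mem_isomPM {g : V ≃ₗ[F] V} : g ∈ IsomPM B ↔
    (∀ x y, B (g x) (g y) = B x y) ∨ ∀ x y, B (g x) (g y) = -B x y := Iff.rfl

theorem isom_le_isomPM : Isom B ≤ IsomPM B := fun _ hg => Or.inl hg

theorem isomPM_norm {g t : V ≃ₗ[F] V} (hg : g ∈ IsomPM B) (ht : t ∈ Isom B) :
    g * t * g⁻¹ ∈ Isom B := by
  intro x y
  have h1 : ∀ x, g (g⁻¹ x) = x := fun x => g.apply_symm_apply x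
  change B (g (t (g⁻¹ x))) (g (t (g⁻¹ y))) = B x y
  rcases hg with hg | hg
  · rw [hg, ht, ← hg, h1, h1]
  · rw [hg, ht, ← hg, h1, h1]

/-- **[FR-ONE], anti-isometries.** A maximal 2-subgroup of the group of isometries and
anti-isometries of an alternating form (`dim ≥ 3`, so `≥ 4`). -/
theorem red_pm [Finite F] (h2 : (2 : F) ≠ 0) (hsymm : ∀ x y, B x y = -B y x)
    (hnd : ∀ x, (∀ y, B x y = 0) → x = 0) (hn : 3 ≤ finrank F V) {P : Subgroup (V ≃ₗ[F] V)}
    (hle : P ≤ IsomPM B) (hP : IsPGroup 2 P)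
    (hmax : ∀ P' : Subgroup (V ≃ₗ[F] V), P ≤ P' → P' ≤ IsomPM B → IsPGroup 2 P' → P' = P) :
    Red B P := by
  obtain ⟨hV, hnt⟩ := finite_of hn
  have hfinG : Finite (V ≃ₗ[F] V) := finite_equiv
  have hone : ∀ g : V ≃ₗ[F] V, g * 1 * g⁻¹ = 1 := fun g => by rw [mul_one, mul_inv_cancel]
  have hneg : LinearEquiv.neg F ∈ P := by
    obtain ⟨g, hg, h1⟩ := exists_conj_le hle hP hmax
      (Subgroup.zpowers_le.2 (isom_le_isomPM (neg_mem_isom (F := F) (B := B))))
      (isPGroup_zpowers_of_sq neg_neg')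
    have h3 := h1 _ (Subgroup.mem_zpowers _)
    rwa [neg_comm, mul_inv_cancel_right] at h3
  have hcj : ∀ (g a b : V ≃ₗ[F] V), g * a * g⁻¹ * (g * b * g⁻¹) = g * (a * b) * g⁻¹ := by
    intro g a b; group
  refine red_of_two (ε := -1) h2 (fun x y => by rw [neg_one_mul]; exact hsymm x y) hnd hnt hP
    (fun g hg t ht => isomPM_norm (hle hg) ht) hneg (Or.inr ?_)
  obtain ⟨u, hu, a1, a2, a3⟩ := exists_quarter h2 hsymm hnd hn
  obtain ⟨g, hg, hgP⟩ := exists_conj_le hle hP hmax
    (Subgroup.zpowers_le.2 (isom_le_isomPM hu)) (isPGroup_zpowers_of_four a3)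
  refine ⟨g * u * g⁻¹, isomPM_norm hg hu, hgP u (Subgroup.mem_zpowers u), ?_, ?_, ?_⟩
  · rw [hcj]
    intro h1
    apply a1
    rw [mul_inv_eq_one] at h1
    exact mul_eq_left.1 h1
  · rw [hcj]
    intro h1
    apply a2
    rw [mul_inv_eq_iff_eq_mul, ← neg_comm] at h1
    exact mul_left_cancel h1
  · rw [hcj, hcj, a3, hone]

end Cfsg.Agent.H957.FR
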