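import Mathlib
import Cfsg.Agent.H430.CfBase
import Cfsg.Agent.H430.CfRowChev
import Cfsg.Agent.H934.IdxCl
import Cfsg.Agent.H989.HasInvOrth
import Cfsg.Agent.S2140
import Cfsg.Agent.S2143
import Cfsg.Agent.S2144
import Cfsg.Agent.S2145
import Cfsg.Agent.S2146
import Cfsg.Agent.S2147

/-!
# S5880, the orthogonal groups (helper957, task 598)
-/

set_option autoImplicit false

namespace Cfsg.Agent.H957.CfOrth

open Cfsg Matrix Cfsg.Agent.H430.CfBase
open scoped commutatorElement

/-- A perfect group with a non-trivial homomorphism into a simple group: the indices of the simple group are at least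
the least index of the central quotient of the perfect group. -/
theorem index_ge_of_hom {Y X : Type*} [Group Y] [Finite Y] [Group X] [Finite X] [IsSimpleGroup X]
    (hY : commutator Y = ⊤) (f : Y →* X) {y : Y} (hf : f y ≠ 1) {N : ℕ}
    (hN : ∀ H : Subgroup (Y ⧸ Subgroup.center Y), H ≠ ⊤ → N ≤ H.index) (L : Subgroup X) (hL : L ≠ ⊤) : N ≤ L.index := by
  classical
  obtain ⟨g, hg⟩ : ∃ g : X, f y ∉ L.map (MulAut.conj g).toMonoidHom := by
    by_contra h
    push Not at h
    have h1 : f y ∈ L.normalCore := by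
      intro g
      obtain ⟨x, hx, hx2⟩ := h g⁻¹
      have h2 : g⁻¹ * x * g = f y := by
        simpa [MulAut.conj_apply] using hx2
      rw [← h2]
      have h3 : g * (g⁻¹ * x * g) * g⁻¹ = x := by group
      rw [h3]
      exact hx
    rcases (IsSimpleGroup.eq_bot_or_eq_top_of_normal L.normalCore L.normalCore_normal) with h2 | h2
    · rw [h2, Subgroup.mem_bot] at h1
      exact hf h1
    · exact hL (eq_top_iff.2 (h2 ▸ L.normalCore_le))
  set L' := L.map (MulAut.conj g).toMonoidHom with hL'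
  have hidx : L'.index = L.index := Subgroup.index_map_equiv L (MulAut.conj g)
  set M := L'.comap f with hM
  have hMtop : M ≠ ⊤ := by
    intro h
    apply hg
    have : y ∈ M := by rw [h]; exact Subgroup.mem_top _
    exact this
  have hMi : M.index ≤ L'.index := by
    rw [hM, Subgroup.index_comap, ← Subgroup.relIndex_top_right L']
    exact Subgroup.relIndex_le_of_le_right le_top (by
      rw [Subgroup.relIndex_top_right]
      exact Subgroup.index_ne_zero_of_finite)
  set π := QuotientGroup.mk' (Subgroup.center Y) with hπ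
  have h1 : M.map π ≠ ⊤ := by
    intro h
    have h2 : M ⊔ Subgroup.center Y = ⊤ := by
      have h3 := Subgroup.comap_map_eq π M
      rw [h, Subgroup.comap_top, QuotientGroup.ker_mk'] at h3
      exact h3.symm
    apply hMtop
    rw [eq_top_iff, ← hY, commutator_def, Subgroup.commutator_le]
    intro a _ b _
    have ha : a ∈ M ⊔ Subgroup.center Y := by rw [h2]; exact Subgroup.mem_top _
    have hb : b ∈ M ⊔ Subgroup.center Y := by rw [h2]; exact Subgroup.mem_top _
    obtain ⟨a1, ha1, z1, hz1, rfl⟩ := Subgroup.mem_sup_of_normal_right.1 ha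
    obtain ⟨b1, hb1, z2, hz2, rfl⟩ := Subgroup.mem_sup_of_normal_right.1 hb
    have h3 : ⁅a1 * z1, b1 * z2⁆ = ⁅a1, b1⁆ := by
      have e1 := Subgroup.mem_center_iff.1 hz1
      have e2 := Subgroup.mem_center_iff.1 hz2
      rw [commutatorElement_def, commutatorElement_def, _root_.mul_inv_rev, _root_.mul_inv_rev]
      calc a1 * z1 * (b1 * z2) * (z1⁻¹ * a1⁻¹) * (z2⁻¹ * b1⁻¹)
          = a1 * (z1 * (b1 * z2 * z1⁻¹)) * a1⁻¹ * z2⁻¹ * b1⁻¹ := by group
        _ = a1 * ((b1 * z2 * z1⁻¹) * z1) * a1⁻¹ * z2⁻¹ * b1⁻¹ := by rw [e1]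
        _ = a1 * b1 * (z2 * a1⁻¹) * z2⁻¹ * b1⁻¹ := by group
        _ = a1 * b1 * (a1⁻¹ * z2) * z2⁻¹ * b1⁻¹ := by rw [e2]
        _ = a1 * b1 * a1⁻¹ * b1⁻¹ := by group
    rw [h3]
    exact M.mul_mem (M.mul_mem (M.mul_mem ha1 hb1) (M.inv_mem ha1)) (M.inv_mem hb1)
  calc N ≤ (M.map π).index := hN _ h1
    _ ≤ M.index := by
      have h2 : (M.map π).index ∣ M.index := Subgroup.index_map_dvd M (QuotientGroup.mk'_surjective _)
      exact Nat.le_of_dvd (Nat.pos_of_ne_zero Subgroup.index_ne_zero_of_finite) h2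
    _ ≤ L'.index := hMi
    _ = L.index := hidx

/-- `PΩ⁺_{2m}(q)`: indices are at least `(q ^ m - 1) / (q - 1)`. -/
theorem plus_index {F : Type*} [Field F] [Fintype F] {m : ℕ} (hm : 5 ≤ m)
    (hs : IsSimpleGroup (Cfsg.POmega F (Cfsg.quadFormPlus m F)))
    (L : Subgroup (Cfsg.POmega F (Cfsg.quadFormPlus m F))) (hL : L ≠ ⊤) :
    (Fintype.card F ^ m - 1) / (Fintype.card F - 1) ≤ L.index := by
  classical
  let Q := Cfsg.quadFormPlus m F
  let j1 : GL (Fin m) F →* GL (Fin m ⊕ Fin m) F := (H934.IdxCl.lev m F).toHomUnits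
  let j2 : GL (Fin m) F →* Cfsg.isometryGroup F Q := j1.codRestrict _ (fun A => by
    intro u v
    exact H934.IdxCl.quadFormPlus_lev A u)
  let j3 : SpecialLinearGroup (Fin m) F →* Cfsg.isometryGroup F Q := j2.comp SpecialLinearGroup.toGL
  have hperf : commutator (SpecialLinearGroup (Fin m) F) = ⊤ :=
    Cfsg.Agent.LieClassical.SLGen.commutator_eq_top (by rw [Fintype.card_fin]; omega)
  let j4 : SpecialLinearGroup (Fin m) F →* Cfsg.Omega F Q :=
    j3.codRestrict _ (fun A => H934.IdxCl.mem_commutator_of_perfect hperf j3 A)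
  have hj4 : Function.Injective j4 := by
    intro A B h
    have h1 : j3 A = j3 B := congrArg Subtype.val h
    have h2 : j1 (SpecialLinearGroup.toGL A) = j1 (SpecialLinearGroup.toGL B) := congrArg Subtype.val h1
    have h3 : H934.IdxCl.lev m F (SpecialLinearGroup.toGL A) = H934.IdxCl.lev m F (SpecialLinearGroup.toGL B) :=
      congrArg Units.val h2
    exact Subtype.ext (congrArg (fun g : GL (Fin m) F => (g : Matrix (Fin m) (Fin m) F)) (H934.IdxCl.lev_injective h3))
  obtain ⟨i0, j0, hij⟩ := Fintype.one_lt_card_iff.1 (show 1 < Fintype.card (Fin m) by rw [Fintype.card_fin]; omega)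
  have : Finite (Cfsg.isometryGroup F Q) := inferInstance
  have : Finite (Cfsg.POmega F Q) := inferInstance
  exact index_ge_of_hom (X := Cfsg.POmega F (Cfsg.quadFormPlus m F)) hperf
    ((QuotientGroup.mk' (Subgroup.center (Cfsg.Omega F Q))).comp j4)
    (H934.IdxCl.ne_one_of_not_comm j4 hj4 (H934.IdxCl.not_comm hij))
    (S2140.result rfl m (by omega) (by omega)).1 L hL

theorem geom (q n : ℕ) (hq : 2 ≤ q) : ∑ i ∈ Finset.range n, q ^ i = (q ^ n - 1) / (q - 1) := Nat.geomSum_eq hq n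

theorem geom_mul (q n : ℕ) (hq : 2 ≤ q) : (∑ i ∈ Finset.range n, q ^ i) * (q - 1) = q ^ n - 1 := by
  obtain ⟨a, rfl⟩ : ∃ a, q = a + 1 := ⟨q - 1, by omega⟩
  rw [Nat.add_sub_cancel, ← geom_sum_mul_add, Nat.add_sub_cancel]

theorem row_pomega_odd {S : Type*} [Group S] [Finite S] [IsSimpleGroup S] (h : Cfsg.IsPOmegaOdd S) : Row S := by
  obtain ⟨F, _, _, m, hm, hodd, ⟨e⟩⟩ := h
  refine Row.of_nonempty ⟨e⟩ (Row.of_hasInv (H989.HasInvOrth.hasInv_odd hm hodd) ?_)
  intro L hL
  have hq1 : 1 < Fintype.card F := Fintype.one_lt_card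
  by_cases h5 : 5 ≤ Fintype.card F
  · have h1 := (S2143.result rfl hodd h5 m hm).1 L hL
    rw [← geom _ _ (by omega)] at h1
    exact h1.trans (Nat.le_self_pow two_ne_zero _)
  · have h3 : Fintype.card F = 3 := by
      rcases hodd with ⟨a, ha⟩
      omega
    have h1 := (S2144.result h3 m hm).1 L hL
    rw [h3, geom _ _ (by norm_num)]
    obtain ⟨b, hb⟩ : ∃ b, 3 ^ m = 2 * b + 1 := by
      have : Odd (3 ^ m) := Odd.pow (by decide)
      exact this
    have hb1 : 1 ≤ b := by
      have : 3 ^ 1 ≤ 3 ^ m := Nat.pow_le_pow_right (by norm_num) (by omega)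
      omega
    have h2 : 3 ^ (2 * m) = (2 * b + 1) ^ 2 := by rw [mul_comm, pow_mul, hb]
    rw [h2]
    rw [hb, Nat.add_sub_cancel, show (2 * b + 1) * (2 * b) = 2 * ((2 * b + 1) * b) by ring,
      Nat.mul_div_cancel_left _ (by norm_num)] at h1
    have h4 : ((2 * b + 1) ^ 2 - 1) / (3 - 1) = 2 * (b * b + b) := by
      rw [show (2 * b + 1) ^ 2 = 2 * (2 * (b * b + b)) + 1 by ring, Nat.add_sub_cancel]
      omega
    rw [h4]
    calc 2 * (b * b + b) ≤ ((2 * b + 1) * b) ^ 2 := by nlinarith [Nat.mul_le_mul hb1 hb1, Nat.zero_le (b ^ 3), Nat.zero_le (b ^ 4)]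
      _ ≤ L.index ^ 2 := Nat.pow_le_pow_left h1 2

theorem row_pomega_minus {S : Type*} [Group S] [Finite S] [IsSimpleGroup S] (h : Cfsg.IsPOmegaMinus S) : Row S := by
  obtain ⟨F, _, _, m, a, b, hm, hab, ⟨e⟩⟩ := h
  refine Row.of_nonempty ⟨e⟩ (Row.of_hasInv (H989.HasInvOrth.hasInv_minus hm a b hab) ?_)
  intro L hL
  have hq1 : 1 < Fintype.card F := Fintype.one_lt_card
  have h1 := (S2147.result rfl m hm a b hab).1 L hL
  rw [← geom_mul _ _ (by omega), ← mul_assoc, Nat.mul_div_cancel _ (by omega)] at h1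
  exact h1.trans (Nat.le_self_pow two_ne_zero _)

theorem row_pomega_plus {S : Type*} [Group S] [Finite S] [IsSimpleGroup S] (h : Cfsg.IsPOmegaPlus S) : Row S := by
  obtain ⟨F, _, _, m, hm, ⟨e⟩⟩ := h
  rcases Nat.lt_or_ge m 5 with h4 | h5
  · have h4' : m = 4 := by omega
    subst h4'
    exact Row.of_nonempty ⟨e⟩ H430.CfRowChev.row_D4
  have hs : IsSimpleGroup (Cfsg.POmega F (Cfsg.quadFormPlus m F)) := e.isSimpleGroup_congr.1 inferInstance
  refine Row.of_nonempty ⟨e⟩ (Row.of_hasInv (H989.HasInvOrth.hasInv_plus h5) ?_)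
  intro L hL
  have hq1 : 1 < Fintype.card F := Fintype.one_lt_card
  by_cases hq : 4 ≤ Fintype.card F
  · have h1 := (S2145.result rfl hq m hm).1 L hL
    rw [← geom_mul _ _ (by omega), mul_right_comm, Nat.mul_div_cancel _ (by omega)] at h1
    exact h1.trans (Nat.le_self_pow two_ne_zero _)
  · have hq' : Fintype.card F = 2 ∨ Fintype.card F = 3 := by omega
    obtain ⟨k, rfl⟩ : ∃ k, m = k + 1 := ⟨m - 1, by omega⟩
    rw [Nat.add_sub_cancel]
    rcases hq' with h2 | h3
    · have h1 := (S2146.result h2 (k + 1) hm).1 L hL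
      rw [Nat.add_sub_cancel] at h1
      have hg : ∑ i ∈ Finset.range (k + 1), 2 ^ i = 2 ^ (k + 1) - 1 := by
        have := geom_mul 2 (k + 1) le_rfl
        simpa using this
      rw [h2, hg]
      have hk : 1 ≤ 2 ^ k := Nat.one_le_two_pow
      have hk2 : 1 ≤ 2 ^ (k + 1) - 1 := by
        rw [pow_succ]
        omega
      calc (2 ^ (k + 1) - 1) * (2 ^ k + 1) ≤ (2 ^ k * (2 ^ (k + 1) - 1)) ^ 2 := by
            rw [pow_two]
            have e1 : 2 ^ k + 1 ≤ 2 ^ k * (2 ^ k * (2 ^ (k + 1) - 1)) := by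
              have hk4 : 2 ≤ 2 ^ k := by
                calc 2 = 2 ^ 1 := rfl
                  _ ≤ 2 ^ k := Nat.pow_le_pow_right (by norm_num) (by omega)
              calc 2 ^ k + 1 ≤ 2 ^ k * 2 := by omega
                _ ≤ 2 ^ k * (2 ^ k * (2 ^ (k + 1) - 1)) := by
                  apply Nat.mul_le_mul_left
                  calc 2 = 2 * 1 := rfl
                    _ ≤ _ := Nat.mul_le_mul hk4 hk2
            calc (2 ^ (k + 1) - 1) * (2 ^ k + 1) ≤ (2 ^ (k + 1) - 1) * (2 ^ k * (2 ^ k * (2 ^ (k + 1) - 1))) :=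
                  Nat.mul_le_mul_left _ e1
              _ = _ := by ring
        _ ≤ L.index ^ 2 := Nat.pow_le_pow_left h1 2
    · have h1 := plus_index (by omega) hs L hL
      rw [← geom _ _ (by omega)] at h1
      rw [h3] at h1 ⊢
      calc (∑ i ∈ Finset.range (k + 1), 3 ^ i) * (3 ^ k + 1)
          ≤ (∑ i ∈ Finset.range (k + 1), 3 ^ i) * ∑ i ∈ Finset.range (k + 1), 3 ^ i := by
            apply Nat.mul_le_mul_left
            obtain ⟨l, rfl⟩ : ∃ l, k = l + 1 := ⟨k - 1, by omega⟩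
            rw [Finset.sum_range_succ, Finset.sum_range_succ']
            omega
        _ = (∑ i ∈ Finset.range (k + 1), 3 ^ i) ^ 2 := (pow_two _).symm
        _ ≤ L.index ^ 2 := Nat.pow_le_pow_left h1 2

end Cfsg.Agent.H957.CfOrth
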