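import Cfsg.Agent.H957.FROne

/-!
# TEAM SR part 2 (S4970): `[FR-ONE]`, 2-groups of similitudes

* `Sim B` : similitudes;
* `symp_pair` : every 2-group of similitudes of an alternating form (`q` odd, `dim ≥ 3`) preserves a proper
  nondegenerate subspace or an orthogonal decomposition into two subspaces; `orth_pair` : the same for symmetric forms.
-/

set_option autoImplicit false

universe u

namespace Cfsg.Agent.H957.FR

open Cfsg.Agent.H721.FR Cfsg.Agent.H721.SR Module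

variable {F V : Type u} [Field F] [AddCommGroup V] [Module F V] {B : V →ₗ[F] V →ₗ[F] F} {ε : F}

/-- The similitudes. -/
def Sim (B : V →ₗ[F] V →ₗ[F] F) : Subgroup (V ≃ₗ[F] V) where
  carrier := {g | ∃ s : F, s ≠ 0 ∧ ∀ x y, B (g x) (g y) = s * B x y}
  one_mem' := ⟨1, one_ne_zero, fun x y => (one_mul _).symm⟩
  mul_mem' := by
    rintro a b ⟨s, hs, ha⟩ ⟨t, ht, hb⟩
    refine ⟨s * t, mul_ne_zero hs ht, fun x y => ?_⟩
    change B (a (b x)) (a (b y)) = _
    rw [ha, hb, mul_assoc]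
  inv_mem' := by
    rintro a ⟨s, hs, ha⟩
    refine ⟨s⁻¹, inv_ne_zero hs, fun x y => ?_⟩
    change B (a.symm x) (a.symm y) = _
    have h := ha (a.symm x) (a.symm y)
    rw [LinearEquiv.apply_symm_apply, LinearEquiv.apply_symm_apply] at h
    rw [h, ← mul_assoc, inv_mul_cancel₀ hs, one_mul]

theorem isom_le_sim : Isom B ≤ Sim B := fun g hg => ⟨1, one_ne_zero, fun x y => by
  rw [one_mul]; exact hg x y⟩

theorem sim_norm {g t : V ≃ₗ[F] V} (hg : g ∈ Sim B) (ht : t ∈ Isom B) :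
    g * t * g⁻¹ ∈ Isom B := by
  intro x y
  have h1 : ∀ x, g (g⁻¹ x) = x := fun x => g.apply_symm_apply x
  change B (g (t (g⁻¹ x))) (g (t (g⁻¹ y))) = B x y
  obtain ⟨s, -, hg⟩ := hg
  rw [hg, ht, ← hg, h1, h1]

theorem mem_sim_of (hnd : ∀ x, (∀ y, B x y = 0) → x = 0) (hV : Nontrivial V) {g : V ≃ₗ[F] V}
    {s : F} (h : ∀ x y, B (g x) (g y) = s * B x y) : g ∈ Sim B := by
  refine ⟨s, ?_, h⟩
  rintro rfl
  obtain ⟨x, hx⟩ := exists_ne (0 : V)
  apply hx
  apply g.injective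
  rw [map_zero]
  apply hnd
  intro y
  have h1 := h x (g.symm y)
  rwa [g.apply_symm_apply, zero_mul] at h1

theorem Red.mono {K L : Subgroup (V ≃ₗ[F] V)} (hKL : K ≤ L) (h : Red B L) : Red B K := by
  obtain ⟨U, h1, h2, h3, h4⟩ := h
  exact ⟨U, h1, h2, h3, fun g hg => h4 g (hKL hg)⟩

/-- 2-subgroups lie in maximal ones. -/
theorem exists_max {Γ : Type*} [Group Γ] [Finite Γ] {H P : Subgroup Γ} (hPH : P ≤ H)
    (hP : IsPGroup 2 P) : ∃ Q : Subgroup Γ, P ≤ Q ∧ Q ≤ H ∧ IsPGroup 2 Q ∧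
      ∀ P' : Subgroup Γ, Q ≤ P' → P' ≤ H → IsPGroup 2 P' → P' = Q := by
  obtain ⟨Q, hQ, hmax⟩ := (Set.toFinite {Q : Subgroup Γ | P ≤ Q ∧ Q ≤ H ∧ IsPGroup 2 Q}).exists_le_maximal
    (show P ∈ {Q : Subgroup Γ | P ≤ Q ∧ Q ≤ H ∧ IsPGroup 2 Q} from ⟨le_rfl, hPH, hP⟩)
  obtain ⟨h1, h2, h3⟩ := hmax.prop
  exact ⟨Q, h1, h2, h3, fun P' h4 h5 h6 => le_antisymm
    (hmax.le_of_ge ⟨h1.trans h4, h5, h6⟩ h4) h4⟩

/-- 2-groups of similitudes. -/
theorem sim_pair [Finite F] (h2 : (2 : F) ≠ 0) (hsymm : ∀ x y, B x y = ε * B y x)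
    (hε : ε = 1 ∨ ε = -1) (hnd : ∀ x, (∀ y, B x y = 0) → x = 0) (hn : 3 ≤ finrank F V)
    {P : Subgroup (V ≃ₗ[F] V)} (hP : IsPGroup 2 P)
    (hs : ∀ g ∈ P, ∃ s : F, ∀ x y, B (g x) (g y) = s * B x y) : Red B P := by
  obtain ⟨hV, hnt⟩ := finite_of hn
  have hfinG : Finite (V ≃ₗ[F] V) := finite_equiv
  have hPS : P ≤ Sim B := fun g hg => by
    obtain ⟨s, h⟩ := hs g hg
    exact mem_sim_of hnd hnt h
  obtain ⟨Q, hPQ, hQS, hQ2, hmax⟩ := exists_max hPS hP
  refine Red.mono hPQ ?_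
  have hone : ∀ g : V ≃ₗ[F] V, g * 1 * g⁻¹ = 1 := fun g => by rw [mul_one, mul_inv_cancel]
  have hneg : LinearEquiv.neg F ∈ Q := by
    obtain ⟨g, hg, h1⟩ := exists_conj_le hQS hQ2 hmax
      (Subgroup.zpowers_le.2 (isom_le_sim (neg_mem_isom (F := F) (B := B))))
      (isPGroup_zpowers_of_sq neg_neg')
    have h3 := h1 _ (Subgroup.mem_zpowers _)
    rwa [neg_comm, mul_inv_cancel_right] at h3
  have hcj : ∀ (g a b : V ≃ₗ[F] V), g * a * g⁻¹ * (g * b * g⁻¹) = g * (a * b) * g⁻¹ := by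
    intro g a b; group
  have hc1 : ∀ {g a : V ≃ₗ[F] V}, a ≠ 1 → g * a * g⁻¹ ≠ 1 := by
    intro g a ha h1
    apply ha
    rw [mul_inv_eq_one] at h1
    exact mul_eq_left.1 h1
  have hcn : ∀ {g a : V ≃ₗ[F] V}, a ≠ LinearEquiv.neg F → g * a * g⁻¹ ≠ LinearEquiv.neg F := by
    intro g a ha h1
    apply ha
    rw [mul_inv_eq_iff_eq_mul, ← neg_comm] at h1
    exact mul_left_cancel h1
  refine red_of_two h2 hsymm hnd hnt hQ2 (fun g hg t ht => sim_norm (hQS hg) ht) hneg ?_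
  rcases hε with rfl | rfl
  · left
    obtain ⟨s, hs, s', hs', a1, a2, a3, a4, a5, a6, a7, a8, a9⟩ := exists_four_orth h2
      (fun x y => by rw [hsymm x y, one_mul]) hnd hn
    have hss' : (s * s') * (s * s') = 1 := by
      calc s * s' * (s * s') = s * (s' * s) * s' := by group
        _ = (s * s) * (s' * s') := by rw [← a3]; group
        _ = 1 := by rw [a1, a2, one_mul]
    let X : Subgroup (V ≃ₗ[F] V) :=
      { carrier := {x | x = 1 ∨ x = s ∨ x = s' ∨ x = s * s'}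
        one_mem' := Or.inl rfl
        mul_mem' := by
          have e1 : s * (s * s') = s' := by rw [← mul_assoc, a1, one_mul]
          have e2 : s' * (s * s') = s := by rw [a3, ← mul_assoc, a2, one_mul]
          have e3 : s * s' * s = s' := by rw [a3, mul_assoc, a1, mul_one]
          have e4 : s * s' * s' = s := by rw [mul_assoc, a2, mul_one]
          rintro x y (rfl | rfl | rfl | rfl) (rfl | rfl | rfl | rfl)
          · exact Or.inl (mul_one 1)
          · exact Or.inr (Or.inl (one_mul _))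
          · exact Or.inr (Or.inr (Or.inl (one_mul _)))
          · exact Or.inr (Or.inr (Or.inr (one_mul _)))
          · exact Or.inr (Or.inl (mul_one _))
          · exact Or.inl a1
          · exact Or.inr (Or.inr (Or.inr rfl))
          · exact Or.inr (Or.inr (Or.inl e1))
          · exact Or.inr (Or.inr (Or.inl (mul_one _)))
          · exact Or.inr (Or.inr (Or.inr a3.symm))
          · exact Or.inl a2
          · exact Or.inr (Or.inl e2)
          · exact Or.inr (Or.inr (Or.inr (mul_one _)))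
          · exact Or.inr (Or.inr (Or.inl e3))
          · exact Or.inr (Or.inl e4)
          · exact Or.inl hss'
        inv_mem' := by
          rintro x (rfl | rfl | rfl | rfl)
          · exact Or.inl inv_one
          · exact Or.inr (Or.inl (inv_eq_of_mul_eq_one_left a1))
          · exact Or.inr (Or.inr (Or.inl (inv_eq_of_mul_eq_one_left a2)))
          · exact Or.inr (Or.inr (Or.inr (inv_eq_of_mul_eq_one_left hss'))) }
    have hX2 : IsPGroup 2 X := by
      rintro ⟨x, hx⟩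
      refine ⟨1, Subtype.ext ?_⟩
      change x ^ 2 ^ 1 = 1
      rw [pow_one, pow_two]
      rcases hx with rfl | rfl | rfl | rfl
      · exact mul_one 1
      · exact a1
      · exact a2
      · exact hss'
    have hXS : X ≤ Sim B := by
      rintro x (rfl | rfl | rfl | rfl)
      · exact one_mem _
      · exact isom_le_sim hs
      · exact isom_le_sim hs'
      · exact mul_mem (isom_le_sim hs) (isom_le_sim hs')
    obtain ⟨g, hg, hgP⟩ := exists_conj_le hQS hQ2 hmax hXS hX2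
    refine ⟨g * s * g⁻¹, sim_norm hg hs, hgP s (Or.inr (Or.inl rfl)), g * s' * g⁻¹,
      sim_norm hg hs', hgP s' (Or.inr (Or.inr (Or.inl rfl))), ?_, ?_, ?_, hc1 a4, hcn a5, hc1 a6,
      hcn a7, ?_, ?_⟩
    · rw [hcj, a1, hone]
    · rw [hcj, a2, hone]
    · rw [hcj, hcj, a3]
    · rw [hcj]; exact hc1 a8
    · rw [hcj]; exact hcn a9
  · right
    obtain ⟨u, hu, a1, a2, a3⟩ := exists_quarter h2
      (fun x y => by rw [hsymm x y, neg_one_mul]) hnd hn
    obtain ⟨g, hg, hgP⟩ := exists_conj_le hQS hQ2 hmax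
      (Subgroup.zpowers_le.2 (isom_le_sim hu)) (isPGroup_zpowers_of_four a3)
    refine ⟨g * u * g⁻¹, sim_norm hg hu, hgP u (Subgroup.mem_zpowers u), ?_, ?_, ?_⟩
    · rw [hcj]; exact hc1 a1
    · rw [hcj]; exact hcn a2
    · rw [hcj, hcj, a3, hone]

/-- **2-groups of symplectic similitudes.** -/
theorem symp_pair [Finite F] (h2 : (2 : F) ≠ 0) (hB : ∀ x y, B x y = -B y x)
    (hnd : ∀ x, (∀ y, B x y = 0) → x = 0) (hn : 3 ≤ finrank F V) (P : Subgroup (V ≃ₗ[F] V))
    (hP : IsPGroup 2 P) (hs : ∀ g ∈ P, ∃ s : F, ∀ x y, B (g x) (g y) = s * B x y) : Red B P :=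
  sim_pair (ε := -1) h2 (fun x y => by rw [neg_one_mul]; exact hB x y) (Or.inr rfl) hnd hn hP hs

/-- **2-groups of orthogonal similitudes.** -/
theorem orth_pair [Finite F] (h2 : (2 : F) ≠ 0) (hB : ∀ x y, B x y = B y x)
    (hnd : ∀ x, (∀ y, B x y = 0) → x = 0) (hn : 3 ≤ finrank F V) (P : Subgroup (V ≃ₗ[F] V))
    (hP : IsPGroup 2 P) (hs : ∀ g ∈ P, ∃ s : F, ∀ x y, B (g x) (g y) = s * B x y) : Red B P :=
  sim_pair (ε := 1) h2 (fun x y => by rw [one_mul]; exact hB x y) (Or.inl rfl) hnd hn hP hs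

end Cfsg.Agent.H957.FR
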