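import Cfsg.Agent.H141.Rg.Defs

/-!
# S5714 (tasks X3, X5, X6): an abstract criterion for `LRG`

`LSys G R K` : elements `x a t` (`a` a long root, `t` in a field `K`) of a group `G`, the pairing `pr` of the long roots,
the commutator relations, the (finite) conditions on the root system, the transitivity and the Bruhat form.
`LSys.lrg` : then `LRG (S.X S.top) 3`.
-/

set_option autoImplicit false
set_option linter.unusedSectionVars false

namespace Cfsg.Agent.H957.LRGAbs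

open Cfsg.Agent.H141.Rg

universe u

/-- long root elements -/
structure LSys (G : Type u) [Group G] (R K : Type) [Field K] where
  x : R → K → G
  pr : R → R → ℤ
  top : R
  x_add : ∀ a s t, x a (s + t) = x a s * x a t
  x_inj : ∀ a s, x a s = 1 → s = 0
  pr_self : ∀ a, pr a a = 2
  disj : ∀ a b s t, a ≠ b → x a s = x b t → s = 0
  comm : ∀ a b, 0 ≤ pr a b → ∀ s t, Commute (x a s) (x b t)
  symm : ∀ a b, pr a b = pr b a
  cases : ∀ a b, a = b ∨ pr a b = 1 ∨ pr a b = 0 ∨ pr a b = -1 ∨ pr a b = -2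
  /-- `a + b = c` -/
  cf : ∀ a b, pr a b = -1 → ∃ (c : R) (ε : K), ε ≠ 0 ∧ pr a c = 1 ∧ pr c b = 1 ∧
    ∀ s t, x a s * x b t * (x a s)⁻¹ * (x b t)⁻¹ = x c (ε * s * t)
  /-- `a - b = c` -/
  sub : ∀ a b, pr a b = 1 → ∃ (c : R) (ε : K), ε ≠ 0 ∧
    ∀ s t, x c s * x b t * (x c s)⁻¹ * (x b t)⁻¹ = x a (ε * s * t)
  ort : ∀ a b, pr a b = 0 → ∃ d, pr a d = 1 ∧ pr d b = 1
  opp : ∀ a b, pr a b = -2 → ∃ d e, pr a d = 1 ∧ pr d e = 1 ∧ pr e b = 1
  lev0 : ∀ a b, pr a b = 0 ∨ pr a b = -2 → ∃ d, pr a d = -1 ∧ 0 ≤ pr d b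
  lev1 : ∀ a, ∃ d, pr a d = -1
  trans : ∀ a, ∃ g : G, ∀ t, ∃ s, x a t = g * x top s * g⁻¹
  trans' : ∀ a (g : G), (∀ t, ∃ s, x a t = g * x top s * g⁻¹) → ∀ s, ∃ t, x a t = g * x top s * g⁻¹
  bru : ∀ g : G, ∃ b h, (∀ s, ∃ t, g * x top s * g⁻¹ = h * x b t * h⁻¹) ∧ (∀ t, ∃ s, g * x top s * g⁻¹ = h * x b t * h⁻¹) ∧
    (∀ s, ∃ t, h * x top s * h⁻¹ = x top t) ∧ (∀ t, ∃ s, h * x top s * h⁻¹ = x top t)

variable {G : Type u} [Group G] {R K : Type} [Field K] (S : LSys G R K)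

namespace LSys

theorem x_zero (a : R) : S.x a 0 = 1 := by
  have := S.x_add a 0 0
  simpa using this

theorem x_neg (a : R) (t : K) : S.x a (-t) = (S.x a t)⁻¹ := by
  rw [eq_inv_iff_mul_eq_one, ← S.x_add, neg_add_cancel, S.x_zero]

theorem x_inj' (a : R) {s t : K} (h : S.x a s = S.x a t) : s = t := by
  have : S.x a (s - t) = 1 := by rw [sub_eq_add_neg, S.x_add, S.x_neg, h, mul_inv_cancel]
  exact sub_eq_zero.1 (S.x_inj a _ this)

/-- the root groups -/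
def X (a : R) : Subgroup G where
  carrier := {g | ∃ t, g = S.x a t}
  one_mem' := ⟨0, (S.x_zero a).symm⟩
  mul_mem' := by rintro _ _ ⟨s, rfl⟩ ⟨t, rfl⟩; exact ⟨s + t, (S.x_add a s t).symm⟩
  inv_mem' := by rintro _ ⟨s, rfl⟩; exact ⟨-s, (S.x_neg a s).symm⟩

theorem mem_X {a : R} {g : G} : g ∈ S.X a ↔ ∃ t, g = S.x a t := Iff.rfl

theorem x_mem (a : R) (t : K) : S.x a t ∈ S.X a := ⟨t, rfl⟩

theorem mem_cj {X : Subgroup G} {g y : G} : y ∈ cj X g ↔ ∃ x ∈ X, g * x * g⁻¹ = y := by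
  simp [cj, Subgroup.mem_map, MulAut.conj_apply]

theorem cj_cj (X : Subgroup G) (g h : G) : cj (cj X g) h = cj X (h * g) := by
  ext y
  simp only [mem_cj]
  constructor
  · rintro ⟨_, ⟨x, hx, rfl⟩, rfl⟩
    exact ⟨x, hx, by group⟩
  · rintro ⟨x, hx, rfl⟩
    exact ⟨_, ⟨x, hx, rfl⟩, by group⟩

theorem cj_one (X : Subgroup G) : cj X 1 = X := by
  ext y; simp [mem_cj]

theorem cj_inv_eq {X Y : Subgroup G} {h : G} (e : cj X h = Y) : cj Y h⁻¹ = X := by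
  rw [← e, cj_cj, inv_mul_cancel, cj_one]

theorem cj_inf (X Y : Subgroup G) (g : G) : cj X g ⊓ cj Y g = cj (X ⊓ Y) g := by
  ext y
  simp only [Subgroup.mem_inf, mem_cj]
  constructor
  · rintro ⟨⟨x, hx, rfl⟩, ⟨z, hz, h⟩⟩
    have : z = x := by simpa using h
    subst this
    exact ⟨z, ⟨hx, hz⟩, rfl⟩
  · rintro ⟨x, ⟨hx, hz⟩, rfl⟩
    exact ⟨⟨x, hx, rfl⟩, ⟨x, hz, rfl⟩⟩

theorem cj_bot (g : G) : cj (⊥ : Subgroup G) g = ⊥ := by
  simp [cj]

theorem cj_mono {X Y : Subgroup G} (h : X ≤ Y) (g : G) : cj X g ≤ cj Y g := Subgroup.map_mono h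

theorem card_cj (X : Subgroup G) (g : G) : Nat.card (cj X g) = Nat.card X :=
  Nat.card_congr (Subgroup.equivMapOfInjective X _ (MulAut.conj g).injective).toEquiv.symm

theorem cj_injective (g : G) : Function.Injective fun X : Subgroup G => cj X g := by
  intro X Y h
  have := congrArg (fun Z => cj Z g⁻¹) h
  simpa [cj_cj, cj_one] using this

theorem exists_cj (a : R) : ∃ g : G, S.X a = cj (S.X S.top) g := by
  obtain ⟨g, hg⟩ := S.trans a
  refine ⟨g, le_antisymm ?_ ?_⟩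
  · rintro _ ⟨t, rfl⟩
    obtain ⟨s, hs⟩ := hg t
    exact mem_cj.2 ⟨_, S.x_mem _ s, hs.symm⟩
  · intro y hy
    obtain ⟨_, ⟨s, rfl⟩, rfl⟩ := mem_cj.1 hy
    obtain ⟨t, ht⟩ := S.trans' a g hg s
    exact ⟨t, ht.symm⟩

theorem bruhat (g : G) : ∃ b h, cj (S.X S.top) g = cj (S.X b) h ∧ cj (S.X S.top) h = S.X S.top := by
  obtain ⟨b, h, h1, h2, h3, h4⟩ := S.bru g
  refine ⟨b, h, le_antisymm ?_ ?_, le_antisymm ?_ ?_⟩
  · intro y hy
    obtain ⟨_, ⟨s, rfl⟩, rfl⟩ := mem_cj.1 hy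
    obtain ⟨t, ht⟩ := h1 s
    exact mem_cj.2 ⟨_, S.x_mem _ t, ht.symm⟩
  · intro y hy
    obtain ⟨_, ⟨t, rfl⟩, rfl⟩ := mem_cj.1 hy
    obtain ⟨s, hs⟩ := h2 t
    exact mem_cj.2 ⟨_, S.x_mem _ s, hs⟩
  · intro y hy
    obtain ⟨_, ⟨s, rfl⟩, rfl⟩ := mem_cj.1 hy
    obtain ⟨t, ht⟩ := h3 s
    exact ⟨t, ht⟩
  · rintro _ ⟨t, rfl⟩
    obtain ⟨s, hs⟩ := h4 t
    exact mem_cj.2 ⟨_, S.x_mem _ s, hs⟩

theorem inf_eq_bot {a b : R} (h : a ≠ b) : S.X a ⊓ S.X b = ⊥ := by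
  rw [eq_bot_iff]
  rintro y ⟨⟨s, rfl⟩, ⟨t, ht⟩⟩
  rw [S.disj a b s t h ht, S.x_zero]
  exact Subgroup.one_mem _

theorem card_X [Finite K] (a : R) : Nat.card (S.X a) = Nat.card K := by
  refine (Nat.card_congr (Equiv.ofBijective (fun t : K => (⟨S.x a t, S.x_mem a t⟩ : S.X a)) ⟨?_, ?_⟩)).symm
  · intro s t h
    exact S.x_inj' a (Subtype.ext_iff.1 h)
  · rintro ⟨_, ⟨t, rfl⟩⟩
    exact ⟨t, rfl⟩

/-- conjugation of `Adj` -/
theorem adj_cj {X A B : Subgroup G} (h : Adj X A B) (g : G) : Adj X (cj A g) (cj B g) := by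
  classical
  obtain ⟨T, Q, hA, hB, h1, h2, h3, h4, h5⟩ := h
  refine ⟨T.image fun C => cj C g, cj Q g, Finset.mem_image_of_mem _ hA, Finset.mem_image_of_mem _ hB, ?_, ?_, ?_, ?_, ?_⟩
  · intro C hC
    obtain ⟨D, hD, rfl⟩ := Finset.mem_image.1 hC
    obtain ⟨k, rfl⟩ := h1 D hD
    exact ⟨g * k, cj_cj _ _ _⟩
  · rw [Finset.card_image_of_injective _ (cj_injective g), h2]
  · intro C hC D hD hCD
    obtain ⟨C', hC', rfl⟩ := Finset.mem_image.1 hC
    obtain ⟨D', hD', rfl⟩ := Finset.mem_image.1 hD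
    rw [cj_inf, h3 C' hC' D' hD' (fun e => hCD (by rw [e])), cj_bot]
  · intro C hC
    obtain ⟨C', hC', rfl⟩ := Finset.mem_image.1 hC
    exact cj_mono (h4 C' hC') g
  · rw [card_cj, h5]

/-- conjugation of `Lev` -/
theorem lev_cj {X : Subgroup G} {z : G} (h : Lev X z) (g : G) : Lev X (g * z * g⁻¹) := by
  obtain ⟨Y, k, hY⟩ := h
  refine ⟨cj Y g, g * k, ?_, ?_, ?_⟩
  · intro w0 hw0
    obtain ⟨w, hw, rfl⟩ := mem_cj.1 hw0
    obtain ⟨y, hy, e⟩ := mem_cj.1 (hY.1 hw)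
    refine mem_cj.2 ⟨y, hy, ?_⟩
    have e' : k * y * k⁻¹ = z * w * z⁻¹ * w⁻¹ := e
    calc g * k * y * (g * k)⁻¹ = g * (k * y * k⁻¹) * g⁻¹ := by group
      _ = _ := by rw [e']; group
  · intro w0 hw0 w0' hw0' e
    obtain ⟨w, hw, rfl⟩ := mem_cj.1 hw0
    obtain ⟨w', hw', rfl⟩ := mem_cj.1 hw0'
    have e' : z * w * z⁻¹ * w⁻¹ = z * w' * z⁻¹ * w'⁻¹ := by
      have e1 : g * (z * w * z⁻¹ * w⁻¹) * g⁻¹ = g * (z * w' * z⁻¹ * w'⁻¹) * g⁻¹ := by
        calc g * (z * w * z⁻¹ * w⁻¹) * g⁻¹ = g * z * g⁻¹ * (g * w * g⁻¹) * (g * z * g⁻¹)⁻¹ * (g * w * g⁻¹)⁻¹ := by group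
          _ = g * z * g⁻¹ * (g * w' * g⁻¹) * (g * z * g⁻¹)⁻¹ * (g * w' * g⁻¹)⁻¹ := e
          _ = _ := by group
      exact mul_left_cancel (mul_right_cancel e1)
    rw [hY.2.1 hw hw' e']
  · intro y0 hy0
    obtain ⟨y, hy, rfl⟩ := mem_cj.1 hy0
    have hk : k * y * k⁻¹ ∈ cj X k := mem_cj.2 ⟨y, hy, rfl⟩
    obtain ⟨w, hw, e⟩ := hY.2.2 hk
    refine ⟨g * w * g⁻¹, mem_cj.2 ⟨w, hw, rfl⟩, ?_⟩
    have e' : z * w * z⁻¹ * w⁻¹ = k * y * k⁻¹ := e
    calc g * z * g⁻¹ * (g * w * g⁻¹) * (g * z * g⁻¹)⁻¹ * (g * w * g⁻¹)⁻¹ = g * (z * w * z⁻¹ * w⁻¹) * g⁻¹ := by group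
      _ = _ := by rw [e']; group

/-- the product of two commuting root groups -/
def Q (a b : R) (h : S.pr a b = 1) : Subgroup G where
  carrier := {g | ∃ s t, g = S.x a s * S.x b t}
  one_mem' := ⟨0, 0, by simp [S.x_zero]⟩
  mul_mem' := by
    rintro _ _ ⟨s, t, rfl⟩ ⟨s', t', rfl⟩
    refine ⟨s + s', t + t', ?_⟩
    have hc := S.comm a b (by omega) s' t
    rw [S.x_add, S.x_add]
    calc S.x a s * S.x b t * (S.x a s' * S.x b t') = S.x a s * (S.x b t * S.x a s') * S.x b t' := by group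
      _ = _ := by rw [← hc.eq]; group
  inv_mem' := by
    rintro _ ⟨s, t, rfl⟩
    refine ⟨-s, -t, ?_⟩
    rw [mul_inv_rev, S.x_neg, S.x_neg]
    exact ((S.comm a b (by omega) s t).inv_inv).eq.symm

theorem ab_inj {a b : R} (hab : a ≠ b) {s t s' t' : K} (h : S.x a s * S.x b t = S.x a s' * S.x b t') :
    s = s' ∧ t = t' := by
  have h1 : S.x a (-s' + s) = S.x b (t' + -t) := by
    rw [S.x_add, S.x_add, S.x_neg, S.x_neg, inv_mul_eq_iff_eq_mul, ← mul_assoc, eq_mul_inv_iff_mul_eq]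
    exact h
  have h2 : -s' + s = 0 := S.disj a b _ _ hab h1
  have h3 : s = s' := by linear_combination h2
  subst h3
  exact ⟨rfl, S.x_inj' b (mul_left_cancel h)⟩

theorem card_Q [Finite K] {a b : R} (h : S.pr a b = 1) (hab : a ≠ b) : Nat.card (S.Q a b h) = Nat.card K ^ 2 := by
  rw [sq, ← Nat.card_prod]
  refine (Nat.card_congr (Equiv.ofBijective
    (fun p : K × K => (⟨S.x a p.1 * S.x b p.2, p.1, p.2, rfl⟩ : S.Q a b h)) ⟨?_, ?_⟩)).symm
  · rintro ⟨s, t⟩ ⟨s', t'⟩ e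
    obtain ⟨h1, h2⟩ := S.ab_inj hab (Subtype.ext_iff.1 e)
    simp only at h1 h2
    rw [h1, h2]
  · rintro ⟨_, s, t, rfl⟩
    exact ⟨(s, t), rfl⟩

/-- two root groups at an angle of sixty degrees -/
theorem adj [Finite K] {a b : R} (h : S.pr a b = 1) : Adj (S.X S.top) (S.X a) (S.X b) := by
  classical
  have := Fintype.ofFinite K
  obtain ⟨c, ε, hε, hc⟩ := S.sub a b h
  have hab : a ≠ b := by
    rintro rfl
    rw [S.pr_self] at h
    omega
  have hcj : ∀ u t, S.x c u * S.x b t * (S.x c u)⁻¹ = S.x a (ε * u * t) * S.x b t := fun u t => by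
    rw [← hc u t]; group
  have hmem : ∀ u y, y ∈ cj (S.X b) (S.x c u) ↔ ∃ t, y = S.x a (ε * u * t) * S.x b t := by
    intro u y
    rw [mem_cj]
    constructor
    · rintro ⟨_, ⟨t, rfl⟩, rfl⟩
      exact ⟨t, hcj u t⟩
    · rintro ⟨t, rfl⟩
      exact ⟨_, S.x_mem b t, hcj u t⟩
  have hq : 1 < Nat.card K := Finite.one_lt_card
  have hne : ∀ {A B : Subgroup G}, A ⊓ B = ⊥ → Nat.card A = Nat.card K → A ≠ B := by
    rintro A B h1 h2 rfl
    rw [inf_idem] at h1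
    rw [h1, Subgroup.card_bot] at h2
    omega
  have h0 : ∀ u, S.X a ⊓ cj (S.X b) (S.x c u) = ⊥ := by
    intro u
    rw [eq_bot_iff]
    rintro y ⟨⟨s, rfl⟩, hy⟩
    obtain ⟨t, ht⟩ := (hmem u _).1 hy
    have h1 : S.x a s * S.x b 0 = S.x a (ε * u * t) * S.x b t := by rw [S.x_zero, mul_one, ht]
    obtain ⟨h2, h3⟩ := S.ab_inj hab h1
    rw [h2, ← h3, mul_zero, S.x_zero]
    exact Subgroup.one_mem _
  have h1 : ∀ u v, u ≠ v → cj (S.X b) (S.x c u) ⊓ cj (S.X b) (S.x c v) = ⊥ := by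
    intro u v huv
    rw [eq_bot_iff]
    rintro y ⟨hy, hy'⟩
    obtain ⟨s, rfl⟩ := (hmem u _).1 hy
    obtain ⟨t, ht⟩ := (hmem v _).1 hy'
    obtain ⟨h2, h3⟩ := S.ab_inj hab ht
    subst h3
    have h4 : ε * (u - v) * s = 0 := by linear_combination h2
    have h5 : s = 0 := by
      rcases mul_eq_zero.1 h4 with h4 | h4
      · rcases mul_eq_zero.1 h4 with h4 | h4
        · exact absurd h4 hε
        · exact absurd (sub_eq_zero.1 h4) huv
      · exact h4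
    rw [h5, mul_zero, S.x_zero, S.x_zero, mul_one]
    exact Subgroup.one_mem _
  refine ⟨insert (S.X a) (Finset.univ.image fun u => cj (S.X b) (S.x c u)), S.Q a b h, Finset.mem_insert_self _ _,
    Finset.mem_insert_of_mem (Finset.mem_image.2 ⟨0, Finset.mem_univ _, ?_⟩), ?_, ?_, ?_, ?_, ?_⟩
  · rw [S.x_zero, cj_one]
  · intro C hC
    rcases Finset.mem_insert.1 hC with rfl | hC
    · exact S.exists_cj a
    · obtain ⟨u, -, rfl⟩ := Finset.mem_image.1 hC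
      obtain ⟨g, hg⟩ := S.exists_cj b
      exact ⟨S.x c u * g, by rw [hg, cj_cj]⟩
  · rw [Finset.card_insert_of_notMem, Finset.card_image_of_injective, Finset.card_univ, S.card_X,
      Nat.card_eq_fintype_card]
    · intro u v huv
      by_contra hne'
      exact hne (h1 u v hne') (by rw [card_cj, S.card_X]) huv
    · intro hm
      obtain ⟨u, -, hu⟩ := Finset.mem_image.1 hm
      exact hne (h0 u) (S.card_X a) hu.symm
  · intro C hC D hD hCD
    rcases Finset.mem_insert.1 hC with rfl | hC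
    · rcases Finset.mem_insert.1 hD with rfl | hD
      · exact absurd rfl hCD
      · obtain ⟨u, -, rfl⟩ := Finset.mem_image.1 hD
        exact h0 u
    · obtain ⟨u, -, rfl⟩ := Finset.mem_image.1 hC
      rcases Finset.mem_insert.1 hD with rfl | hD
      · rw [inf_comm]; exact h0 u
      · obtain ⟨v, -, rfl⟩ := Finset.mem_image.1 hD
        exact h1 u v fun e => hCD (by rw [e])
  · intro C hC
    rcases Finset.mem_insert.1 hC with rfl | hC
    · rintro _ ⟨s, rfl⟩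
      exact ⟨s, 0, by rw [S.x_zero, mul_one]⟩
    · obtain ⟨u, -, rfl⟩ := Finset.mem_image.1 hC
      intro y hy
      obtain ⟨t, rfl⟩ := (hmem u _).1 hy
      exact ⟨_, _, rfl⟩
  · rw [S.card_Q h hab, S.card_X]

/-- the paths -/
theorem path [Finite K] {a b : R} : ∃ (l : ℕ) (p : ℕ → R), l ≤ 3 ∧ p 0 = a ∧ p l = b ∧ ∀ i < l, S.pr (p i) (p (i + 1)) = 1 := by
  rcases S.cases a b with rfl | h | h | h | h
  · exact ⟨0, fun _ => a, by omega, rfl, rfl, fun i hi => absurd hi (by omega)⟩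
  · refine ⟨1, fun i => if i = 0 then a else b, by omega, by simp, by simp, fun i hi => ?_⟩
    obtain rfl : i = 0 := by omega
    simpa using h
  · obtain ⟨d, h1, h2⟩ := S.ort a b h
    refine ⟨2, fun i => if i = 0 then a else if i = 1 then d else b, by omega, by simp, by simp, fun i hi => ?_⟩
    obtain rfl | rfl : i = 0 ∨ i = 1 := by omega
    · simpa using h1
    · simpa using h2
  · obtain ⟨d, -, -, h1, h2, -⟩ := S.cf a b h
    refine ⟨2, fun i => if i = 0 then a else if i = 1 then d else b, by omega, by simp, by simp, fun i hi => ?_⟩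
    obtain rfl | rfl : i = 0 ∨ i = 1 := by omega
    · simpa using h1
    · simpa using h2
  · obtain ⟨d, e, h1, h2, h3⟩ := S.opp a b h
    refine ⟨3, fun i => if i = 0 then a else if i = 1 then d else if i = 2 then e else b, by omega, by simp, by simp,
      fun i hi => ?_⟩
    obtain rfl | rfl | rfl : i = 0 ∨ i = 1 ∨ i = 2 := by omega
    · simpa using h1
    · simpa using h2
    · simpa using h3

/-- commutators with a root group at an angle of 120 degrees -/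
theorem lev_one {a b d : R} (h1 : S.pr a d = -1) (h2 : 0 ≤ S.pr d b) {s : K} (hs : s ≠ 0) (t : K) :
    Lev (S.X S.top) (S.x a s * S.x b t) := by
  obtain ⟨c, ε, hε, -, -, hc⟩ := S.cf a d h1
  obtain ⟨g, hg⟩ := S.exists_cj c
  have key : ∀ v, S.x a s * S.x b t * S.x d v * (S.x a s * S.x b t)⁻¹ * (S.x d v)⁻¹ = S.x c (ε * s * v) := by
    intro v
    rw [← hc s v]
    have hcm := S.comm d b h2 v t
    calc S.x a s * S.x b t * S.x d v * (S.x a s * S.x b t)⁻¹ * (S.x d v)⁻¹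
        = S.x a s * (S.x b t * S.x d v) * (S.x b t)⁻¹ * (S.x a s)⁻¹ * (S.x d v)⁻¹ := by group
      _ = _ := by rw [← hcm.eq]; group
  refine ⟨S.X d, g, ?_, ?_, ?_⟩
  · rintro _ ⟨v, rfl⟩
    rw [← hg]
    exact ⟨_, key v⟩
  · rintro _ ⟨v, rfl⟩ _ ⟨v', rfl⟩ e
    have e' : S.x c (ε * s * v) = S.x c (ε * s * v') := by rw [← key v, ← key v']; exact e
    rw [mul_left_cancel₀ (mul_ne_zero hε hs) (S.x_inj' c e')]
  · intro y hy
    rw [← hg] at hy
    obtain ⟨u, rfl⟩ := hy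
    refine ⟨S.x d ((ε * s)⁻¹ * u), S.x_mem _ _, ?_⟩
    have := key ((ε * s)⁻¹ * u)
    rw [mul_inv_cancel_left₀ (mul_ne_zero hε hs)] at this
    exact this

/-- commutators with the own root group -/
theorem lev_two {a b : R} (h1 : S.pr a b = -1) (s : K) {t : K} (ht : t ≠ 0) :
    Lev (S.X S.top) (S.x a s * S.x b t) := by
  obtain ⟨c, ε, hε, hac, -, hc⟩ := S.cf a b h1
  obtain ⟨g, hg⟩ := S.exists_cj c
  have key : ∀ v, S.x a s * S.x b t * S.x a v * (S.x a s * S.x b t)⁻¹ * (S.x a v)⁻¹ = S.x c (-(ε * v * t)) := by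
    intro v
    rw [S.x_neg, ← hc v t]
    have hcm : Commute (S.x a s) (S.x a v) := S.comm a a (by rw [S.pr_self]; omega) s v
    have hcc : Commute (S.x a s) (S.x a v * S.x b t * (S.x a v)⁻¹ * (S.x b t)⁻¹) := by
      rw [hc]; exact S.comm a c (by omega) _ _
    have hcc' := hcc.inv_right
    calc S.x a s * S.x b t * S.x a v * (S.x a s * S.x b t)⁻¹ * (S.x a v)⁻¹
        = (S.x a s * (S.x a v * S.x b t * (S.x a v)⁻¹ * (S.x b t)⁻¹)⁻¹) * (S.x a v * (S.x a s)⁻¹ * (S.x a v)⁻¹) := by group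
      _ = (S.x a v * S.x b t * (S.x a v)⁻¹ * (S.x b t)⁻¹)⁻¹ * S.x a s * (S.x a v * (S.x a s)⁻¹ * (S.x a v)⁻¹) := by
        rw [hcc'.eq]
      _ = (S.x a v * S.x b t * (S.x a v)⁻¹ * (S.x b t)⁻¹)⁻¹ * S.x a s * ((S.x a s)⁻¹ * S.x a v * (S.x a v)⁻¹) := by
        rw [hcm.symm.inv_right.eq]
      _ = _ := by group
  refine ⟨S.X a, g, ?_, ?_, ?_⟩
  · rintro _ ⟨v, rfl⟩
    rw [← hg]
    exact ⟨_, key v⟩
  · rintro _ ⟨v, rfl⟩ _ ⟨v', rfl⟩ e
    have e' : S.x c (-(ε * v * t)) = S.x c (-(ε * v' * t)) := by rw [← key v, ← key v']; exact e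
    have e2 := S.x_inj' c e'
    have e3 : (ε * t) * (v - v') = 0 := by linear_combination -e2
    rcases mul_eq_zero.1 e3 with e3 | e3
    · exact absurd e3 (mul_ne_zero hε ht)
    · rw [sub_eq_zero.1 e3]
  · intro y hy
    rw [← hg] at hy
    obtain ⟨u, rfl⟩ := hy
    refine ⟨S.x a (-((ε * t)⁻¹ * u)), S.x_mem _ _, ?_⟩
    have := key (-((ε * t)⁻¹ * u))
    have e : -(ε * -((ε * t)⁻¹ * u) * t) = u := by
      have := mul_ne_zero hε ht
      field_simp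
    rw [e] at this
    exact this

theorem lev_any {a b : R} (hab : a ≠ b) {s t : K} (hs : s ≠ 0) (ht : t ≠ 0) : Lev (S.X S.top) (S.x a s * S.x b t) := by
  rcases S.cases a b with rfl | h | h | h | h
  · exact absurd rfl hab
  · -- sixty degrees: conjugate into one root group
    obtain ⟨c, ε, hε, hc⟩ := S.sub a b h
    obtain ⟨d, hd⟩ := S.lev1 b
    have h1 : Lev (S.X S.top) (S.x b t) := by
      have := S.lev_one (b := d) hd (by rw [S.pr_self]; omega) ht 0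
      rwa [S.x_zero, mul_one] at this
    have h2 := lev_cj h1 (S.x c ((ε * t)⁻¹ * s))
    have h3 : S.x c ((ε * t)⁻¹ * s) * S.x b t * (S.x c ((ε * t)⁻¹ * s))⁻¹ = S.x a s * S.x b t := by
      have := hc ((ε * t)⁻¹ * s) t
      rw [mul_inv_eq_iff_eq_mul] at this
      rw [this]
      congr 2
      have := mul_ne_zero hε ht
      field_simp
    rwa [h3] at h2
  · obtain ⟨d, h1, h2⟩ := S.lev0 a b (Or.inl h)
    exact S.lev_one h1 h2 hs t
  · exact S.lev_two h s ht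
  · obtain ⟨d, h1, h2⟩ := S.lev0 a b (Or.inr h)
    exact S.lev_one h1 h2 hs t

theorem lrg [Finite K] : LRG (S.X S.top) 3 where
  ti := by
    intro g hg
    obtain ⟨b, h, h1, h2⟩ := S.bruhat g
    have hb : b ≠ S.top := by
      rintro rfl
      exact hg (h1.trans h2)
    rw [h1, ← h2, cj_inf, S.inf_eq_bot hb, cj_bot]
  conn := by
    intro g
    obtain ⟨b, h, h1, h2⟩ := S.bruhat g
    obtain ⟨l, p, hl, hp0, hpl, hp⟩ := S.path (a := S.top) (b := b)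
    refine ⟨l, fun i => cj (S.X (p i)) h, hl, ?_, ?_, fun i hi => adj_cj (S.adj (hp i hi)) h⟩
    · simp only [hp0, h2]
    · simp only [hpl, h1]
  lev := by
    intro g hg a ha ha1 y hy hy1
    obtain ⟨b, h, h1, h2⟩ := S.bruhat g
    have hb : S.top ≠ b := by
      rintro rfl
      exact hg (h1.trans h2)
    rw [← h2] at ha
    rw [h1] at hy
    obtain ⟨_, ⟨s, rfl⟩, rfl⟩ := mem_cj.1 ha
    obtain ⟨_, ⟨t, rfl⟩, rfl⟩ := mem_cj.1 hy
    have hs : s ≠ 0 := by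
      rintro rfl
      exact ha1 (by simp [S.x_zero])
    have ht : t ≠ 0 := by
      rintro rfl
      exact hy1 (by simp [S.x_zero])
    have := lev_cj (S.lev_any hb hs ht) h
    have e : h * (S.x S.top s * S.x b t) * h⁻¹ = h * S.x S.top s * h⁻¹ * (h * S.x b t * h⁻¹) := by group
    rwa [e] at this

end LSys

end Cfsg.Agent.H957.LRGAbs
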