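import Mathlib
import Cfsg.Agent.H957.SimsOmega
import Cfsg.Agent.H708.RFSU

/-!
# S3386, the unitary groups of large rank in cross characteristic (helper957, task 449)
-/

set_option autoImplicit false

namespace Cfsg.Agent.H957.Sims

open Module Cfsg.Agent.H851.Sims Matrix Cfsg

section

variable {F : Type} [Field F] {r k : ℕ} [Fact r.Prime] [CharP F r]

/-- the form data of the hermitian form -/
def hermData (n : ℕ) (hF : ∀ x : F, (x ^ r ^ k) ^ r ^ k = x) : FormData F (Fin n → F) where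
  σ := iterateFrobenius F r k
  f := hermForm n F (r ^ k)
  Q _ := 0
  θ := 0
  add_left u v w := by
    simp only [hermForm, Pi.add_apply, add_mul, Finset.sum_add_distrib]
  smul_left a u w := by
    simp only [hermForm, Pi.smul_apply, smul_eq_mul, Finset.mul_sum, mul_assoc]
  add_right u v w := by
    simp only [hermForm, Pi.add_apply, add_pow_char_pow, mul_add, Finset.sum_add_distrib]
  smul_right a u w := by
    simp only [hermForm, Pi.smul_apply, smul_eq_mul, mul_pow, Finset.mul_sum, iterateFrobenius_def]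
    exact Finset.sum_congr rfl fun i _ => by ring
  refl u v h := by
    have h1 : (hermForm n F (r ^ k) u v) ^ r ^ k = hermForm n F (r ^ k) v u := by
      simp only [hermForm, sum_pow_char_pow, mul_pow, hF]
      exact Finset.sum_congr rfl fun i _ => by ring
    rw [← h1, h, zero_pow (pow_ne_zero _ (Fact.out : r.Prime).ne_zero)]
  nondeg u h := by
    funext i
    have h1 := h (Pi.single i 1)
    have h2 : hermForm n F (r ^ k) u (Pi.single i 1) = u i := by
      rw [hermForm, Finset.sum_eq_single i]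
      · rw [Pi.single_eq_same, one_pow, mul_one]
      · intro j _ hj
        rw [Pi.single_eq_of_ne hj, zero_pow (pow_ne_zero _ (Fact.out : r.Prime).ne_zero), mul_zero]
      · intro hi
        exact absurd (Finset.mem_univ i) hi
    rw [← h2, h1, Pi.zero_apply]
  Q_add _ _ := by simp
  Q_smul _ _ _ := rfl

end

theorem large_psu (hC : Cfsg.Agent.H851.Sims.FormsCore) (c K : ℕ) : ∃ n₀ : ℕ, ∀ n : ℕ, n₀ ≤ n →
    ∀ (F : Type) [Field F] [Finite F] (r : ℕ) [Fact r.Prime] [CharP F r] (q : ℕ),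
    Nat.card F = q ^ 2 → ∀ (Z : Subgroup (Cfsg.PSU n F q)), Nat.card Z ≤ K → (Nat.card Z).Coprime r →
    ∃ E : Subgroup (Cfsg.PSU n F q), E ≤ Subgroup.centralizer (Z : Set _) ∧ IsPGroup r E ∧ c < Nat.card E := by
  obtain ⟨n₀, hn₀⟩ := large_abs hC c K
  refine ⟨n₀ + 3, ?_⟩
  intro n hn F _ _ r _ _ q hq Z hZ hZr
  have hfin : Fintype F := Fintype.ofFinite F
  have hF : Fintype.card F = q ^ 2 := by rw [← Nat.card_eq_fintype_card, hq]
  obtain ⟨k, hk⟩ : ∃ k, q = r ^ k := by
    obtain ⟨a, ha⟩ := FiniteField.card F r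
    obtain ⟨b, hb, hb2⟩ := (Nat.dvd_prime_pow (Fact.out : r.Prime)).1
      (show q ∣ r ^ (a : ℕ) by rw [← ha.2, hF]; exact dvd_pow_self q two_ne_zero)
    exact ⟨b, hb2⟩
  subst hk
  have hFq : ∀ x : F, (x ^ r ^ k) ^ r ^ k = x := by
    intro x
    rw [← pow_mul, ← sq, ← hF]
    exact FiniteField.pow_card x
  let D : FormData F (Fin n → F) := hermData n hFq
  have hmem : ∀ g : GL (Fin n) F, gle (Fin n) F g ∈ D.isom ↔
      ∀ u v, hermForm n F (r ^ k) ((g : Matrix (Fin n) (Fin n) F) *ᵥ u) ((g : Matrix (Fin n) (Fin n) F) *ᵥ v) =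
        hermForm n F (r ^ k) u v := fun g => ⟨fun h => h.1, fun h => ⟨h, fun _ => rfl⟩⟩
  refine hn₀ F (Fin n → F) r D 0 (fun v => rfl) (SU n F (r ^ k))
    ((gle (Fin n) F).toMonoidHom.comp (H708.RFam.rSU n (r ^ k))) ?_ ?_ ?_ ?_ ?_ Z hZ hZr
  · rw [Module.finrank_fintype_fun_eq_card, Fintype.card_fin]
    omega
  · exact (gle (Fin n) F).injective.comp (H708.RFam.rSU_injective n (r ^ k))
  · rintro g ⟨x, rfl⟩
    exact (hmem _).2 x.2
  · have h1 : ∀ g ∈ ⁅D.isom, D.isom⁆, g ∈ D.isom ∧ Matrix.det (((gle (Fin n) F).symm g : GL (Fin n) F) :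
        Matrix (Fin n) (Fin n) F) = 1 := by
      intro g hg
      refine ⟨Subgroup.commutator_le_self _ hg, ?_⟩
      let δ : ((Fin n → F) ≃ₗ[F] (Fin n → F)) →* Fˣ := Matrix.GeneralLinearGroup.det.comp (gle (Fin n) F).symm.toMonoidHom
      have h2 : g ∈ δ.ker := by
        have h3 : ⁅D.isom, D.isom⁆ ≤ δ.ker := by
          rw [Subgroup.commutator_le]
          intro a _ b _
          rw [MonoidHom.mem_ker, map_commutatorElement, commutatorElement_eq_one_iff_mul_comm, mul_comm]
        exact h3 hg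
      have h4 : δ g = 1 := h2
      have h5 := congrArg (fun x : Fˣ => (x : F)) h4
      exact h5
    intro g hg
    obtain ⟨hg1, hg2⟩ := h1 g hg
    have h3 : gle (Fin n) F ((gle (Fin n) F).symm g) = g := (gle (Fin n) F).apply_symm_apply g
    rw [← h3] at hg1
    refine ⟨⟨⟨(((gle (Fin n) F).symm g : GL (Fin n) F) : Matrix (Fin n) (Fin n) F), hg2⟩, (hmem _).1 hg1⟩, ?_⟩
    refine LinearEquiv.ext fun v => ?_
    conv_rhs => rw [← h3]
    rfl
  · intro z hz
    obtain ⟨l, hl⟩ := H708.RFam.rSU_center hF (by omega) z hz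
    refine ⟨l, fun v => ?_⟩
    change ((H708.RFam.rSU n (r ^ k) z : GL (Fin n) F) : Matrix (Fin n) (Fin n) F) *ᵥ v = l • v
    rw [hl, Matrix.smul_mulVec, Matrix.one_mulVec]

end Cfsg.Agent.H957.Sims
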