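import Cfsg.Agent.H957.TwE6Tab
import Cfsg.Agent.H957.LRGAbs
import Cfsg.Agent.ChevalleyStructure.TwE6BN
import Cfsg.Agent.ChevalleyStructure.FixedCard
import Cfsg.Agent.S0308

/-!
# S5714 [X6]: the long root groups of `²E₆(q)`
-/

set_option autoImplicit false
set_option linter.unusedSectionVars false

namespace Cfsg.Agent.H957.TwE6Lrg

open Cfsg.Lie Cfsg.Agent.ChevalleyStructure Cfsg.Agent.ChevalleyStructure.TwE6Basic
open Cfsg.Agent.ChevalleyStructure.TwE6BN Cfsg.Agent.ChevalleyStructure.GraphSymm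
open Cfsg.Agent.ChevalleyStructure.Elts
open Cfsg.Agent.H141.Rg Cfsg.Agent.H957.LRGAbs

variable {K : Type} [Field K]

/-- the fixed field -/
def K0 (φ : K →+* K) : Subfield K := RingHom.eqLocusField φ (RingHom.id K)

theorem mem_K0 {φ : K →+* K} {t : K} : t ∈ K0 φ ↔ φ t = t := Iff.rfl

theorem sg_fixed (φ : K →+* K) (r : Fin 72) (h1 : rho r = r) (h2 : epsE r = 1) (t : K) :
    sg φ (x r.val t) = x r.val (φ t) := by
  have h : symmE6.ε r = 1 := h2
  rw [sg_x, h, Int.cast_one, one_mul, h1]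

theorem sg_f (φ : K →+* K) (a : Fin 24) (t : K) : sg φ (x (f a) t) = x (f a) (φ t) :=
  sg_fixed φ ⟨f a, f_lt a⟩ (f_rho a) (f_eps a) t

theorem fix_iff {φ : K →+* K} (a : Fin 24) (t : K) : x (f a) t ∈ fix φ ↔ t ∈ K0 φ := by
  rw [mem_fix, sg_f, mem_K0]
  exact ⟨fun h => x_injective (f_lt a) h, fun h => by rw [h]⟩

section

variable {q : ℕ} {φ : K →+* K} (hφ : ∀ t, φ t = t ^ q) (hqq : ∀ t : K, (t ^ q) ^ q = t)
include hφ hqq

/-- conjugation by `n i` with a parameter in the fixed field -/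
theorem n_conj_f (i : Fin 4) (a : Fin 24) : ∃ η : K, η ∈ K0 φ ∧ η ≠ 0 ∧ ∀ t : K,
    n (K := K) i * x (f a) t * (n (K := K) i)⁻¹ = x (f (wf i a)) (η * t) := by
  obtain ⟨η, hη, h⟩ := n_conj (K := K) i (f_lt a)
  rw [← f_wf] at h
  refine ⟨η, ?_, hη, h⟩
  have h1 := h 1
  have hn : sg φ (n (K := K) i) = n i := twisted_le_fix φ hφ hqq (TwE6BN.n_mem_G φ hφ i)
  have h2 := congrArg (sg φ) h1
  rw [map_mul, map_mul, map_inv, hn, sg_f, sg_f, map_one, h1] at h2
  rw [mem_K0]
  have := x_injective (f_lt _) h2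
  rw [mul_one] at this
  exact this.symm

theorem mem_step (i : Fin 4) (a : Fin 24) (h : ∀ t ∈ K0 φ, x (f a) t ∈ twistedE6 K q) :
    ∀ t ∈ K0 φ, x (f (wf i a)) t ∈ twistedE6 K q := by
  intro t ht
  obtain ⟨η, hη, hη0, hc⟩ := n_conj_f hφ hqq i a
  have h1 := hc (η⁻¹ * t)
  rw [mul_inv_cancel_left₀ hη0] at h1
  rw [← h1]
  have hn := TwE6BN.n_mem_G (K := K) φ hφ i
  exact mul_mem (mul_mem hn (h _ (mul_mem (inv_mem hη) ht))) (inv_mem hn)

theorem mem_word (w : List (Fin 4)) (a : Fin 24) (h : ∀ t ∈ K0 φ, x (f a) t ∈ twistedE6 K q) :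
    ∀ t ∈ K0 φ, x (f (w.foldr wf a)) t ∈ twistedE6 K q := by
  induction w with
  | nil => exact h
  | cons i w ih => exact mem_step hφ hqq i _ ih

/-- all fixed root elements over the fixed field are in the group -/
theorem x_mem_G (a : Fin 24) {t : K} (ht : t ∈ K0 φ) : x (f a) t ∈ twistedE6 K q := by
  have h1 : ∀ t ∈ K0 φ, x (f 14) t ∈ twistedE6 K q := by
    intro t ht
    rw [f_base.1]
    exact TwE6Basic.single_mem (by rw [← hφ]; exact ht) (by simp)
  have h2 := mem_word (K := K) hφ hqq [1, 2, 3, 1, 2, 1, 0].reverse 14 h1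
  rw [wd_check'] at h2
  have h3 := mem_word (K := K) hφ hqq (wd.getD a.val []) 23 h2
  rw [wd_check] at h3
  exact h3 t ht

theorem mem_iff (a : Fin 24) (g : GL chevE6.Idx K) :
    (g ∈ chevE6.rootSubgroup K (f a) ∧ g ∈ twistedE6 K q) ↔ ∃ t ∈ K0 φ, g = x (f a) t := by
  constructor
  · rintro ⟨h1, h2⟩
    obtain ⟨t, rfl⟩ := mem_X.1 h1
    exact ⟨t, (fix_iff a t).1 (twisted_le_fix φ hφ hqq h2), rfl⟩
  · rintro ⟨t, ht, rfl⟩
    exact ⟨mem_X.2 ⟨t, rfl⟩, x_mem_G hφ hqq a ht⟩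

/-- transitivity -/
theorem trans_word (w : List (Fin 4)) (a : Fin 24) : ∃ g ∈ twistedE6 K q, ∀ y, y ∈ chevE6.rootSubgroup K (f a) ↔
    g * y * g⁻¹ ∈ chevE6.rootSubgroup K (f (w.foldr wf a)) := by
  induction w with
  | nil => exact ⟨1, one_mem _, fun y => by simp⟩
  | cons i w ih =>
    obtain ⟨g, hg, h⟩ := ih
    refine ⟨n i * g, mul_mem (TwE6BN.n_mem_G φ hφ i) hg, fun y => ?_⟩
    rw [h]
    have h2 := n_conj_mem_iff (K := K) i ⟨f (w.foldr wf a), f_lt _⟩ (g * y * g⁻¹)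
    have h3 : (wP i ⟨f (w.foldr wf a), f_lt _⟩).val = f ((i :: w).foldr wf a) := by
      rw [wP_val, List.foldr_cons, f_wf]
    rw [h3] at h2
    rw [h2]
    have e : n i * (g * y * g⁻¹) * (n i)⁻¹ = n i * g * y * (n i * g)⁻¹ := by group
    rw [e]

theorem trans_top (a : Fin 24) : ∃ g ∈ twistedE6 K q, ∀ y, y ∈ chevE6.rootSubgroup K (f 23) ↔
    g * y * g⁻¹ ∈ chevE6.rootSubgroup K (f a) := by
  have := trans_word hφ hqq (wd.getD a.val []) 23
  rwa [wd_check] at this

end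

/-- the Borel subgroup normalises the highest root subgroup -/
theorem borel_norm {b : GL chevE6.Idx K} (hb : b ∈ chevE6.borelSubgroup K) (y : GL chevE6.Idx K) :
    y ∈ chevE6.rootSubgroup K 71 ↔ b * y * b⁻¹ ∈ chevE6.rootSubgroup K 71 := by
  have key : chevE6.borelSubgroup K ≤ Subgroup.normalizer (chevE6.rootSubgroup K 71 : Set (GL chevE6.Idx K)) := by
    refine sup_le ?_ ?_
    · have h0 : chevE6.posUnipotent K ≤ Subgroup.centralizer (chevE6.rootSubgroup K 71 : Set (GL chevE6.Idx K)) := by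
        refine (Subgroup.closure_le _).2 ?_
        rintro g ⟨r, t, hr, hg⟩
        have hr72 : r < 72 := hr.1
        have hg' : g = x r t := Units.ext hg
        have hpos : 36 ≤ r := (pos_iff ⟨r, hr72⟩).1 hr
        rw [SetLike.mem_coe, Subgroup.mem_centralizer_iff, hg']
        intro y hy
        obtain ⟨u, rfl⟩ := mem_X.1 hy
        rcases top_comm ⟨r, hr72⟩ hpos with h | ⟨h1, h2⟩
        · have h' : r = 71 := h
          subst h'
          rw [TwE6Basic.x_add, TwE6Basic.x_add, add_comm]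
        · by_cases h3 : r = 71
          · subst h3
            rw [TwE6Basic.x_add, TwE6Basic.x_add, add_comm]
          · exact (comm_of_commTerms (K := K) (r := 71) (s := r) (by omega) hr72 h3 h1 h2 u t).symm
      exact h0.trans (Subgroup.centralizer_le_normalizer _)
    · intro h hh
      rw [Subgroup.mem_normalizer_iff]
      exact fun g => mem_diag_conj hh ⟨71, by omega⟩ g
  exact (Subgroup.mem_normalizer_iff.1 (key hb)) y

/-- the commutator formula -/
theorem comm_f {a b c : Fin 24} {C : ℤ} (h : chevE6.commTerms (f b) (f a) = [(f c, C, 1, 1)]) (hab : f a ≠ f b)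
    (hn : f a ≠ chevE6.neg (f b)) (hca : ∀ s t : K, Commute (x (f a) s) (x (f c) t))
    (hcb : ∀ s t : K, Commute (x (f b) s) (x (f c) t)) (s t : K) :
    x (f a) s * x (f b) t * (x (f a) s)⁻¹ * (x (f b) t)⁻¹ = x (f c) (-(C : K) * s * t) := by
  have h1 : x (f a) s * x (f b) t = x (f b) t * x (f a) s * x (f c) (-(C : K) * s * t) := by
    apply Units.ext
    show chevE6.x K (f a) s * chevE6.x K (f b) t = chevE6.x K (f b) t * chevE6.x K (f a) s * chevE6.x K (f c) _
    rw [Cfsg.Agent.S1025.result chevE6 hE6 (f b) (f a) (f_lt b) (f_lt a) hab hn t s]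
    have h2 : chevE6.commWord K (f b) (f a) t s = [(f c, (C : K) * (-t) ^ 1 * s ^ 1)] := by
      show (chevE6.commTerms (f b) (f a)).map _ = _
      rw [h]; rfl
    rw [h2, wordMat_cons, wordMat_nil, mul_one]
    congr 2
    ring
  have h3 := hca s (-(C : K) * s * t)
  have h4 := hcb t (-(C : K) * s * t)
  calc x (f a) s * x (f b) t * (x (f a) s)⁻¹ * (x (f b) t)⁻¹
      = x (f b) t * (x (f a) s * x (f c) (-(C : K) * s * t)) * (x (f a) s)⁻¹ * (x (f b) t)⁻¹ := by
        rw [h1]; group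
    _ = (x (f b) t * x (f c) (-(C : K) * s * t)) * (x (f b) t)⁻¹ := by rw [h3.eq]; group
    _ = _ := by rw [h4.eq]; group

theorem comm_x {a b : Fin 24} (h : 0 ≤ pr a b) (s t : K) : Commute (x (f a) s) (x (f b) t) := by
  rcases comm_check a b with rfl | h1 | ⟨h1, h2⟩
  · show _ * _ = _ * _
    rw [TwE6Basic.x_add, TwE6Basic.x_add, add_comm]
  · omega
  · by_cases hab : f b = f a
    · obtain rfl := f_inj _ _ hab
      show _ * _ = _ * _
      rw [TwE6Basic.x_add, TwE6Basic.x_add, add_comm]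
    · exact (comm_of_commTerms (K := K) (f_lt a) (f_lt b) hab h1 h2 s t).symm

/-- the root `a + b` -/
theorem cf_f {a b : Fin 24} (h : pr a b = -1) : ∃ (c : Fin 24) (ε : ℤ), (ε = 1 ∨ ε = -1) ∧ pr a c = 1 ∧ pr c b = 1 ∧
    (chevE6.commTerms (f b) (f a)).map Prod.fst = [f c] ∧
    ∀ s t : K, x (f a) s * x (f b) t * (x (f a) s)⁻¹ * (x (f b) t)⁻¹ = x (f c) ((ε : K) * s * t) := by
  have h0 : cfOK a b = true := (cf_check a b).resolve_left (fun hh => hh h)
  rw [cfOK, Bool.and_eq_true] at h0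
  obtain ⟨h1, h2⟩ := h0
  have hn := of_decide_eq_true h1
  split at h2
  · rename_i c C heq
    rw [Bool.and_eq_true, Bool.or_eq_true, List.any_eq_true] at h2
    obtain ⟨h3, d, -, h4⟩ := h2
    rw [Bool.and_eq_true, Bool.and_eq_true] at h4
    obtain ⟨⟨h5, h6⟩, h7⟩ := h4
    have h5 := of_decide_eq_true h5
    have h6 := of_decide_eq_true h6
    have h7 := of_decide_eq_true h7
    subst h5
    have hC : C = 1 ∨ C = -1 := h3.imp of_decide_eq_true of_decide_eq_true
    have hab : f a ≠ f b := fun e => by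
      obtain rfl := f_inj _ _ e
      rw [pr_self] at h
      omega
    refine ⟨d, -C, ?_, h6, h7, by rw [heq]; rfl, fun s t => ?_⟩
    · rcases hC with rfl | rfl <;> simp
    · rw [comm_f heq hab hn (fun s t => comm_x (by omega) s t) (fun s t => comm_x (by rw [pr_symm]; omega) s t) s t]
      push_cast
      rfl
  · exact absurd h2 (by simp)

end Cfsg.Agent.H957.TwE6Lrg
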