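import Cfsg.Agent.H957.TwE6Lrg

/-!
# S5714 [X6]: `LRG` for `²E₆(q)`
-/

set_option autoImplicit false
set_option linter.unusedSectionVars false

namespace Cfsg.Agent.H957.TwE6Lrg

open Cfsg.Lie Cfsg.Agent.ChevalleyStructure Cfsg.Agent.ChevalleyStructure.TwE6Basic
open Cfsg.Agent.ChevalleyStructure.TwE6BN
open Cfsg.Agent.H141.Rg Cfsg.Agent.H957.LRGAbs

attribute [local irreducible] f pr wf

theorem disj_check : ∀ a b : Fin 24, a = b ∨ ∃ d : Fin 24, pr a d = -1 ∧ 0 ≤ pr b d := by decide +kernel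

variable {K : Type} [Field K]

theorem disj_x {a b : Fin 24} (hab : a ≠ b) {s t : K} (h : x (f a) s = x (f b) t) : s = 0 := by
  obtain ⟨d, h1, h2⟩ := (disj_check a b).resolve_left hab
  obtain ⟨c, ε, hε, -, -, -, hc⟩ := cf_f (K := K) h1
  have h3 := hc s 1
  have h4 : x (f a) s * x (f d) (1 : K) * (x (f a) s)⁻¹ * (x (f d) (1 : K))⁻¹ = 1 := by
    rw [h, (comm_x h2 t 1).eq]; group
  rw [h4] at h3
  have h5 := (x_eq_one_iff (K := K) (f_lt c) _).1 h3.symm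
  have h6 : (ε : K) ≠ 0 := by rcases hε with rfl | rfl <;> simp
  simpa [h6] using h5

section

variable {q : ℕ} {φ : K →+* K} (hφ : ∀ t, φ t = t ^ q) (hqq : ∀ t : K, (t ^ q) ^ q = t)

include hφ hqq

/-- the elements in the group -/
def xx (a : Fin 24) (t : K0 φ) : ↥(twistedE6 K q) := ⟨x (f a) (t : K), x_mem_G hφ hqq a t.2⟩

theorem mem_xx (a : Fin 24) (y : ↥(twistedE6 K q)) :
    (y : GL chevE6.Idx K) ∈ chevE6.rootSubgroup K (f a) ↔ ∃ t : K0 φ, y = xx hφ hqq a t := by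
  constructor
  · intro h
    obtain ⟨t, ht, e⟩ := (mem_iff hφ hqq a y).1 ⟨h, y.2⟩
    exact ⟨⟨t, ht⟩, Subtype.ext e⟩
  · rintro ⟨t, rfl⟩
    exact mem_X.2 ⟨_, rfl⟩

theorem bru (g : ↥(twistedE6 K q)) : ∃ (b : Fin 24) (b1 n b2 : ↥(twistedE6 K q)), g = b1 * n * b2 ∧
    (∀ y, y ∈ chevE6.rootSubgroup K (f 23) ↔ (b1 : GL chevE6.Idx K) * y * (b1 : GL chevE6.Idx K)⁻¹ ∈ chevE6.rootSubgroup K (f 23)) ∧
    (∀ y, y ∈ chevE6.rootSubgroup K (f 23) ↔ (b2 : GL chevE6.Idx K) * y * (b2 : GL chevE6.Idx K)⁻¹ ∈ chevE6.rootSubgroup K (f 23)) ∧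
    (∀ y, y ∈ chevE6.rootSubgroup K (f 23) ↔ (n : GL chevE6.Idx K) * y * (n : GL chevE6.Idx K)⁻¹ ∈ chevE6.rootSubgroup K (f b)) := by
  obtain ⟨P, hB, hN⟩ : ∃ P : Cfsg.BNPair ↥(twistedE6 K q), P.B = (chevE6.borelSubgroup K).subgroupOf (twistedE6 K q) ∧
      P.N = (chevE6.monomialSubgroup K).subgroupOf (twistedE6 K q) := by
    obtain ⟨P, hB, hN, -⟩ := (T φ q hφ hqq).exists_bnPair
    exact ⟨P, hB, hN⟩
  obtain ⟨n, hn, hg⟩ := Cfsg.Agent.S0308.result P g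
  rw [DoubleCoset.mem_doubleCoset] at hg
  obtain ⟨b1, hb1, b2, hb2, e⟩ := hg
  have hB1 : (b1 : GL chevE6.Idx K) ∈ chevE6.borelSubgroup K := by
    have : b1 ∈ P.B := hb1
    rw [hB] at this
    exact this
  have hB2 : (b2 : GL chevE6.Idx K) ∈ chevE6.borelSubgroup K := by
    have : b2 ∈ P.B := hb2
    rw [hB] at this
    exact this
  have hNn : (n : GL chevE6.Idx K) ∈ (T φ q hφ hqq).N ⊓ (T φ q hφ hqq).G := by
    rw [hN] at hn
    exact ⟨hn, n.2⟩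
  rw [(T φ q hφ hqq).N_inf_G] at hNn
  obtain ⟨w, hw⟩ := exists_acts hNn
  have h71 : rho ⟨71, by omega⟩ = ⟨71, by omega⟩ := by decide +kernel
  have hfix : rho (w ⟨71, by omega⟩) = w ⟨71, by omega⟩ := by rw [hw.2.1, h71]
  obtain ⟨b, hb⟩ := exists_f _ hfix
  have h23 : f 23 = 71 := f_base.2.1
  refine ⟨b, b1, n, b2, e, ?_, ?_, ?_⟩
  · intro y; rw [h23]; exact borel_norm hB1 y
  · intro y; rw [h23]; exact borel_norm hB2 y
  · intro y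
    rw [h23, hb]
    exact hw.1 ⟨71, by omega⟩ y

theorem xx_inj (a : Fin 24) {s t : K0 φ} (h : xx hφ hqq a s = xx hφ hqq a t) : s = t :=
  Subtype.ext (x_injective (f_lt a) (congrArg Subtype.val h : x (f a) (s : K) = x (f a) (t : K)))

theorem trans_top' (a : Fin 24) : ∃ g : ↥(twistedE6 K q), ∀ y, y ∈ chevE6.rootSubgroup K (f 23) ↔
    (g : GL chevE6.Idx K) * y * (g : GL chevE6.Idx K)⁻¹ ∈ chevE6.rootSubgroup K (f a) := by
  obtain ⟨g, hg, h⟩ := trans_top hφ hqq a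
  exact ⟨⟨g, hg⟩, h⟩

theorem trans_xx (a : Fin 24) : ∃ g : ↥(twistedE6 K q), ∀ t, ∃ s, xx hφ hqq a t = g * xx hφ hqq 23 s * g⁻¹ := by
  obtain ⟨g, h⟩ := trans_top' hφ hqq a
  refine ⟨g, fun t => ?_⟩
  have e2 : ((g⁻¹ * xx hφ hqq a t * g : ↥(twistedE6 K q)) : GL chevE6.Idx K) ∈ chevE6.rootSubgroup K (f 23) := by
    refine (h _).2 ?_
    have e : (g : GL chevE6.Idx K) * ((g⁻¹ * xx hφ hqq a t * g : ↥(twistedE6 K q)) : GL chevE6.Idx K) *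
        (g : GL chevE6.Idx K)⁻¹ = (xx hφ hqq a t : ↥(twistedE6 K q)) := by
      show (g : GL chevE6.Idx K) * ((g : GL chevE6.Idx K)⁻¹ * (xx hφ hqq a t : GL chevE6.Idx K) *
        (g : GL chevE6.Idx K)) * (g : GL chevE6.Idx K)⁻¹ = _
      group
    rw [e]
    exact (mem_xx hφ hqq a _).2 ⟨t, rfl⟩
  obtain ⟨s, hs⟩ := (mem_xx hφ hqq 23 _).1 e2
  refine ⟨s, ?_⟩
  rw [← hs]; group

theorem trans_xx' [Finite K] (a : Fin 24) (g : ↥(twistedE6 K q)) (h : ∀ t, ∃ s, xx hφ hqq a t = g * xx hφ hqq 23 s * g⁻¹)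
    (s : K0 φ) : ∃ t, xx hφ hqq a t = g * xx hφ hqq 23 s * g⁻¹ := by
  choose σ hσ using h
  have hi : Function.Injective σ := fun t t' e => xx_inj hφ hqq a (by rw [hσ, hσ, e])
  obtain ⟨t, rfl⟩ := Finite.surjective_of_injective hi s
  exact ⟨t, hσ t⟩

theorem bru_xx (g : ↥(twistedE6 K q)) : ∃ (b : Fin 24) (h : ↥(twistedE6 K q)),
    (∀ s, ∃ t, g * xx hφ hqq 23 s * g⁻¹ = h * xx hφ hqq b t * h⁻¹) ∧
    (∀ t, ∃ s, g * xx hφ hqq 23 s * g⁻¹ = h * xx hφ hqq b t * h⁻¹) ∧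
    (∀ s, ∃ t, h * xx hφ hqq 23 s * h⁻¹ = xx hφ hqq 23 t) ∧ (∀ t, ∃ s, h * xx hφ hqq 23 s * h⁻¹ = xx hφ hqq 23 t) := by
  obtain ⟨b, b1, n, b2, rfl, h1, h2, h3⟩ := bru hφ hqq g
  refine ⟨b, b1, fun s => ?_, fun t => ?_, fun s => ?_, fun t => ?_⟩
  · have e1 : ((n * (b2 * xx hφ hqq 23 s * b2⁻¹) * n⁻¹ : ↥(twistedE6 K q)) : GL chevE6.Idx K) ∈
        chevE6.rootSubgroup K (f b) :=
      (h3 _).1 ((h2 _).1 ((mem_xx hφ hqq 23 _).2 ⟨s, rfl⟩))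
    obtain ⟨t, ht⟩ := (mem_xx hφ hqq b _).1 e1
    exact ⟨t, by rw [← ht]; group⟩
  · have e1 : ((n⁻¹ * xx hφ hqq b t * n : ↥(twistedE6 K q)) : GL chevE6.Idx K) ∈ chevE6.rootSubgroup K (f 23) := by
      refine (h3 _).2 ?_
      have e : (n : GL chevE6.Idx K) * ((n⁻¹ * xx hφ hqq b t * n : ↥(twistedE6 K q)) : GL chevE6.Idx K) *
          (n : GL chevE6.Idx K)⁻¹ = (xx hφ hqq b t : ↥(twistedE6 K q)) := by
        show (n : GL chevE6.Idx K) * ((n : GL chevE6.Idx K)⁻¹ * (xx hφ hqq b t : GL chevE6.Idx K) * (n : GL chevE6.Idx K)) *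
          (n : GL chevE6.Idx K)⁻¹ = _
        group
      rw [e]
      exact (mem_xx hφ hqq b _).2 ⟨t, rfl⟩
    have e2 : ((b2⁻¹ * (n⁻¹ * xx hφ hqq b t * n) * b2 : ↥(twistedE6 K q)) : GL chevE6.Idx K) ∈
        chevE6.rootSubgroup K (f 23) := by
      refine (h2 _).2 ?_
      have e : (b2 : GL chevE6.Idx K) * ((b2⁻¹ * (n⁻¹ * xx hφ hqq b t * n) * b2 : ↥(twistedE6 K q)) : GL chevE6.Idx K) *
          (b2 : GL chevE6.Idx K)⁻¹ = (n⁻¹ * xx hφ hqq b t * n : ↥(twistedE6 K q)) := by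
        show (b2 : GL chevE6.Idx K) * ((b2 : GL chevE6.Idx K)⁻¹ * ((n⁻¹ * xx hφ hqq b t * n : ↥(twistedE6 K q)) : GL chevE6.Idx K) *
          (b2 : GL chevE6.Idx K)) * (b2 : GL chevE6.Idx K)⁻¹ = _
        group
      rw [e]
      exact e1
    obtain ⟨s, hs⟩ := (mem_xx hφ hqq 23 _).1 e2
    refine ⟨s, ?_⟩
    rw [← hs]; group
  · obtain ⟨t, ht⟩ := (mem_xx hφ hqq 23 (b1 * xx hφ hqq 23 s * b1⁻¹)).1 ((h1 _).1 ((mem_xx hφ hqq 23 _).2 ⟨s, rfl⟩))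
    exact ⟨t, ht⟩
  · have e2 : ((b1⁻¹ * xx hφ hqq 23 t * b1 : ↥(twistedE6 K q)) : GL chevE6.Idx K) ∈
        chevE6.rootSubgroup K (f 23) := by
      refine (h1 _).2 ?_
      have e : (b1 : GL chevE6.Idx K) * ((b1⁻¹ * xx hφ hqq 23 t * b1 : ↥(twistedE6 K q)) : GL chevE6.Idx K) *
          (b1 : GL chevE6.Idx K)⁻¹ = (xx hφ hqq 23 t : ↥(twistedE6 K q)) := by
        show (b1 : GL chevE6.Idx K) * ((b1 : GL chevE6.Idx K)⁻¹ * (xx hφ hqq 23 t : GL chevE6.Idx K) *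
          (b1 : GL chevE6.Idx K)) * (b1 : GL chevE6.Idx K)⁻¹ = _
        group
      rw [e]
      exact (mem_xx hφ hqq 23 _).2 ⟨t, rfl⟩
    obtain ⟨s, hs⟩ := (mem_xx hφ hqq 23 _).1 e2
    refine ⟨s, ?_⟩
    rw [← hs]; group

omit hφ hqq in
theorem cf_K0 {a b : Fin 24} (h : pr a b = -1) : ∃ (c : Fin 24) (ε : K0 φ), ε ≠ 0 ∧ pr a c = 1 ∧ pr c b = 1 ∧
    (chevE6.commTerms (f b) (f a)).map Prod.fst = [f c] ∧
    ∀ s t : K0 φ, x (f a) (s : K) * x (f b) (t : K) * (x (f a) (s : K))⁻¹ * (x (f b) (t : K))⁻¹ =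
      x (f c) ((ε * s * t : K0 φ) : K) := by
  obtain ⟨c, ε, hε, h1, h2, h3, hc⟩ := cf_f (K := K) h
  refine ⟨c, (ε : K0 φ), ?_, h1, h2, h3, fun s t => ?_⟩
  · rcases hε with rfl | rfl <;> simp
  · rw [hc]
    push_cast
    rfl

theorem cf_xx {a b : Fin 24} (h : pr a b = -1) : ∃ (c : Fin 24) (ε : K0 φ), ε ≠ 0 ∧ pr a c = 1 ∧ pr c b = 1 ∧
    (chevE6.commTerms (f b) (f a)).map Prod.fst = [f c] ∧
    ∀ s t : K0 φ, xx hφ hqq a s * xx hφ hqq b t * (xx hφ hqq a s)⁻¹ * (xx hφ hqq b t)⁻¹ = xx hφ hqq c (ε * s * t) := by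
  obtain ⟨c, ε, hε, h1, h2, h3, hc⟩ := cf_K0 (φ := φ) h
  exact ⟨c, ε, hε, h1, h2, h3, fun s t => Subtype.ext (hc s t)⟩

theorem sub_xx {a b : Fin 24} (h : pr a b = 1) : ∃ (c : Fin 24) (ε : K0 φ), ε ≠ 0 ∧
    ∀ s t : K0 φ, xx hφ hqq c s * xx hφ hqq b t * (xx hφ hqq c s)⁻¹ * (xx hφ hqq b t)⁻¹ = xx hφ hqq a (ε * s * t) := by
  obtain ⟨c, h1, h2⟩ := (sub_check a b).resolve_left (fun hh => hh h)
  obtain ⟨c', ε, hε, -, -, h3, hc⟩ := cf_xx hφ hqq h1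
  rw [h2] at h3
  obtain rfl : c' = a := f_inj _ _ (by simpa using h3.symm)
  exact ⟨c, ε, hε, hc⟩

/-- the system of long root elements -/
def sys [Finite K] : LSys ↥(twistedE6 K q) (Fin 24) ↥(K0 φ) where
  x := xx hφ hqq
  pr := pr
  top := 23
  x_add := fun a s t => Subtype.ext (TwE6Basic.x_add (f a) (s : K) (t : K)).symm
  x_inj := fun a s h => Subtype.ext ((x_eq_one_iff (f_lt a) (s : K)).1 (congrArg Subtype.val h))
  pr_self := pr_self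
  disj := fun a b s t hab h => Subtype.ext (disj_x (K := K) hab (s := (s : K)) (t := (t : K)) (congrArg Subtype.val h))
  comm := fun a b h s t => Subtype.ext (comm_x h (s : K) (t : K)).eq
  symm := pr_symm
  cases := pr_cases
  cf := fun a b h => by
    obtain ⟨c, ε, hε, h1, h2, -, hc⟩ := cf_xx hφ hqq h
    exact ⟨c, ε, hε, h1, h2, hc⟩
  sub := fun a b h => sub_xx hφ hqq h
  ort := fun a b h => (ort_check a b).resolve_left (fun hh => hh h)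
  opp := fun a b h => (opp_check a b).resolve_left (fun hh => hh h)
  lev0 := fun a b h => (lev0_check a b).resolve_left (fun hh => h.elim hh.1 hh.2)
  lev1 := lev1_check
  trans := trans_xx hφ hqq
  trans' := trans_xx' hφ hqq
  bru := bru_xx hφ hqq

end

/-- **[X6], first part** -/
theorem lrg_te6 : ∃ c : ℕ, ∀ (F : Type) [Field F] [Fintype F] (q : ℕ), Fintype.card F = q ^ 2 →
    ∃ X : Subgroup ↥(twistedE6 F q), Nat.card X = q ∧ X ≠ ⊤ ∧ LRG X c := by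
  refine ⟨3, fun F _ _ q hF => ?_⟩
  have hq : IsPrimePow q := by
    have := FiniteField.isPrimePow_card F
    rw [hF] at this
    exact (isPrimePow_pow_iff two_ne_zero).1 this
  obtain ⟨φ, hφ, hqq⟩ := exists_frob hq hF
  have hfin : Finite F := inferInstance
  let S := sys hφ hqq
  refine ⟨S.X S.top, ?_, ?_, S.lrg⟩
  · rw [S.card_X]
    have h1 : Nat.card (K0 φ) = Nat.card {t : F // t ^ q = t} :=
      Nat.card_congr (Equiv.subtypeEquivRight fun t => by rw [← hφ t]; exact Iff.rfl)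
    rw [h1]
    exact FixedCard.card_fixed hq.one_lt hF
  · intro htop
    have h1 : S.x 0 1 ∈ S.X S.top := by rw [htop]; exact Subgroup.mem_top _
    obtain ⟨t, ht⟩ := h1
    exact one_ne_zero (S.disj 0 S.top 1 t (by show (0 : Fin 24) ≠ 23; decide) ht)

end Cfsg.Agent.H957.TwE6Lrg
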